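import Mathlib
import Cfsg.Agent.H53.DgDefs

/-!
Project DG, piece O10: `Ω₁₀⁺(2)` has an irreducible character of degree divisible by `14`.
-/

set_option autoImplicit false

namespace Cfsg.Agent.H55.DgO10

open Module Cfsg.Agent.H26 Cfsg.Agent.H78 Cfsg.Agent.H53.Dg
open scoped ComplexConjugate

section Grp

variable {G : Type} [Group G] [Finite G]

theorem ip_zero_of_add {χ χ' φ φ' : G → ℂ} (h1 : IsCharacter G χ) (h2 : IsCharacter G χ')
    (h3 : IsCharacter G φ) (h4 : IsCharacter G φ') (h : ip (χ + χ') (φ + φ') = 0) :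
    ip χ φ = 0 := by
  letI := Fintype.ofFinite G
  unfold ip at h ⊢
  by_contra h0
  have h5 := H11.classInner_add_ne_zero h1 h2 h3 h0
  rw [H11.classInner_ne_zero_comm] at h5
  have h6 := H11.classInner_add_ne_zero h3 h4 (H11.isCharacter_add h1 h2) h5
  rw [H11.classInner_ne_zero_comm] at h6
  exact h6 h

theorem ind_mul (S : Subgroup G) (ξ : S → ℂ) {δ : G → ℂ} (hδ : IsClassFunction G δ) :
    ind S (fun h => ξ h * δ h) = ind S ξ * δ := by
  letI := Fintype.ofFinite G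
  exact H14.indFun_mul_res S ξ hδ

theorem ip_one_eq_zero {δ : G → ℂ} (hδ : IsIrrCharacter G δ) (h : δ ≠ fun _ => 1) :
    ip (fun _ => 1) δ = 0 := by
  letI := Fintype.ofFinite G
  exact H11.classInner_irr_of_ne H11.isIrrCharacter_one hδ h.symm

omit [Finite G] in
theorem sgn_mul {N : Subgroup G} (hN : N.index = 2) {δ : G → ℂ} (h1 : ∀ g ∈ N, δ g = 1)
    (h2 : ∀ g, g ∉ N → δ g = -1) (a b : G) : δ (a * b) = δ a * δ b := by
  have := Subgroup.mul_mem_iff_of_index_two hN (a := a) (b := b)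
  by_cases ha : a ∈ N <;> by_cases hb : b ∈ N
  · rw [h1 a ha, h1 b hb, h1 _ (N.mul_mem ha hb), one_mul]
  · rw [h1 a ha, h2 b hb, h2 _ (fun h => hb ((this.1 h).1 ha)), one_mul]
  · rw [h2 a ha, h1 b hb, h2 _ (fun h => ha ((this.1 h).2 hb)), mul_one]
  · rw [h2 a ha, h2 b hb, h1 _ (this.2 (iff_of_false ha hb))]; norm_num

end Grp

theorem eq_one_of_card {F : Type} [Field F] (hF : Nat.card F = 2) {a : F} (ha : a ≠ 0) :
    a = 1 := by
  obtain ⟨y, -, hy⟩ := (Nat.card_eq_two_iff' (0 : F)).1 hF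
  exact (hy a ha).trans (hy 1 one_ne_zero).symm

section Geo

variable {F V : Type} [Field F] [AddCommGroup V] [Module F V] [Finite V] {P : PForm F V} {k : ℕ}

theorem perp_eq (L : Lev P k) : L.X ⊔ L.W = P.perp L.X := by
  have hle : L.X ⊔ L.W ≤ P.perp L.X := sup_le L.ts.2 (PForm.perp_anti le_sup_left)
  apply Submodule.eq_of_le_of_finrank_le hle
  have h1 := P.finrank_perp L.X
  have h2 := P.finrank_perp (L.X ⊔ L.X')
  have h3 := Submodule.finrank_add_le_finrank_add_finrank L.X L.X'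
  have h4 := Submodule.finrank_sup_add_finrank_inf_eq L.X L.W
  have h5 : L.X ⊓ L.W = ⊥ := by
    rw [eq_bot_iff, ← L.opp]
    exact inf_le_inf_left _ (PForm.perp_anti le_sup_right)
  rw [h5, finrank_bot] at h4
  have h6 := L.dim
  have h7 := L.dim'
  unfold Lev.W at h4 ⊢
  omega

omit [Finite V] in
theorem pr_one (L : Lev P k) : L.pr 1 = 1 := by
  have := L.pr_mul 1 (one_mem _) (one_mem _) 1 (one_mem _) (one_mem _)
  rw [mul_one] at this
  exact left_eq_mul.1 this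

theorem top_of_pr (L : Lev P k) {g : V ≃ₗ[F] V} (hg : g ∈ P.isom) (hX : g ∈ stabSub L.X)
    (h : L.pr g = 1) : Top P L.X g := by
  intro v hv
  rw [← perp_eq L] at hv
  obtain ⟨x, hx, w, hw, rfl⟩ := Submodule.mem_sup.1 hv
  have h1 := L.pr_spec g hg hX ⟨w, hw⟩
  rw [h] at h1
  have h2 : g x - x ∈ L.X := L.X.sub_mem ((hX x).1 hx) hx
  have h3 := L.X.add_mem h2 h1
  convert h3 using 1
  simp only [map_add, OneMemClass.coe_one, LinearEquiv.coe_one, id_eq]
  abel

omit [Finite V] in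
theorem ts_sup {X : Submodule F V} (hX : TS P X) {g : V ≃ₗ[F] V} (hg : g ∈ P.isom)
    (h : mp g X ≤ P.perp X) : TS P (X ⊔ mp g X) := by
  have h1 : ∀ y ∈ mp g X, P.Sing y := by
    rintro _ ⟨x, hx, rfl⟩
    exact (hX.1 x hx).map hg
  have h2 : mp g X ≤ P.perp (mp g X) := by
    rintro _ ⟨x, hx, rfl⟩ _ ⟨y, hy, rfl⟩
    exact (PForm.isom_f hg x y).trans (hX.2 hx y hy)
  refine ⟨fun v hv => ?_, ?_⟩
  · obtain ⟨x, hx, y, hy, rfl⟩ := Submodule.mem_sup.1 hv
    exact (hX.1 x hx).add (h1 y hy) (PForm.f_of_mem_perp' (h hy) hx)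
  · rw [PForm.perp_sup]
    exact sup_le (le_inf hX.2 (PForm.le_perp_comm.1 h)) (le_inf h h2)

end Geo

/-- The twisted induced character is orthogonal to the untwisted one. -/
theorem twist (Hc2 : Hc2Stmt) (Witt : WittStmt) (Opp : OppStmt) {F V : Type} [Field F] [Finite F]
    [AddCommGroup V] [Module F V] [Finite V] {P : PForm F V} (hT : Ty P false 5 0)
    (hF : Nat.card F = 2) (L : Lev P 4) {ψ : (L.X ≃ₗ[F] L.X) → ℂ} (hψ : CuspFn ψ true 1)
    (hN : (P.E.subgroupOf P.isom).index = 2) (hodd : Odd (stab P.isom L.X).index)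
    {δ : P.isom → ℂ} (h1 : ∀ g ∈ P.E.subgroupOf P.isom, δ g = 1)
    (h2 : ∀ g, g ∉ P.E.subgroupOf P.isom → δ g = -1) :
    ip (L.hc ψ fun _ => 1) (L.hc ψ (fun _ => 1) * δ) = 0 := by
  have hm := sgn_mul hN h1 h2
  have hδ1 : δ 1 = 1 := h1 1 (one_mem _)
  have hδ : IsIrrCharacter _ δ := H11.isIrrCharacter_of_map_mul hδ1 hm
  choose s hs1 hs2 hs3 hs4 hs5 using L.surj 1
  -- the sign on the complement
  have key : ∀ h : P.isom, h.1 ∈ stabSub L.X → δ ⟨s (L.pr h), hs1 _⟩ = δ h := by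
    intro h hh
    set g : P.isom := ⟨s (L.pr h), hs1 _⟩ with hg
    have hgX : g.1 ∈ stabSub L.X := hs2 _
    have huX : (g⁻¹ * h).1 ∈ stabSub L.X := mul_mem (inv_mem hgX) hh
    have hpr : L.pr (g⁻¹ * h).1 = 1 := by
      have e1 := L.pr_mul g.1 g.2 hgX (g⁻¹ * h).1 (g⁻¹ * h).2 huX
      have e2 : g.1 * (g⁻¹ * h).1 = h.1 := by simp
      have e3 : L.pr g.1 = L.pr h := hs5 _
      rw [e2, e3] at e1
      exact left_eq_mul.1 e1
    have hE : (g⁻¹ * h).1 ∈ P.E :=
      (Opp F V P L.X hT.sig L.ts).2.2 _ (g⁻¹ * h).2 (top_of_pr L (g⁻¹ * h).2 huX hpr)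
        (eq_one_of_card hF (LinearEquiv.isUnit_det' _).ne_zero)
    have e4 := hm g (g⁻¹ * h)
    rw [h1 (g⁻¹ * h) hE, mul_inv_cancel_left, mul_one] at e4
    exact e4.symm
  set δW : L.PW.isom → ℂ := fun B => δ ⟨s B, hs1 B⟩ with hδW
  have hW1 : δW 1 = 1 := by
    have := key 1 (one_mem _)
    rw [hδ1] at this
    simpa [pr_one L] using this
  have hWm : ∀ A B, δW (A * B) = δW A * δW B := by
    intro A B
    have e1 := key (⟨s A, hs1 A⟩ * ⟨s B, hs1 B⟩) (mul_mem (hs2 A) (hs2 B))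
    have e2 := L.pr_mul (s A) (hs1 A) (hs2 A) (s B) (hs1 B) (hs2 B)
    rw [hs5, hs5] at e2
    rw [hm] at e1
    simpa [e2] using e1
  have hW : IsIrrCharacter _ δW := H11.isIrrCharacter_of_map_mul hW1 hWm
  have hne : δW ≠ fun _ => 1 := by
    intro h0
    have hle : stab P.isom L.X ≤ P.E.subgroupOf P.isom := by
      intro h hh
      by_contra hc
      have e1 := key h hh
      have e2 : δW (L.pr h) = 1 := congrFun h0 _
      rw [h2 h hc] at e1
      have e3 : (1 : ℂ) = -1 := e2.symm.trans e1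
      norm_num at e3
    have := Subgroup.index_dvd_of_le hle
    rw [hN] at this
    exact (Nat.not_even_iff_odd.2 hodd) (even_iff_two_dvd.2 this)
  have hhc : L.hc ψ δW = L.hc ψ (fun _ => 1) * δ := by
    unfold Lev.hc
    rw [← ind_mul _ _ (H14.IsIrrCharacter.isClassFunction hδ)]
    congr 1
    funext h
    simp only [Lev.xi, mul_one]
    rw [← key h.1 h.2]
  have hc := H14.IsIrrCharacter.isCharacter hψ.irr
  rw [← hhc, Hc2 F V P 4 L ψ ψ (fun _ => 1) δW hT.sig (by norm_num) hc hc H11.isCharacter_one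
    (H14.IsIrrCharacter.isCharacter hW) hψ.cusp, ip_one_eq_zero hW hne, mul_zero]
  intro x hx1 hx2
  exfalso
  have e1 := (Witt F V P false 5 0 hT).1 _ (ts_sup L.ts x.2 hx1)
  have e2 := Submodule.finrank_sup_add_finrank_inf_eq L.X (mp x.1 L.X)
  have e3 : finrank F (mp x.1 L.X) = finrank F L.X := LinearEquiv.finrank_map_eq x.1 L.X
  rw [hx2, finrank_bot, e3, L.dim] at e2
  omega

/-- Descent of an irreducible character whose restriction stays irreducible. -/
theorem descend (Clif : ClifStmt) (Zen : ZenStmt) {F V : Type} [Field F] [Finite F]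
    [AddCommGroup V] [Module F V] [Finite V] {P : PForm F V} (hT : Ty P false 5 0)
    (hF : Nat.card F = 2) {χ : P.isom → ℂ} {n : ℕ} (hχ : IsIrrCharacter _ χ) (hn : χ 1 = n)
    (h : IsIrrCharacter (P.E.subgroupOf P.isom) fun g => χ g) : DgE P n := by
  have hd : finrank F V = 10 := (hT.orth rfl).2.2.2
  set e := (Subgroup.subgroupOfEquivOfLe (PForm.E_le_isom (P := P))).symm with he
  have h1 := (H11.isIrrCharacter_comp_iff_of_surjective (H14.IsIrrCharacter.isCharacter h)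
    e.toMonoidHom e.surjective).2 h
  have hz : ∀ z ∈ Subgroup.center P.E, z = 1 := by
    intro z hz
    rcases (Zen F V P false 5 0 hT).1 (by norm_num) (Or.inr (by omega)) z hz with h0 | h0
    · exact h0
    · apply Subtype.ext
      rw [h0]
      ext v
      have : (-1 : F) = 1 := eq_one_of_card hF (neg_ne_zero.2 one_ne_zero)
      have h2 : -v = v := by rw [← neg_one_smul F v, this, one_smul]
      simpa using h2
  obtain ⟨χ', h2, h3⟩ := (Clif P.E (Subgroup.center P.E)).2.2.1 _ h1 fun z h0 => by rw [hz z h0]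
  refine ⟨χ', h2, ?_⟩
  have := h3 1
  simpa [hn] using this

theorem o10 (Levi : LeviStmt) (Sd : SdStmt) (Hc1 : Hc1Stmt) (Hc2 : Hc2Stmt) (Nofix : NofixStmt)
    (Sub : SubStmt) (Vl : VlStmt) (V2 : V2Stmt) (Witt : WittStmt) (Opp : OppStmt)
    (Clif : ClifStmt) (Zen : ZenStmt) : O10Stmt := by
  intro F V _ _ _ _ _ P hT hF hC
  obtain ⟨L, -⟩ := Levi F V P false 5 0 4 hT (by norm_num)
  obtain ⟨ψ, hψ⟩ := hC L.X L.dim
  obtain ⟨χ, χ', n, n', hχ, hχ', hsum, hn, hn', hdeg, -, -⟩ :=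
    Sd F V P false 5 0 4 1 L ψ hT (by norm_num) (by norm_num) hψ
  have hd : finrank F V = 10 := (hT.orth rfl).2.2.2
  have hc := H14.IsIrrCharacter.isCharacter hχ
  have hc' := H14.IsIrrCharacter.isCharacter hχ'
  have hnn : n + n' = 1494045 := by
    rw [hF] at hdeg
    have : Nk 2 5 0 4 = 22410675 := by decide
    omega
  have hodd : Odd (stab P.isom L.X).index := by
    have e1 := (Hc1 F V P 4 L ψ (fun _ => 1) (H14.IsIrrCharacter.isCharacter hψ.irr)
      H11.isCharacter_one).2.1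
    rw [hsum, hn, hn', hψ.deg, mul_one, ← Nat.cast_add, ← Nat.cast_mul, Nat.cast_inj, hnn] at e1
    exact Nat.Odd.of_mul_left (e1 ▸ (by decide : Odd 1494045))
  obtain ⟨Y, x, hY, hY3, hx, hx1, hx2⟩ :=
    V2 F V P false 5 0 3 7 hT (by norm_num) (Or.inr ⟨rfl, rfl, hF⟩)
  have h0 := Nofix F V P P.isom L.X Y ψ (fun _ => 1) hT.sig PForm.E_le_isom le_rfl L.ts hY hψ.cusp
    (fun _ _ _ _ _ => rfl) (by rw [hY3, L.dim]; norm_num) (fun T hTS => by
      have := (Witt F V P false 5 0 hT).1 T hTS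
      rw [hY3, L.dim]; omega)
  have h1 : ∑ᶠ u : UU P P.isom Y, (χ u + χ' u) = 0 := by
    rw [← h0]
    exact finsum_congr fun u => (hsum u).symm
  have h2 : ∑ᶠ u : UU P P.isom Y, (χ' u + χ u) = 0 := by
    rw [← h1]
    exact finsum_congr fun u => add_comm _ _
  have h7 := Vl _ χ _ x 7 n hc hn (by norm_num) hx hx1 hx2 (Sub _ χ χ' _ hc hc' h1)
  have h7' := Vl _ χ' _ x 7 n' hc' hn' (by norm_num) hx hx1 hx2 (Sub _ χ' χ _ hc' hc h2)
  haveI hNn : (P.E.subgroupOf P.isom).Normal :=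
    ⟨fun a ha g => PForm.E_conj g.2 ha⟩
  have hN : (P.E.subgroupOf P.isom).index = 2 := by
    rw [(Zen F V P false 5 0 hT).2.1 (Or.inr (by omega)), hF]; decide
  have main : ∀ (α β : P.isom → ℂ) (m : ℕ), IsIrrCharacter _ α → IsIrrCharacter _ β →
      L.hc ψ (fun _ => 1) = α + β → α 1 = m → DgE P m := by
    intro α β m hα hβ hs hm
    refine descend Clif Zen hT hF hα hm ((Clif _ (P.E.subgroupOf P.isom)).2.2.2 hN α hα ?_)
    intro δ d1 d2
    have e1 := twist Hc2 Witt Opp hT hF L hψ hN hodd d1 d2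
    have hδ : IsCharacter _ δ := H14.IsIrrCharacter.isCharacter
      (H11.isIrrCharacter_of_map_mul (d1 1 (one_mem _)) (sgn_mul hN d1 d2))
    rw [hs, add_mul] at e1
    have ha := H14.IsIrrCharacter.isCharacter hα
    have hb := H14.IsIrrCharacter.isCharacter hβ
    exact ip_zero_of_add ha hb (H11.isCharacter_mul ha hδ) (H11.isCharacter_mul hb hδ) e1
  rcases Nat.even_or_odd n with he | he
  · exact ⟨n, Nat.Coprime.mul_dvd_of_dvd_of_dvd (by norm_num : Nat.Coprime 2 7) he.two_dvd h7,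
      main χ χ' n hχ hχ' (funext hsum) hn⟩
  · have he' : 2 ∣ n' := by obtain ⟨t, ht⟩ := he; omega
    exact ⟨n', Nat.Coprime.mul_dvd_of_dvd_of_dvd (by norm_num : Nat.Coprime 2 7) he' h7',
      main χ' χ n' hχ' hχ (funext fun g => (hsum g).trans (add_comm _ _)) hn'⟩

end Cfsg.Agent.H55.DgO10
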