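import Mathlib
import Cfsg.Agent.H55.Cores
import Cfsg.Agent.H83.Misc
import Cfsg.Agent.S1443

/-!
Bender's lemma: for odd `p`, a `p'`-group `Q` normalized by a `p`-group `A`, both acting on a
`p`-group `U`, centralizes `U` as soon as it centralizes the elements of order `p` of `C_U(A)`.
-/

namespace Cfsg.Agent.H55

open Subgroup H8
open scoped Pointwise commutatorElement

variable {G : Type*} [Group G] {p : ℕ}

/-- The symmetrized product of a list. -/
def symProd (l : List G) : G := l.prod * l.reverse.prod

theorem symProd_nil : symProd ([] : List G) = 1 := by simp [symProd]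

theorem symProd_cons (a : G) (l : List G) : symProd (a :: l) = a * symProd l * a := by
  simp [symProd, mul_assoc]

theorem symProd_mem {U : Subgroup G} {l : List G} (h : ∀ x ∈ l, x ∈ U) : symProd l ∈ U := by
  induction l with
  | nil => rw [symProd_nil]; exact one_mem _
  | cons a l ih =>
    rw [symProd_cons]
    exact mul_mem (mul_mem (h a (by simp)) (ih fun x hx => h x (by simp [hx]))) (h a (by simp))

theorem symProd_perm {U : Subgroup G} (hU : ⁅U, U⁆ ≤ centralizer (U : Set G)) {l l' : List G}
    (hp : l.Perm l') (h : ∀ x ∈ l, x ∈ U) : symProd l = symProd l' := by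
  induction hp with
  | nil => rfl
  | cons a _ ih => rw [symProd_cons, symProd_cons, ih fun x hx => h x (by simp [hx])]
  | swap a b l =>
    have ha : a ∈ U := h a (by simp)
    have hb : b ∈ U := h b (by simp)
    have hf : symProd l ∈ U := symProd_mem fun x hx => h x (by simp [hx])
    have hc := hU (commutator_mem_commutator (inv_mem hb) (inv_mem ha))
    have h1 := mem_centralizer_iff.mp hc _ (mul_mem (mul_mem hf ha) hb)
    simp only [symProd_cons]
    calc b * (a * symProd l * a) * b = a * b * (⁅b⁻¹, a⁻¹⁆ * (symProd l * a * b)) := by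
          simp only [commutatorElement_def]; group
      _ = a * b * (symProd l * a * b * ⁅b⁻¹, a⁻¹⁆) := by rw [h1]
      _ = a * (b * symProd l * b) * a := by
          simp only [commutatorElement_def]; group
  | trans h1 _ ih1 ih2 => rw [ih1 h, ih2 fun x hx => h x (h1.mem_iff.mpr hx)]

theorem symProd_map_conj (g : G) (l : List G) :
    symProd (l.map fun x => g * x * g⁻¹) = g * symProd l * g⁻¹ := by
  induction l with
  | nil => simp [symProd_nil]
  | cons a l ih => rw [List.map_cons, symProd_cons, symProd_cons, ih]; group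

theorem symProd_map_mul {U : Subgroup G} {z : G} (hz : z ∈ centralizer (U : Set G)) (l : List G)
    (h : ∀ x ∈ l, x ∈ U) :
    symProd (l.map fun x => z * x) = z ^ (2 * l.length) * symProd l := by
  induction l with
  | nil => simp [symProd_nil]
  | cons a l ih =>
    have ha : Commute a z := mem_centralizer_iff.mp hz a (h a (by simp))
    have hl : Commute (symProd l) z := mem_centralizer_iff.mp hz _
      (symProd_mem fun x hx => h x (by simp [hx]))
    rw [List.map_cons, symProd_cons, symProd_cons, ih fun x hx => h x (by simp [hx]),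
      List.length_cons, mul_add, pow_add, mul_one, pow_two]
    calc z * a * (z ^ (2 * l.length) * symProd l) * (z * a)
        = z * (a * z ^ (2 * l.length)) * (symProd l * z) * a := by group
      _ = z * (z ^ (2 * l.length) * a) * (z * symProd l) * a := by
          rw [(ha.pow_right _).eq, hl.eq]
      _ = z * z ^ (2 * l.length) * (a * z) * symProd l * a := by group
      _ = _ := by rw [ha.eq]; group

theorem perm_map_equiv {ι : Type*} [Fintype ι] (e : ι ≃ ι) :
    ((Finset.univ : Finset ι).toList.map e).Perm (Finset.univ : Finset ι).toList := by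
  classical
  refine (List.perm_ext_iff_of_nodup ((Finset.nodup_toList _).map e.injective)
    (Finset.nodup_toList _)).mpr fun x => ?_
  simp only [List.mem_map, Finset.mem_toList, Finset.mem_univ, true_and, iff_true]
  exact e.surjective x

/-- Bender's lemma. -/
theorem bender_omega [Finite G] [hp : Fact p.Prime] (hp2 : p ≠ 2) {A Q : Subgroup G}
    (hA : IsPGroup p A) (hQ : ¬ p ∣ Nat.card Q) (hAQ : A ≤ normalizer (Q : Set G))
    (U : Subgroup G) (hU : IsPGroup p U) (hAU : A ≤ normalizer (U : Set G))
    (hQU : Q ≤ normalizer (U : Set G))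
    (h : ∀ x ∈ U ⊓ centralizer (A : Set G), x ^ p = 1 → x ∈ centralizer (Q : Set G)) :
    U ≤ centralizer (Q : Set G) := by
  induction hn : Nat.card U using Nat.strong_induction_on generalizing U with
  | _ n ih =>
  subst hn
  have hcQ : (Nat.card Q).Coprime p := (hp.out.coprime_iff_not_dvd.mpr hQ).symm
  have hcop : (Nat.card Q).Coprime (Nat.card U) := H4.coprime_card_of_isPGroup hcQ hU
  have hsU : Group.IsSolvable U := H4.isSolvable_of_isPGroup hU
  have ih' : ∀ W : Subgroup G, W < U → A ≤ normalizer (W : Set G) → Q ≤ normalizer (W : Set G) →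
      W ≤ centralizer (Q : Set G) := fun W hW h1 h2 =>
    ih _ (H7.card_lt_of_lt hW) W (hU.to_le hW.le) h1 h2
      (fun x hx => h x ⟨hW.le hx.1, hx.2⟩) rfl
  rcases (commutator_le_left' hQU).lt_or_eq with hlt | heq
  · exact H4.le_centralizer_of_commutator_le_centralizer hQU hcop (Or.inr hsU)
      (ih' _ hlt (H4.le_normalizer_commutator hAU hAQ) (right_le_normalizer_commutator U Q))
  by_cases hbot : U = ⊥
  · rw [hbot]; exact bot_le
  have hU' := ih' _ (H3.commutator_lt_of_isSolvable hsU hbot) (H4.le_normalizer_commutator hAU hAU)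
    (H4.le_normalizer_commutator hQU hQU)
  set C := U ⊓ centralizer (Q : Set G) with hCdef
  have hU'C : ⁅U, U⁆ ≤ C := le_inf (commutator_le_left' le_normalizer) hU'
  have hCU : C ≤ centralizer (U : Set G) := by
    rw [← commutator_eq_bot_iff_le_centralizer, commutator_comm, ← heq]
    refine commutator_commutator_eq_bot_of_rotate ?_ ?_
    · rw [commutator_comm Q, commutator_eq_bot_of_le_centralizer inf_le_right, commutator_bot_left]
    · exact commutator_eq_bot_of_le_centralizer
        (((commutator_mono inf_le_left le_rfl).trans hU'C).trans inf_le_right)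
  have hcl : ⁅U, U⁆ ≤ centralizer (U : Set G) := hU'C.trans hCU
  let W : Subgroup G :=
    { carrier := {x | x ∈ U ∧ x ^ p = 1}
      one_mem' := ⟨one_mem _, one_pow _⟩
      mul_mem' := fun {a b} ha hb => ⟨mul_mem ha.1 hb.1, H7.mul_pow_eq_one_of_class2 hp.out hp2
        (mem_centralizer_iff.mp (hcl (commutator_mem_commutator hb.1 ha.1)) _ ha.1)
        (mem_centralizer_iff.mp (hcl (commutator_mem_commutator hb.1 ha.1)) _ hb.1) ha.2 hb.2⟩
      inv_mem' := fun {a} ha => ⟨inv_mem ha.1, by rw [inv_pow, ha.2, inv_one]⟩ }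
  have hWn : ∀ B : Subgroup G, B ≤ normalizer (U : Set G) → B ≤ normalizer (W : Set G) :=
    fun B hB => le_normalizer_of_forall fun b hb u hu =>
      ⟨H4.conj_mem_of_mem_normalizer (hB hb) hu.1, by rw [conj_pow, hu.2]; simp⟩
  rcases (show W ≤ U from fun x hx => hx.1).lt_or_eq with hlt | hWU
  · have hW := ih' W hlt (hWn A hAU) (hWn Q hQU)
    refine le_centralizer_iff.mp (Cfsg.Agent.S1443.result p hp2 U ⊥ Q hU bot_le
      H7.isElementaryAbelian_bot hQU hcQ fun x hx hxp => ?_)
    rw [← H52.centralizer_zpowers]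
    exact le_centralizer_iff.mp (zpowers_le.mpr (hW ⟨hx.1, hxp ▸ pow_orderOf_eq_one x⟩))
  have hexp : ∀ x ∈ U, x ^ p = 1 := fun x hx => (hWU.ge hx).2
  by_contra hnot
  have hCU' : C < U := lt_of_le_of_ne inf_le_left fun h => hnot (h.ge.trans inf_le_right)
  have hAC : A ≤ normalizer (C : Set G) :=
    H4.le_normalizer_inf hAU (H4.le_normalizer_centralizer hAQ)
  obtain ⟨x, hx, hxC, hxA⟩ := H83.exists_central_mod hA hU hAU hAC
    (le_normalizer_of_le_centralizer (le_centralizer_iff.mp hCU)) hCU'
  have := Fintype.ofFinite Q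
  let N : G → G := fun y => symProd ((Finset.univ : Finset Q).toList.map
    fun q : Q => (q : G) * y * (q : G)⁻¹)
  have hmem : ∀ y ∈ U, ∀ z ∈ (Finset.univ : Finset Q).toList.map
      (fun q : Q => (q : G) * y * (q : G)⁻¹), z ∈ U := by
    intro y hy z hz
    obtain ⟨q, -, rfl⟩ := List.mem_map.mp hz
    exact H4.conj_mem_of_mem_normalizer (hQU q.2) hy
  have hperm : ∀ y ∈ U, ∀ e : Q ≃ Q, symProd ((Finset.univ : Finset Q).toList.map
      fun q : Q => (e q : G) * y * (e q : G)⁻¹) = N y := by
    intro y hy e
    refine (symProd_perm hcl ?_ (hmem y hy)).symm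
    have := ((perm_map_equiv e).map fun q : Q => (q : G) * y * (q : G)⁻¹).symm
    rwa [List.map_map] at this
  have hNC : N x ∈ C := by
    refine ⟨symProd_mem (hmem x hx), mem_centralizer_iff.mpr fun g hg => ?_⟩
    have h1 := hperm x hx (Equiv.mulLeft ⟨g, hg⟩)
    have h2 := symProd_map_conj g ((Finset.univ : Finset Q).toList.map
      fun q : Q => (q : G) * x * (q : G)⁻¹)
    rw [List.map_map] at h2
    have h3 : g * N x * g⁻¹ = N x := by
      refine h2.symm.trans (Eq.trans ?_ h1)
      congr 2
      ext q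
      simp [mul_assoc]
    calc g * N x = g * N x * g⁻¹ * g := by group
      _ = N x * g := by rw [h3]
  have hNa : ∀ a ∈ A, a * N x * a⁻¹ = ⁅a, x⁆ ^ (2 * Nat.card Q) * N x := by
    intro a ha
    have hz := hxA a (mem_sup_left ha)
    have h1 := hperm _ (H4.conj_mem_of_mem_normalizer (hAU ha) hx)
      (Q.normalizerMonoidHom ⟨a, hAQ ha⟩).toEquiv
    have h2 := symProd_map_conj a ((Finset.univ : Finset Q).toList.map
      fun q : Q => (q : G) * x * (q : G)⁻¹)
    have h3 := symProd_map_mul (hCU hz) _ (hmem x hx)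
    rw [List.map_map] at h2 h3
    rw [List.length_map, Finset.length_toList, Finset.card_univ, ← Nat.card_eq_fintype_card] at h3
    rw [← h2, ← h3]
    refine Eq.trans ?_ (h1.trans ?_)
    · congr 2
      ext q
      simp [mul_assoc]
    · show symProd _ = symProd _
      congr 2
      ext q
      have hq := mem_centralizer_iff.mp hz.2 q q.2
      simp only [Function.comp]
      rw [show a * x * a⁻¹ = ⁅a, x⁆ * x by simp [commutatorElement_def], ← mul_assoc, hq]
      group
  obtain ⟨m, hm⟩ : ∃ m, 2 * Nat.card Q * m % p = 1 := by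
    obtain ⟨m, -, hm⟩ := Nat.exists_mul_mod_eq_one_of_coprime (k := p) (n := 2 * Nat.card Q)
      (Nat.Coprime.mul_left ((Nat.coprime_primes Nat.prime_two hp.out).mpr hp2.symm) hcQ)
      hp.out.one_lt
    exact ⟨m, hm⟩
  have hu : (N x ^ m)⁻¹ * x ∈ U ⊓ centralizer (A : Set G) := by
    refine ⟨U.mul_mem (U.inv_mem (U.pow_mem hNC.1 m)) hx, mem_centralizer_iff.mpr fun a ha => ?_⟩
    have hz := hxA a (mem_sup_left ha)
    have hc : Commute (N x) ⁅a, x⁆ := mem_centralizer_iff.mp (hCU hz) _ hNC.1
    have h1 : a * N x ^ m * a⁻¹ = ⁅a, x⁆ * N x ^ m := by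
      rw [← conj_pow, hNa a ha, (hc.symm.pow_left _).mul_pow, ← pow_mul,
        ← Nat.div_add_mod (2 * Nat.card Q * m) p, hm, pow_add, pow_mul, hexp _ hz.1, one_pow,
        one_mul, pow_one]
    calc a * ((N x ^ m)⁻¹ * x) = (a * N x ^ m * a⁻¹)⁻¹ * (⁅a, x⁆ * x) * a := by
          simp only [commutatorElement_def]; group
      _ = (N x ^ m)⁻¹ * x * a := by rw [h1]; group
  have h2 := h _ hu (hexp _ hu.1)
  refine hxC ⟨hx, ?_⟩
  have := mul_mem (pow_mem hNC.2 m) h2
  simpa using this

end Cfsg.Agent.H55
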