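import Mathlib
import Cfsg.Agent.H99.C1Defs

/-!
The essential subgroups of a saturated fusion system over the Sylow `3`-subgroup of `Co₁` that
contain `J`.
-/

set_option autoImplicit false

namespace Cfsg.Agent.H55.C1Pj

open Cfsg.Agent.H97 Cfsg.Agent.H96.VB Cfsg.Agent.H96.CP Cfsg.Agent.H99.C1 Subgroup
open scoped commutatorElement

section general
universe u
variable {Γ : Type u} [Group Γ] {P : Subgroup Γ} {A : Subgroup (MulAut P)} {X Y : Set Γ}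

theorem comm_mem {x y : Γ} (hx : x ∈ P) (hy : y ∈ P) : ⁅x, y⁆ ∈ P := by
  rw [commutatorElement_def]
  exact mul_mem (mul_mem (mul_mem hx hy) (inv_mem hx)) (inv_mem hy)

theorem ext_ext_inv' (α : MulAut P) (x : Γ) : ext α (ext α⁻¹ x) = x := by
  rw [← ext_mul, mul_inv_cancel]
  by_cases hx : x ∈ P
  · rw [ext_apply _ hx]; rfl
  · exact ext_of_not_mem _ hx

theorem iv_comm' (h : Iv A X) (k : Iv A Y) : Iv A {g | ∀ x ∈ P, x ∈ Y → ⁅x, g⁆ ∈ X} :=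
  fun α hα g hg e x hx hY => by
    have hx' := ext_mem α⁻¹ hx
    have := h α hα _ (comm_mem hx' hg) (e _ hx' (k α⁻¹ (inv_mem hα) x hx hY))
    rwa [ext_map_comm α hx' hg, ext_ext_inv'] at this

theorem iv_comm2 (h : Iv A X) (k : Iv A Y) : Iv A {g | ∀ x ∈ P, x ∈ Y → ⁅g, ⁅g, x⁆⁆ ∈ X} :=
  fun α hα g hg e x hx hY => by
    have hx' := ext_mem α⁻¹ hx
    have := h α hα _ (comm_mem hg (comm_mem hg hx')) (e _ hx' (k α⁻¹ (inv_mem hα) x hx hY))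
    rwa [ext_map_comm α hg (comm_mem hg hx'), ext_map_comm α hg hx', ext_ext_inv'] at this

theorem iv_cs (k : Iv A Y) : Iv A {q | ∃ x ∈ P, ∃ y ∈ P, y ∈ Y ∧ q = ⁅x, y⁆} := by
  rintro α hα _ - ⟨x, hx, y, hy, hY, rfl⟩
  exact ⟨_, ext_mem α hx, _, ext_mem α hy, k α hα y hy hY, ext_map_comm α hx hy⟩

end general

theorem k3 : ∀ a : K, a = 0 ∨ a = 1 ∨ a = 2 := by decide

/-- the commutator with a member of `J` -/
def dl (g j : G) : G := ⟨0, 0, 0,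
  2 * g.a * j.y + 2 * g.c * j.x + g.a * g.a * j.w + 2 * g.a * g.c * j.v + g.c * g.c * j.t,
  g.b * j.x + g.a * j.w + (g.a * g.b + g.c) * j.v + g.b * g.c * j.t,
  g.a * j.v + g.c * j.t, 2 * g.b * j.v + g.b * g.b * j.t, g.b * j.t, 0⟩

theorem cmJ (g : G) {j : G} (hj : j ∈ J) : ⁅g, j⁆ = dl g j := by
  obtain ⟨e1, e2, e3⟩ := hj
  rw [cm, mul_inv_eq_iff_eq_mul, mul_inv_eq_iff_eq_mul]
  ext <;> simp [dl, e1, e2, e3] <;> ring

theorem cm_a (g h : G) : ⁅g, h⁆.a = 0 := by simp [cm]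
theorem cm_b (g h : G) : ⁅g, h⁆.b = 0 := by simp [cm]
theorem cm_c (g h : G) : ⁅g, h⁆.c = g.a * h.b - h.a * g.b := by simp [cm]; ring

variable {P : Subgroup G} {A B : Subgroup (MulAut P)}

theorem ivJ (JU : JUStmt) (hJ : J ≤ P) : Iv A J := by
  intro α _ x hx hxJ
  let Q : Subgroup G := ((J.subgroupOf P).map α.toMonoidHom).map P.subtype
  have hQ : ∀ g, g ∈ Q ↔ ∃ j ∈ J, g = ext α j := by
    intro g
    constructor
    · rintro ⟨_, ⟨y, hy, rfl⟩, rfl⟩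
      exact ⟨y, hy, (ext_apply α y.2).symm⟩
    · rintro ⟨j, hj, rfl⟩
      exact ⟨_, ⟨⟨j, hJ hj⟩, hj, rfl⟩, (ext_apply α (hJ hj)).symm⟩
  have e : Q = J := by
    refine JU Q (fun g hg h hh => ?_) ?_
    · obtain ⟨j, hj, rfl⟩ := (hQ g).1 hg
      obtain ⟨k, hk, rfl⟩ := (hQ h).1 hh
      rw [← ext_map_mul α (hJ hj) (hJ hk), ← ext_map_mul α (hJ hk) (hJ hj), J_comm hj hk]
    · have := Nat.card_le_card_of_injective
        (fun v : V => (⟨ext α (jv v), (hQ _).2 ⟨_, jv_mem v, rfl⟩⟩ : Q))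
        (fun v w e => jv_injective (ext_injective α (congrArg Subtype.val e)))
      simpa [V, K] using this
  exact e ▸ (hQ _).2 ⟨x, hxJ, rfl⟩

theorem Dz_le_J : Dz ≤ J := fun _ h => ⟨h.1, h.2.1, h.2.2.1⟩
theorem Q0_le_J : Q0 ≤ J := fun _ h => ⟨h.1, h.2.1, h.2.2.1⟩
theorem Z_le_J : Z ≤ J := fun _ h => ⟨h.1, h.2.1, h.2.2.1⟩
theorem J5_le_J : J5 ≤ J := fun _ h => h.1

theorem e1_dz {g j : G} (hg : g ∈ E1) (hj : j ∈ Dz) : ⁅g, j⁆ = 1 := by
  rw [cmJ g (Dz_le_J hj)]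
  obtain ⟨-, -, -, e4, e5, e6⟩ := hj
  rw [mem_E1] at hg
  ext <;> simp [dl, *]

theorem e1_j5 {g j : G} (hg : g ∈ E1) (hj : j ∈ J5) : ⁅g, j⁆ ∈ Dz := by
  rw [cmJ g (J5_le_J hj)]
  obtain ⟨-, e⟩ := mem_J5.1 hj
  rw [mem_E1] at hg
  simp [mem_Dz, dl, *]

theorem any_j (g : G) {j : G} (hj : j ∈ J) : ⁅g, j⁆ ∈ J5 := by
  rw [cmJ g hj]
  simp [mem_J5, dl]

theorem e2_j {g j : G} (hg : g ∈ E2) (hj : j ∈ J) : ⁅g, j⁆ ∈ Q0 := by
  rw [cmJ g hj]
  rw [mem_E2] at hg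
  simp [mem_Q0, dl, *]

theorem e2_q0 {g j : G} (hg : g ∈ E2) (hj : j ∈ Q0) : ⁅g, j⁆ ∈ Z := by
  rw [cmJ g (Q0_le_J hj)]
  obtain ⟨-, -, -, e4, e5, e6⟩ := hj
  rw [mem_E2] at hg
  simp [mem_Z, dl, *]

theorem any_z (g : G) {j : G} (hj : j ∈ Z) : ⁅g, j⁆ = 1 := by
  rw [cmJ g (Z_le_J hj)]
  obtain ⟨-, -, -, e4, e5, e6, e7, e8⟩ := hj
  ext <;> simp [dl, *]

theorem t_aux : ∀ b c t : K, ¬ (b = 0 ∧ c = 0) → c * t = 0 → b * t = 0 → t = 0 := by decide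

theorem fix_aux0 : ∀ b c x v : K, ¬ (b = 0 ∧ c = 0) → 2 * c * x = 0 → b * x + c * v = 0 →
    2 * b * v = 0 → x = 0 ∧ v = 0 := by decide

theorem fix_aux : ∀ b c x v t : K, ¬ (b = 0 ∧ c = 0) → 2 * c * x + c * c * t = 0 →
    b * x + c * v + b * c * t = 0 → c * t = 0 → 2 * b * v + b * b * t = 0 → b * t = 0 →
    x = 0 ∧ v = 0 ∧ t = 0 := by
  intro b c x v t h h1 h2 h3 h4 h5
  obtain rfl := t_aux b c t h h3 h5
  simp only [mul_zero, add_zero] at h1 h2 h4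
  exact ⟨(fix_aux0 b c x v h h1 h2 h4).1, (fix_aux0 b c x v h h1 h2 h4).2, rfl⟩

theorem iv_dz {Y : Set G} (iJ : Iv A J) (iY : Iv A Y) (hY : ∀ g ∈ P, g ∈ Y → g ∈ E1) {g : G}
    (hg : g ∈ P) (gY : g ∈ Y) (gJ : g ∉ J) : Iv A Dz ∧ Iv A J5 := by
  have ga : g.a = 0 := hY g hg gY
  have gbc : ¬ (g.b = 0 ∧ g.c = 0) := fun h => gJ ⟨ga, h.1, h.2⟩
  have iD : Iv A Dz := by
    refine (iJ.inter (iv_comm' Iv.one iY)).congr fun j _ => ⟨fun h => ⟨Dz_le_J h, fun x hx xY =>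
      e1_dz (hY x hx xY) h⟩, fun ⟨hj, h⟩ => ?_⟩
    have e : ⁅g, j⁆ = 1 := h g hg gY
    rw [cmJ g hj] at e
    have := fix_aux g.b g.c j.x j.v j.t gbc (by simpa [dl, ga] using congrArg G.z e)
      (by simpa [dl, ga] using congrArg G.y e) (by simpa only [dl, ga, zero_mul, zero_add, G.one_x] using congrArg G.x e)
      (congrArg G.w e) (congrArg G.v e)
    exact ⟨hj.1, hj.2.1, hj.2.2, this⟩
  refine ⟨iD, (iJ.inter (iv_comm' iD iY)).congr fun j _ => ⟨fun h => ⟨J5_le_J h, fun x hx xY =>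
      e1_j5 (hY x hx xY) h⟩, fun ⟨hj, h⟩ => ?_⟩⟩
  have e : ⁅g, j⁆ ∈ Dz := h g hg gY
  rw [cmJ g hj] at e
  exact ⟨hj, t_aux g.b g.c j.t gbc (by simpa only [dl, ga, zero_mul, zero_add] using e.2.2.2.1) e.2.2.2.2.1⟩

theorem k1 (JU : JUStmt) (h : Cp 3 P A B) (hJ : J ≤ P) (hE : P ≤ E1) {g : G} (hg : g ∈ P)
    (gJ : g ∉ J) : P = E1 := by
  have iJ : Iv A J := ivJ JU hJ
  obtain ⟨iD, i5⟩ := iv_dz iJ Iv.univ (fun x hx _ => hE hx) hg trivial gJ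
  refine le_antisymm hE fun s hs => h.chain [J, J5, Dz] ?_ s ⟨fun x hx => ?_,
    fun x hx => any_j s hx, fun x hx => e1_j5 hs hx, fun x hx => e1_dz hs hx⟩
  · simp only [List.mem_cons, List.not_mem_nil, or_false]
    rintro X (rfl | rfl | rfl)
    exacts [⟨hJ, iJ⟩, ⟨J5_le_J.trans hJ, i5⟩, ⟨Dz_le_J.trans hJ, iD⟩]
  · refine ⟨cm_a _ _, cm_b _ _, ?_⟩
    rw [cm_c, mem_E1.1 hs, mem_E1.1 (hE hx)]; simp

theorem sq_one : ∀ a : K, a ≠ 0 → a * a = 1 := by decide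

theorem k2 (JU : JUStmt) (h : Cp 3 P A B) (hJ : J ≤ P) (hE : P ≤ E2) {g : G} (hg : g ∈ P)
    (ga : g.a ≠ 0) : P = E2 := by
  have iJ : Iv A J := ivJ JU hJ
  have gb : g.b = 0 := hE hg
  have a2 := sq_one _ ga
  have iQ : Iv A Q0 := by
    refine (iv_cs iJ).congr fun q _ => ⟨fun hq => ?_, ?_⟩
    · obtain ⟨e1, e2, e3, e4, e5, e6⟩ := hq
      let j : G := ⟨0, 0, 0, 0, 2 * g.a * (q.z - g.a * (q.y - g.c * (g.a * q.x)) -
        2 * g.a * g.c * (g.a * q.x)), 0, g.a * (q.y - g.c * (g.a * q.x)), g.a * q.x, 0⟩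
      have hj : j ∈ J := ⟨rfl, rfl, rfl⟩
      refine ⟨g, hg, j, hJ hj, hj, ?_⟩
      rw [cmJ g hj]
      ext <;> simp only [dl, j, gb, e1, e2, e3, e4, e5, e6]
      · revert a2; generalize g.a = a; generalize g.c = c; generalize q.x = x; generalize q.y = y
        generalize q.z = z; revert a c x y z; decide
      · revert a2; generalize g.a = a; generalize g.c = c; generalize q.x = x; generalize q.y = y
        revert a c x y; decide
      · revert a2; generalize g.a = a; generalize g.c = c; generalize q.x = x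
        revert a c x; decide
      · simp
      · simp
    · rintro ⟨x, hx, y, -, hy, rfl⟩
      exact e2_j (hE hx) hy
  have iZ : Iv A Z := by
    refine (iv_cs iQ).congr fun q _ => ⟨fun hq => ?_, ?_⟩
    · obtain ⟨e1, e2, e3, e4, e5, e6, e7, e8⟩ := hq
      let j : G := ⟨0, 0, 0, 0, 2 * g.a * q.z, 0, 0, 0, 0⟩
      have hj : j ∈ Q0 := ⟨rfl, rfl, rfl, rfl, rfl, rfl⟩
      refine ⟨g, hg, j, hJ (Q0_le_J hj), hj, ?_⟩
      rw [cmJ g (Q0_le_J hj)]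
      ext <;> simp only [dl, j, gb, e1, e2, e3, e4, e5, e6, e7, e8]
      · revert a2; generalize g.a = a; generalize g.c = c
        generalize q.z = z; revert a c z; decide
      all_goals simp
    · rintro ⟨x, hx, y, -, hy, rfl⟩
      exact e2_q0 (hE hx) hy
  refine le_antisymm hE fun s hs => h.chain [J, Q0, Z] ?_ s ⟨fun x hx => ?_,
    fun x hx => e2_j hs hx, fun x hx => e2_q0 hs hx, fun x hx => any_z s hx⟩
  · simp only [List.mem_cons, List.not_mem_nil, or_false]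
    rintro X (rfl | rfl | rfl)
    exacts [⟨hJ, iJ⟩, ⟨Q0_le_J.trans hJ, iQ⟩, ⟨Z_le_J.trans hJ, iZ⟩]
  · refine ⟨cm_a _ _, cm_b _ _, ?_⟩
    rw [cm_c, mem_E2.1 hs, mem_E2.1 (hE hx)]; simp

theorem z_aux : ∀ a b y x w v t : K, a ≠ 0 → x = 0 → v = 0 → t = 0 →
    2 * a * y + 2 * 0 * x + a * a * w + 2 * a * 0 * v + 0 * 0 * t = 0 →
    b * x + a * w + (a * b + 0) * v + b * 0 * t = 0 → y = 0 ∧ w = 0 := by
  intro a b y x w v t ha hx hv ht
  subst hx hv ht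
  revert a b y w
  decide

theorem k3' (JU : JUStmt) (h : Cp 3 P A B) (hJ : J ≤ P) {e : K} (he : e ≠ 0)
    (hP : ∀ g, g ∈ P ↔ g.b = e * g.a) : False := by
  have iJ : Iv A J := ivJ JU hJ
  have hc : xc 1 ∈ P := (hP _).2 (by simp [xc])
  let r : G := ⟨1, e, 0, 0, 0, 0, 0, 0, 0⟩
  have hr : r ∈ P := (hP _).2 (by simp [r])
  have iZ : Iv A Z := by
    refine (iJ.inter (iv_comm' Iv.one Iv.univ)).congr fun j _ => ⟨fun k => ⟨Z_le_J k, fun x _ _ =>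
      any_z x k⟩, fun ⟨hj, k⟩ => ?_⟩
    have e1 : ⁅xc 1, j⁆ = 1 := k _ hc trivial
    have e2 : ⁅r, j⁆ = 1 := k _ hr trivial
    rw [cmJ _ hj] at e1 e2
    obtain ⟨h1, h2, h3⟩ := fix_aux 0 1 j.x j.v j.t (by decide) (by simpa [dl, xc] using congrArg G.z e1)
      (by simpa [dl, xc] using congrArg G.y e1) (by simpa [dl, xc] using congrArg G.x e1)
      (by simp) (by simp)
    obtain ⟨h4, h5⟩ := z_aux 1 e j.y j.x j.w j.v j.t (by decide) h1 h2 h3 (congrArg G.z e2)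
      (congrArg G.y e2)
    exact ⟨hj.1, hj.2.1, hj.2.2, h4, h1, h5, h2, h3⟩
  have iC : Iv A Jc := by
    refine (iv_comm2 iZ iJ).congr fun g hg => ⟨fun k x _ xJ => e2_q0 k.2 (e2_j k.2 xJ), fun k => ?_⟩
    have xJ : xt 1 ∈ J := ⟨rfl, rfl, rfl⟩
    have e1 : ⁅g, ⁅g, xt 1⁆⁆ ∈ Z := k _ (hJ xJ) xJ
    rw [cmJ g (J5_le_J (any_j g xJ)), cmJ g xJ] at e1
    have e2 : g.a * g.b = 0 := by simpa only [dl, xt, mul_one, mul_zero, add_zero] using e1.2.2.2.2.1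
    have gb := (hP g).1 hg
    have ga : g.a = 0 := by
      rw [gb] at e2
      simpa [he] using e2
    exact mem_Jc.2 ⟨ga, by rw [gb, ga, mul_zero]⟩
  obtain ⟨iD, i5⟩ := iv_dz iJ iC (fun x _ hx => hx.1) hc ⟨rfl, rfl⟩ (fun k => absurd k.2.2 (by decide))
  have hb : xb 1 ∈ E1 := rfl
  have : xb 1 ∈ P := by
    refine h.chain [Jc, J, J5, Dz] ?_ _ ⟨fun x _ => ⟨cm_a _ _, cm_b _ _⟩, fun x hx => ?_,
      fun x hx => any_j _ hx, fun x hx => e1_j5 hb hx, fun x hx => e1_dz hb hx⟩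
    · simp only [List.mem_cons, List.not_mem_nil, or_false]
      rintro X (rfl | rfl | rfl | rfl)
      exacts [⟨fun g hg => (hP g).2 (by rw [hg.1, hg.2, mul_zero]), iC⟩, ⟨hJ, iJ⟩,
        ⟨J5_le_J.trans hJ, i5⟩, ⟨Dz_le_J.trans hJ, iD⟩]
    · refine ⟨cm_a _ _, cm_b _ _, ?_⟩
      rw [cm_c, hx.1]; simp [xb]
  have := (hP _).1 this
  simp [xb] at this

/-- the elements of the complement -/
def uu (a b c : K) : G := ⟨a, b, c, 0, 0, 0, 0, 0, 0⟩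

theorem uu_mul (a b c a' b' c' : K) :
    uu a b c * uu a' b' c' = uu (a + a') (b + b') (c + c' + a * b') := by
  ext <;> simp [uu]

theorem mem_uu (hJ : J ≤ P) (g : G) : g ∈ P ↔ uu g.a g.b g.c ∈ P := by
  have e : g = jv (vj g) * uu g.a g.b g.c := by ext <;> simp [jv, vj, uu]
  conv_lhs => rw [e]
  exact mul_mem_cancel_left (hJ (jv_mem _))

theorem pj (JU : JUStmt) : PJStmt := by
  intro P A B h hJ
  by_cases hE : P ≤ E1
  · by_cases hPJ : P ≤ J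
    · exact Or.inl (le_antisymm hPJ hJ)
    · obtain ⟨g, hg, gJ⟩ := SetLike.not_le_iff_exists.1 hPJ
      exact Or.inr (Or.inl (k1 JU h hJ hE hg gJ))
  obtain ⟨g, hg, ga⟩ := SetLike.not_le_iff_exists.1 hE
  rw [mem_E1] at ga
  by_cases hE2 : P ≤ E2
  · exact Or.inr (Or.inr (Or.inl (k2 JU h hJ hE2 hg ga)))
  have mu : ∀ {a b c a' b' c' : K}, uu a b c ∈ P → uu a' b' c' ∈ P → ∀ a'' b'' c'',
      a'' = a + a' ∧ b'' = b + b' ∧ c'' = c + c' + a * b' → uu a'' b'' c'' ∈ P := by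
    rintro a b c a' b' c' h1 h2 _ _ _ ⟨rfl, rfl, rfl⟩
    rw [← uu_mul]; exact mul_mem h1 h2
  have u0 : uu 0 0 0 ∈ P := P.one_mem
  -- an element with `a = 1`
  obtain ⟨e, c0, hr⟩ : ∃ e c0, uu 1 e c0 ∈ P := by
    have hg' := (mem_uu hJ g).1 hg
    rcases k3 g.a with k | k | k
    · exact absurd k ga
    · exact ⟨_, _, k ▸ hg'⟩
    · exact ⟨_, _, mu hg' hg' 1 _ _ ⟨by rw [k]; decide, rfl, rfl⟩⟩
  -- its powers
  have pw : ∀ a, uu a (e * a) (2 * e * a * a + (c0 - 2 * e) * a) ∈ P := by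
    intro a
    rcases k3 a with rfl | rfl | rfl
    · simpa using u0
    · simpa using hr
    · exact mu hr hr _ _ _ (by clear hr; revert e c0; decide)
  have cc : uu 0 0 1 ∈ P → ∀ a b c c', uu a b c ∈ P → uu a b c' ∈ P := by
    intro hc a b c c' k
    have : ∀ d, uu 0 0 d ∈ P := by
      intro d
      rcases k3 d with rfl | rfl | rfl
      exacts [u0, hc, mu hc hc _ _ _ (by decide)]
    exact mu k (this (c' - c)) _ _ _ ⟨by simp, by simp, by simp⟩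
  -- no element with `a = 0`, `b ≠ 0`
  have nb : ∀ b c, uu 0 b c ∈ P → b = 0 := by
    intro b c k
    by_contra hb
    obtain ⟨c1, k1⟩ : ∃ c1, uu 0 1 c1 ∈ P := by
      rcases k3 b with rfl | rfl | rfl
      · exact absurd rfl hb
      · exact ⟨_, k⟩
      · exact ⟨_, mu k k 0 1 _ ⟨by decide, by decide, rfl⟩⟩
    have hc : uu 0 0 1 ∈ P := by
      have := comm_mem hr k1
      rw [mem_uu hJ, cm_a, cm_b, cm_c] at this
      simpa [uu] using this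
    have hb' : ∀ b, uu 0 b 0 ∈ P := by
      intro b
      rcases k3 b with rfl | rfl | rfl
      exacts [u0, cc hc _ _ _ _ k1, cc hc _ _ _ _ (mu k1 k1 0 2 _ ⟨by decide, by decide, rfl⟩)]
    refine h.ne (eq_top_iff.2 fun x _ => (mem_uu hJ x).2 ?_)
    exact cc hc _ _ _ _ (mu (pw x.a) (hb' (x.b - e * x.a)) x.a x.b _ ⟨by simp, by simp, rfl⟩)
  have hb : ∀ x ∈ P, x.b = e * x.a := by
    intro x hx
    have := nb _ _ (mu ((mem_uu hJ x).1 hx) (pw (-x.a)) 0 _ _ ⟨by simp, rfl, rfl⟩)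
    linear_combination this
  have he : e ≠ 0 := by
    rintro rfl
    exact hE2 fun x hx => by rw [mem_E2, hb x hx, zero_mul]
  have nc : uu 0 0 1 ∉ P := fun hc => k3' JU h hJ he fun x => ⟨hb x, fun k => by
    rw [mem_uu hJ, k]
    exact cc hc _ _ _ _ (pw x.a)⟩
  have nc' : ∀ d, uu 0 0 d ∈ P → d = 0 := by
    intro d k
    rcases k3 d with rfl | rfl | rfl
    exacts [rfl, absurd k nc, absurd (mu k k _ _ _ (by decide)) nc]
  have hP : ∀ x, x ∈ P ↔ x.b = e * x.a ∧ x.c = 2 * e * x.a * x.a + (c0 - 2 * e) * x.a := by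
    intro x
    refine ⟨fun hx => ⟨hb x hx, ?_⟩, fun ⟨k, l⟩ => ?_⟩
    · have := nc' _ (mu ((mem_uu hJ x).1 hx) (pw (-x.a)) 0 0 _ ⟨by simp, by simp [hb x hx], rfl⟩)
      linear_combination this + (-(e * x.a * x.a)) * three
    · rw [mem_uu hJ, k, l]; exact pw _
  refine Or.inr (Or.inr (Or.inr ⟨xb (2 * e - c0), ?_⟩))
  rcases k3 e with rfl | rfl | rfl
  · exact absurd rfl he
  · left
    ext x
    rw [hP, mem_cjs, mem_E4]
    simp only [G.mul_a, G.mul_b, G.mul_c, G.inv_a, G.inv_b, G.inv_c, xb]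
    generalize x.a = a; generalize x.b = b; generalize x.c = c
    generalize c0 = d; revert a b c d; decide
  · right
    ext x
    rw [hP, mem_cjs, mem_map_aut, mem_E4]
    change _ ↔ (torF τ3⁻¹ _).b = (torF τ3⁻¹ _).a ∧ (torF τ3⁻¹ _).c = 2 * (torF τ3⁻¹ _).a * (torF τ3⁻¹ _).a
    simp only [torF, G.mul_a, G.mul_b, G.mul_c, G.inv_a, G.inv_b, G.inv_c, xb]
    generalize x.a = a; generalize x.b = b; generalize x.c = c
    generalize c0 = d; revert a b c d; decide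

end Cfsg.Agent.H55.C1Pj
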