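import Mathlib
import Cfsg.Agent.H55.C1Pj

/-!
Counting in the Sylow `3`-subgroup of `Co₁`: the uniqueness of `J` and the formal consequences of `Kd`.
-/

set_option autoImplicit false

namespace Cfsg.Agent.H55.C1K2

open Cfsg.Agent.H97 Cfsg.Agent.H96.VB Cfsg.Agent.H96.CP Cfsg.Agent.H99.C1 Cfsg.Agent.H55.C1Pj Subgroup
open scoped commutatorElement

theorem ug_eq_one {g : G} : ug g = 1 ↔ g ∈ J := by
  constructor
  · intro h
    have e : uM g.a g.b g.c = 1 := congrArg Units.val h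
    exact ⟨by simpa [uM] using congrFun (congrFun e 1) 3, by simpa [uM] using congrFun (congrFun e 1) 2,
      by simpa [uM] using congrFun (congrFun e 2) 5⟩
  · rintro ⟨e1, e2, e3⟩
    rw [ug_apply, e1, e2, e3]
    exact Units.ext uM_zero

theorem ker_ug : ug.ker = J := Subgroup.ext fun _ => ug_eq_one

theorem card_eq_map_mul (Q : Subgroup G) :
    Nat.card Q = Nat.card (Q.map ug) * Nat.card (Q ⊓ J : Subgroup G) := by
  have h1 := (J.subgroupOf Q).index_mul_card
  have h2 : Nat.card (J.subgroupOf Q) = Nat.card (Q ⊓ J : Subgroup G) := by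
    rw [← inf_subgroupOf_left, Nat.card_congr (subgroupOfEquivOfLe inf_le_left).toEquiv]
  have h3 : (J.subgroupOf Q).index = Nat.card (Q.map ug) := by
    rw [← ker_ug]; exact relIndex_ker Q ug
  rw [← h1, h2, h3]

theorem card_J : Nat.card J = 729 := by
  have : Nat.card J = Nat.card V := (Nat.card_congr
    { toFun := fun v : V => (⟨jv v, jv_mem v⟩ : J)
      invFun := fun g => vj g
      left_inv := vj_jv
      right_inv := fun g => Subtype.ext (jv_vj g.2) }).symm
  rw [this]; simp [V, K]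

theorem card_U : Nat.card ((⊤ : Subgroup G).map ug) = 27 := by
  have := card_eq_map_mul ⊤
  rw [top_inf_eq, card_J, card_top, G.card] at this
  omega

theorem card_map_dvd (Q : Subgroup G) : Nat.card (Q.map ug) ∣ 27 :=
  card_U ▸ card_dvd_of_le (map_mono le_top)

theorem card_map_le {Q : Subgroup G} (h : ∀ x ∈ Q, ∀ y ∈ Q, ⁅x, y⁆ ∈ J) : Nat.card (Q.map ug) ≤ 9 := by
  have hd := card_map_dvd Q
  have hne : Nat.card (Q.map ug) ≠ 27 := by
    intro e
    haveI : Finite ((⊤ : Subgroup G).map ug) := Nat.finite_of_card_ne_zero (by rw [card_U]; decide)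
    have e' : Q.map ug = (⊤ : Subgroup G).map ug :=
      eq_of_le_of_card_ge (map_mono le_top) (by rw [e, card_U])
    obtain ⟨x, hx, ex⟩ : ug (xa 1) ∈ Q.map ug := e' ▸ ⟨_, trivial, rfl⟩
    obtain ⟨y, hy, ey⟩ : ug (xb 1) ∈ Q.map ug := e' ▸ ⟨_, trivial, rfl⟩
    have := ug_eq_one.2 (h x hx y hy)
    rw [map_commutatorElement, ex, ey, ← map_commutatorElement, ug_eq_one] at this
    exact absurd this.2.2 (by decide)
  have : Nat.card (Q.map ug) ∈ Nat.divisors 27 := Nat.mem_divisors.2 ⟨hd, by decide⟩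
  generalize Nat.card (Q.map ug) = n at this hne
  revert n; decide

/-- a subgroup of `J` that is determined by some coordinates -/
theorem card_le_of_coord {H : Subgroup G} {α : Type} [AddGroup α] [Finite α] (hH : H ≤ J) (f : G → α)
    (hf : ∀ g ∈ J, ∀ h ∈ J, f (g⁻¹ * h) = -f g + f h) (h0 : ∀ g ∈ H, f g = 0 → g = 1) :
    Nat.card H ≤ Nat.card α :=
  Nat.card_le_card_of_injective (fun g : H => f g) fun g h e => Subtype.ext <| inv_mul_eq_one.1 <|
    h0 _ (mul_mem (inv_mem g.2) h.2) (by rw [hf _ (hH g.2) _ (hH h.2), show f g = f h from e]; simp)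

theorem comm_swap {g h : G} (e : g * h = h * g) : ⁅g, h⁆ = 1 :=
  commutatorElement_eq_one_iff_mul_comm.2 e

theorem cen_a0 {d j : G} (da : d.a = 0) (dJ : d ∉ J) (hj : j ∈ J) (e : ⁅d, j⁆ = 1) : j ∈ Dz := by
  rw [cmJ d hj] at e
  have := fix_aux d.b d.c j.x j.v j.t (fun h => dJ ⟨da, h.1, h.2⟩)
    (by simpa [dl, da] using congrArg G.z e) (by simpa [dl, da] using congrArg G.y e)
    (by simpa only [dl, da, zero_mul, zero_add, G.one_x] using congrArg G.x e)
    (congrArg G.w e) (congrArg G.v e)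
  exact ⟨hj.1, hj.2.1, hj.2.2, this⟩

theorem card_K3 : Nat.card (K × K × K) = 27 := by simp [K]

theorem card_cen {d : G} (dJ : d ∉ J) {H : Subgroup G} (hH : H ≤ J) (e : ∀ j ∈ H, ⁅d, j⁆ = 1) :
    Nat.card H ≤ 27 := by
  rw [← card_K3]
  by_cases da : d.a = 0
  · refine card_le_of_coord hH (fun g => (g.z, g.y, g.w)) ?_ fun g hg h0 => ?_
    · rintro g ⟨e1, e2, e3⟩ h ⟨k1, k2, k3⟩
      simp [*]
    · obtain ⟨e1, e2, e3, e4, e5, e6⟩ := cen_a0 da dJ (hH hg) (e g hg)
      simp only [Prod.mk_eq_zero] at h0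
      ext <;> simp [*]
  · refine card_le_of_coord hH (fun g => (g.z, g.x, g.t)) ?_ fun g hg h0 => ?_
    · rintro g ⟨e1, e2, e3⟩ h ⟨k1, k2, k3⟩
      simp [*]
    · have k := e g hg
      obtain ⟨e1, e2, e3⟩ := hH hg
      rw [cmJ d (hH hg)] at k
      simp only [Prod.mk_eq_zero] at h0
      obtain ⟨h1, h2, h3⟩ := h0
      have hv : g.v = 0 := by simpa [dl, da, h3] using congrArg G.x k
      have hw : g.w = 0 := by simpa [dl, da, h2, h3, hv] using congrArg G.y k
      have hy : g.y = 0 := by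
        have : 2 * d.a * g.y = 0 := by
          simpa only [dl, h2, h3, hv, hw, mul_zero, add_zero, G.one_z] using congrArg G.z k
        rcases mul_eq_zero.1 this with h | h
        · exact absurd ((mul_eq_zero.1 h).resolve_left (by decide)) da
        · exact h
      ext <;> simp [*]

theorem ju : JUStmt := by
  intro Q hQ hc
  by_cases hle : Q ≤ J
  · exact eq_of_le_of_card_ge hle (by rw [card_J]; exact hc)
  · obtain ⟨d, hd, dJ⟩ := SetLike.not_le_iff_exists.1 hle
    have h1 := card_map_le (Q := Q) fun x hx y hy => by rw [comm_swap (hQ x hx y hy)]; exact one_mem _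
    have h2 := card_cen dJ (H := Q ⊓ J) inf_le_right fun j hj => comm_swap (hQ d hd j hj.1)
    have h3 := card_eq_map_mul Q
    have := Nat.mul_le_mul h1 h2
    omega

theorem cmJ_mem {j : G} (hj : j ∈ J) (g : G) : ⁅j, g⁆ ∈ J := by
  rw [← commutatorElement_inv]; exact inv_mem (J5_le_J (any_j g hj))

/-- commutation with `d` on a subgroup of `J` -/
def cd {W : Subgroup G} (hW : W ≤ J) (d : G) : W →* G := MonoidHom.mk' (fun j => ⁅(j : G), d⁆) fun j k => by
  have h1 := J_comm (hW j.2) (cmJ_mem (hW k.2) d)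
  have h2 := J_comm (cmJ_mem (hW j.2) d) (cmJ_mem (hW k.2) d)
  have : ⁅(j : G) * k, d⁆ = j * ⁅(k : G), d⁆ * (j : G)⁻¹ * ⁅(j : G), d⁆ := by
    simp only [cm]; group
  rw [coe_mul, this, h1, mul_inv_cancel_right, h2]

theorem cd_apply {W : Subgroup G} (hW : W ≤ J) (d : G) (j : W) : cd hW d j = ⁅(j : G), d⁆ := rfl

/-- `|W : W₁| ≤ |B : I|` for a homomorphism `W → B` with `W₁` containing the preimage of `I` -/
theorem card_hom_le {W W1 B I : Subgroup G} (φ : W →* G) (hB : ∀ j, φ j ∈ B) (hI : I ≤ B)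
    (h1 : ∀ j : W, φ j ∈ I → (j : G) ∈ W1) :
    Nat.card W * Nat.card I ≤ Nat.card W1 * Nat.card B := by
  have e1 := (I.comap φ).index_mul_card
  have e2 : (I.comap φ).index ≤ I.relIndex B := by
    rw [index_comap]
    exact relIndex_le_of_le_right (by rintro _ ⟨j, rfl⟩; exact hB j) index_ne_zero_of_finite
  have e3 : I.relIndex B * Nat.card I = Nat.card B := by
    rw [← Nat.card_congr (subgroupOfEquivOfLe hI).toEquiv]
    exact (I.subgroupOf B).index_mul_card
  have e4 : Nat.card (I.comap φ) ≤ Nat.card W1 :=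
    Nat.card_le_card_of_injective (fun j : I.comap φ => (⟨j.1.1, h1 j.1 j.2⟩ : W1))
      fun j k e => Subtype.ext (Subtype.ext (congrArg (fun x : W1 => (x : G)) e))
  rw [← e1, ← e3]
  calc (I.comap φ).index * Nat.card (I.comap φ) * Nat.card I
      ≤ I.relIndex B * Nat.card W1 * Nat.card I := Nat.mul_le_mul_right _ (Nat.mul_le_mul e2 e4)
    _ = _ := by ring

theorem k2 : K2Stmt := by
  intro P Q h
  have k3 : ∀ j ∈ J, j ∉ P → (∀ g ∈ P, ⁅j, g⁆ ∈ P) → ∀ d ∈ Q, d ∉ J → ⁅j, d⁆ ∉ Q := by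
    intro j hj jP hn d hd dJ hc
    have hle : Q ⊓ J ≤ Q ⊓ cjs j Q := fun x hx => ⟨hx.1, mem_cjs.2 (by
      rw [mul_assoc, ← J_comm hj hx.2, inv_mul_cancel_left]; exact hx.1)⟩
    have e := eq_of_le_of_card_ge hle (h.k4 j (mem_normalizer_of_comm hn) jP)
    have : j * d * j⁻¹ ∈ Q ⊓ cjs j Q := ⟨by
      have := mul_mem hc hd
      rwa [cm, inv_mul_cancel_right] at this, mem_cjs.2 (by simpa [mul_assoc] using hd)⟩
    rw [← e] at this
    exact dJ (by simpa [mul_assoc] using nJ.conj_mem _ this.2 j⁻¹)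
  refine ⟨h, k3, fun j _ jP d hd => mul_mem (h.nm j jP d hd) (inv_mem hd), fun W hW hn => ?_, ?_⟩
  · obtain ⟨d, hd, dJ⟩ := SetLike.not_le_iff_exists.1 h.nle
    refine card_hom_le (cd hW d) (fun j => ⟨hn j j.2 d (h.le hd), cmJ_mem (hW j.2) d⟩)
      (inf_le_inf_right _ h.le) fun j hj => ⟨j.2, ?_⟩
    by_contra jP
    exact k3 j (hW j.2) jP (hn j j.2) d hd dJ hj.1
  · rw [← h.card, card_eq_map_mul]

end Cfsg.Agent.H55.C1K2
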