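import Mathlib
import Cfsg.Agent.H55.C1K2

/-!
Characteristic subgroups of the Sylow `3`-subgroup of `Co₁` and of its subgroup `E3`.
-/

set_option autoImplicit false

namespace Cfsg.Agent.H55.C1Ch

open Cfsg.Agent.H97 Cfsg.Agent.H96.VB Cfsg.Agent.H96.CP Cfsg.Agent.H99.C1 Cfsg.Agent.H55.C1Pj
  Cfsg.Agent.H55.C1K2 Subgroup
open scoped commutatorElement

section general
universe u
variable {Γ : Type u} [Group Γ] {P : Subgroup Γ} {A : Subgroup (MulAut P)} {X Y : Set Γ}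

theorem iv_cs2 (h : Iv A X) (k : Iv A Y) :
    Iv A {q | ∃ x ∈ P, x ∈ X ∧ ∃ y ∈ P, y ∈ Y ∧ q = ⁅x, y⁆} := by
  rintro α hα _ - ⟨x, hx, hX, y, hy, hY, rfl⟩
  exact ⟨_, ext_mem α hx, h α hα x hx hX, _, ext_mem α hy, k α hα y hy hY, ext_map_comm α hx hy⟩

theorem of_iv_top (h : Iv (⊤ : Subgroup (MulAut (⊤ : Subgroup Γ))) X) (β : MulAut Γ) :
    ∀ g ∈ X, β g ∈ X := fun g hg => by
  have := h (MulAut.congr topEquiv.symm β) trivial g trivial hg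
  rwa [ext_apply _ (mem_top g)] at this

theorem ch_of_iv {N : Subgroup Γ} (hN : N ≤ P) (h : Iv (⊤ : Subgroup (MulAut P)) N) : Ch P N :=
  ⟨hN, fun α => h α trivial⟩

theorem sw {N : Subgroup Γ} {g h : Γ} : ⁅g, h⁆ ∈ N ↔ ⁅h, g⁆ ∈ N := by
  rw [← commutatorElement_inv, inv_mem_iff]

theorem sw1 {g h : Γ} : ⁅g, h⁆ = 1 ↔ ⁅h, g⁆ = 1 := by
  rw [← commutatorElement_inv, inv_eq_one]

end general

theorem cm_t (g h : G) : ⁅g, h⁆.t = 0 := by simp [cm]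
theorem cm_v (g h : G) : ⁅g, h⁆.v = g.b * h.t - h.b * g.t := by simp [cm]; ring
theorem cm_x (g h : G) : ⁅g, h⁆.x = g.a * h.v + g.c * h.t - h.a * g.v - h.c * g.t -
    (g.a * h.b - h.a * g.b) * (g.t + h.t) := by simp [cm]; ring

theorem xvJ : xv 1 ∈ J := ⟨rfl, rfl, rfl⟩
theorem xtJ : xt 1 ∈ J := ⟨rfl, rfl, rfl⟩
theorem xyJ : xy 1 ∈ J := ⟨rfl, rfl, rfl⟩
theorem xcJ : xc 1 ∉ J := fun k => absurd k.2.2 (by decide)
theorem two_ne : (2 : K) ≠ 0 := by decide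

theorem mem_J_of_xv {g : G} (h : ⁅g, xv 1⁆ ∈ Z) : g ∈ J := by
  rw [cmJ g xvJ] at h
  obtain ⟨-, -, -, e4, e5, e6, -, -⟩ := h
  have ha : g.a = 0 := by simpa [dl, xv] using e5
  have hb : g.b = 0 := by simpa [dl, xv, two_ne] using e6
  exact ⟨ha, hb, by simpa [dl, xv, ha, hb] using e4⟩

theorem mem_Z_of {g : G} (h1 : ⁅g, xv 1⁆ = 1) (h2 : ⁅xc 1, g⁆ = 1) (h3 : ⁅xa 1, g⁆ = 1) : g ∈ Z := by
  have gJ := mem_J_of_xv (h1 ▸ one_mem Z)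
  obtain ⟨e1, e2, e3, e4, e5, e6⟩ := cen_a0 rfl xcJ gJ h2
  rw [cmJ _ gJ] at h3
  obtain ⟨h4, h5⟩ := z_aux 1 0 g.y g.x g.w g.v g.t (by decide) e4 e5 e6 (congrArg G.z h3)
    (congrArg G.y h3)
  exact ⟨e1, e2, e3, h4, e4, h5, e5, e6⟩

theorem e1_of_xy {g : G} (h : ⁅g, xy 1⁆ = 1) : g.a = 0 := by
  rw [cmJ g xyJ] at h
  simpa [dl, xy, two_ne] using congrArg G.z h

theorem chs (JU : JUStmt) : ChS := by
  let A : Subgroup (MulAut (⊤ : Subgroup G)) := ⊤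
  have iJ : Iv A J := ivJ JU le_top
  have iZ : Iv A Z := (Iv.commP Iv.one).congr fun g _ =>
    ⟨fun h x _ => sw1.1 (any_z x h), fun h => mem_Z_of (h _ trivial) (sw1.1 (h _ trivial))
      (sw1.1 (h _ trivial))⟩
  have iC : Iv A Jc := (Iv.commP iJ).congr fun g _ =>
    ⟨fun h x _ => ⟨cm_a _ _, cm_b _ _, by rw [cm_c, mem_E1.1 h.1, mem_E2.1 h.2]; simp⟩, fun h =>
      ⟨by simpa [cm_c, xb, mem_E1] using (h (xb 1) trivial).2.2,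
        by simpa [cm_c, xa, mem_E2] using (h (xa 1) trivial).2.2⟩⟩
  obtain ⟨iD, -⟩ := iv_dz iJ iC (fun x _ hx => hx.1) (mem_top (xc 1)) ⟨rfl, rfl⟩ xcJ
  have i1 : Iv A E1 := (Iv.one.comm iD).congr fun g _ =>
    ⟨fun h x _ hx => e1_dz h hx, fun h => e1_of_xy (h _ trivial ⟨rfl, rfl, rfl, rfl, rfl, rfl⟩)⟩
  have i2 : Iv A E2 := by
    refine (iZ.comm (iv_cs2 iC iJ)).congr fun g _ => ⟨?_, fun h => ?_⟩
    · rintro h _ _ ⟨x, -, hx, y, -, hy, rfl⟩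
      exact e2_q0 h (e2_j hx.2 hy)
    · have : ⁅g, ⁅xc 1, xt 1⁆⁆ ∈ Z := h _ trivial ⟨_, trivial, ⟨rfl, rfl⟩, _, trivial, xtJ, rfl⟩
      rw [cmJ g (J5_le_J (any_j _ xtJ)), cmJ _ xtJ] at this
      simpa [dl, xc, xt, mem_E2] using this.2.2.2.1
  have iR : Iv A R := by
    refine (i1.inter (iD.comm (iv_cs Iv.univ))).congr fun g _ => ⟨fun h => ⟨h.1, ?_⟩, fun h => ⟨h.1, ?_⟩⟩
    · rintro _ _ ⟨x, -, y, -, -, rfl⟩
      obtain ⟨e1, e2⟩ := mem_R.1 h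
      refine ⟨cm_a _ _, cm_b _ _, ?_, ?_, ?_, cm_t _ _⟩
      · rw [cm_c, cm_a, cm_b]; simp
      · rw [cm_x, cm_a, cm_b, cm_t, e1, e2]; simp
      · rw [cm_v, cm_b, cm_t]; simp
    · have : ⁅g, ⁅xa 1, xb 1⁆⁆ ∈ Dz := h.2 _ trivial ⟨_, trivial, _, trivial, trivial, rfl⟩
      have e := this.2.2.2.1
      rw [cm_x, cm_a, cm_b, cm_t, cm_c, mem_E1.1 h.1] at e
      simpa [xa, xb, mem_E3] using e
  have i3 : Iv A E3 := by
    refine (iR.union (i1.compl.inter (iv_comm2 iD iR))).congr fun g _ => ⟨fun h => ?_, ?_⟩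
    · by_cases ga : g.a = 0
      · exact Or.inl ⟨ga, h⟩
      · refine Or.inr ⟨ga, fun x _ hx => ?_⟩
        obtain ⟨e1, e2⟩ := mem_R.1 hx
        have e3 : g.t = 0 := h
        refine ⟨cm_a _ _, cm_b _ _, ?_, ?_, ?_, cm_t _ _⟩
        · rw [cm_c, cm_a, cm_b]; simp
        · rw [cm_x, cm_a, cm_b, cm_t, cm_v, e2, e3]; simp
        · rw [cm_v, cm_b, cm_t]; simp
    · rintro (h | ⟨ga, h⟩)
      · exact h.2
      · have : ⁅g, ⁅g, xb 1⁆⁆ ∈ Dz := h _ trivial ⟨rfl, rfl⟩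
        have e := this.2.2.2.1
        rw [cm_x, cm_a, cm_b, cm_t, cm_v, cm_c] at e
        have ga' : g.a ≠ 0 := ga
        have e' : g.a * g.t = 0 := by
          simp only [xb] at e
          linear_combination e + (g.a * g.t) * three
        exact (mul_eq_zero.1 e').resolve_left ga'
  exact ⟨of_iv_top iJ, of_iv_top i1, of_iv_top i2, of_iv_top i3, of_iv_top iZ, of_iv_top iD,
    fun g hg => mem_J_of_xv (by rw [comm_swap (hg _ xvJ).symm]; exact one_mem _)⟩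

theorem Z2_le_J : Z2 ≤ J := fun _ h => Q0_le_J h.1

theorem any_z2 (g : G) {j : G} (hj : j ∈ Z2) : ⁅g, j⁆ ∈ Z := by
  rw [cmJ g (Z2_le_J hj)]
  obtain ⟨⟨-, -, -, e4, e5, e6⟩, -, -, -, e7, -, -⟩ := mem_Z2.1 hj
  simp [mem_Z, dl, *]

theorem ch3 : Ch3 := by
  let A : Subgroup (MulAut E3) := ⊤
  have iZ : Iv A Z := (Iv.commP Iv.one).congr fun g _ =>
    ⟨fun h x _ => sw1.1 (any_z x h), fun h => mem_Z_of (h _ rfl) (sw1.1 (h _ rfl)) (sw1.1 (h _ rfl))⟩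
  have iZ2 : Iv A Z2 := by
    refine (Iv.commP iZ).congr fun g hg => ⟨fun h x _ => sw.1 (any_z2 x h), fun h => ?_⟩
    have gJ := mem_J_of_xv (h _ rfl)
    have ha : ⁅xa 1, g⁆ ∈ Z := sw.1 (h _ rfl)
    have hb : ⁅xb 1, g⁆ ∈ Z := sw.1 (h _ rfl)
    rw [cmJ _ gJ] at ha hb
    have e1 : g.v = 0 := by simpa [dl, xa] using ha.2.2.2.2.1
    have e2 : g.w = 0 := by simpa [dl, xa] using ha.2.2.2.1
    have e3 : g.x = 0 := by simpa [dl, xb] using hb.2.2.2.1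
    exact ⟨⟨gJ.1, gJ.2.1, gJ.2.2, e2, e1, hg⟩, gJ.1, gJ.2.1, gJ.2.2, e3, e1, hg⟩
  have iR : Iv A R := (Iv.one.comm iZ2).congr fun g hg =>
    ⟨fun h x _ hx => e1_dz h.1 hx.2, fun h => ⟨e1_of_xy (h _ rfl
      ⟨⟨rfl, rfl, rfl, rfl, rfl, rfl⟩, rfl, rfl, rfl, rfl, rfl, rfl⟩), hg⟩⟩
  have iD : Iv A Dz := (Iv.one.comm iR).congr fun g _ =>
    ⟨fun h x _ hx => sw1.1 (e1_dz hx.1 h), fun h => cen_a0 rfl xcJ
      (mem_J_of_xv (by rw [show ⁅g, xv 1⁆ = 1 from h _ rfl ⟨rfl, rfl⟩]; exact one_mem _))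
      (sw1.1 (h _ rfl ⟨rfl, rfl⟩))⟩
  have iN : Iv A N3 := by
    refine (Iv.commP iD).congr fun g hg => ⟨fun h x hx => ?_, fun h => ?_⟩
    · obtain ⟨e1, e2, e3, e4⟩ := h
      have e5 : x.t = 0 := hx
      refine ⟨cm_a _ _, cm_b _ _, ?_, ?_, ?_, cm_t _ _⟩
      · rw [cm_c, e1, e2]; simp
      · rw [cm_x, e1, e2, e3, e4, e5]; simp
      · rw [cm_v, e4, e5]; simp
    · have e4 : g.t = 0 := hg
      have hv : ⁅g, xv 1⁆ ∈ Dz := h _ rfl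
      have ha : ⁅g, xa 1⁆ ∈ Dz := h _ rfl
      exact ⟨by simpa [cm_x, xv, e4] using hv.2.2.2.1, by simpa [cm_c, xa] using ha.2.2.1,
        by simpa [cm_x, xa, e4] using ha.2.2.2.1, e4⟩
  exact ⟨ch_of_iv (fun _ h => h.2) iR, ch_of_iv (fun _ h => h.2.2.2) iN,
    ch_of_iv (fun _ h => h.2.2.2.2.2) iD, ch_of_iv (fun _ h => h.1.2.2.2.2.2) iZ2,
    ch_of_iv (fun _ h => h.2.2.2.2.2.2.2) iZ⟩

end Cfsg.Agent.H55.C1Ch
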