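import Mathlib
import Cfsg.Agent.H55.C1Ch
import Cfsg.Agent.H5.Ess
import Cfsg.Agent.H89.PBasic

/-!
Generators and automorphisms of the Sylow `3`-subgroup of `Co₁`.
-/

set_option autoImplicit false

namespace Cfsg.Agent.H55.C1Gen

open Cfsg.Agent.H97 Cfsg.Agent.H96.VB Cfsg.Agent.H96.CP Cfsg.Agent.H99.C1 Cfsg.Agent.H55.C1Pj
  Cfsg.Agent.H55.C1K2 Cfsg.Agent.H55.C1Ch Subgroup
open scoped commutatorElement

variable {H : Subgroup G}

theorem all_of (f : K → G) (h0 : f 0 = 1) (h2 : f 2 = f 1 * f 1) (h : f 1 ∈ H) (k : K) : f k ∈ H := by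
  rcases k3 k with rfl | rfl | rfl
  exacts [h0 ▸ H.one_mem, h, h2 ▸ mul_mem h h]

theorem all_a (h : xa 1 ∈ H) (k : K) : xa k ∈ H := all_of xa rfl (by decide) h k
theorem all_b (h : xb 1 ∈ H) (k : K) : xb k ∈ H := all_of xb rfl (by decide) h k
theorem all_c (h : xc 1 ∈ H) (k : K) : xc k ∈ H := all_of xc rfl (by decide) h k
theorem all_z (h : xz 1 ∈ H) (k : K) : xz k ∈ H := all_of xz rfl (by decide) h k
theorem all_y (h : xy 1 ∈ H) (k : K) : xy k ∈ H := all_of xy rfl (by decide) h k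
theorem all_x (h : xx 1 ∈ H) (k : K) : xx k ∈ H := all_of xx rfl (by decide) h k
theorem all_w (h : xw 1 ∈ H) (k : K) : xw k ∈ H := all_of xw rfl (by decide) h k
theorem all_v (h : xv 1 ∈ H) (k : K) : xv k ∈ H := all_of xv rfl (by decide) h k
theorem all_t (h : xt 1 ∈ H) (k : K) : xt k ∈ H := all_of xt rfl (by decide) h k

theorem nf (g : G) : g = xz g.z * xy g.y * xx g.x * xw g.w * xv g.v * xt g.t * xc g.c * xb g.b * xa g.a := by
  ext <;> simp [xa, xb, xc, xz, xy, xx, xw, xv, xt]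

theorem mem_of (g : G) (ha : xa g.a ∈ H) (hb : xb g.b ∈ H) (hc : xc g.c ∈ H) (hz : xz g.z ∈ H)
    (hy : xy g.y ∈ H) (hx : xx g.x ∈ H) (hw : xw g.w ∈ H) (hv : xv g.v ∈ H) (ht : xt g.t ∈ H) :
    g ∈ H := by
  rw [nf g]
  exact mul_mem (mul_mem (mul_mem (mul_mem (mul_mem (mul_mem (mul_mem (mul_mem hz hy) hx) hw) hv) ht)
    hc) hb) ha

theorem c_ab : ⁅xa 1, xb 1⁆ = xc 1 := by decide
theorem c_bt : ⁅xb 1, xt 1⁆ = xv 1 * xw 1 := by decide
theorem c_bv : ⁅xb 1, xv 1⁆ = (xw 1)⁻¹ := by decide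
theorem c_bvw : ⁅xb 1, xv 1 * xw 1⁆ = (xw 1)⁻¹ := by decide
theorem c_av : ⁅xa 1, xv 1⁆ = xx 1 := by decide
theorem c_bx : ⁅xb 1, xx 1⁆ = xy 1 := by decide
theorem c_ay : ⁅xa 1, xy 1⁆ = (xz 1)⁻¹ := by decide

theorem z_iff {g : G} (h : g ∈ Z) : g = xz g.z := by
  obtain ⟨e1, e2, e3, e4, e5, e6, e7, e8⟩ := h
  ext <;> simp [xz, *]

theorem e3_le (ha : xa 1 ∈ H) (hb : xb 1 ∈ H) (hv : xv 1 ∈ H) : E3 ≤ H := by
  have hc := c_ab ▸ comm_mem ha hb
  have hw := inv_mem_iff.1 (c_bv ▸ comm_mem hb hv)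
  have hx := c_av ▸ comm_mem ha hv
  have hy := c_bx ▸ comm_mem hb hx
  have hz := inv_mem_iff.1 (c_ay ▸ comm_mem ha hy)
  intro g hg
  exact mem_of g (all_a ha _) (all_b hb _) (all_c hc _) (all_z hz _) (all_y hy _) (all_x hx _)
    (all_w hw _) (all_v hv _) (by rw [mem_E3.1 hg]; exact H.one_mem)

theorem gen : Gen := by
  refine ⟨fun H ha hb ht g => ?_, fun H => e3_le, fun H hz hy hx hw hv ht g hg => ?_, fun H hn hH => ?_⟩
  · have hp := c_bt ▸ comm_mem hb ht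
    have hw := inv_mem_iff.1 (c_bvw ▸ comm_mem hb hp)
    have hv : xv 1 ∈ H := (mul_mem_cancel_right hw).1 hp
    have := mul_mem (e3_le ha hb hv (show g * (xt g.t)⁻¹ ∈ E3 by simp [mem_E3, xt])) (all_t ht g.t)
    simpa using this
  · exact mem_of g (by rw [hg.1]; exact H.one_mem) (by rw [hg.2.1]; exact H.one_mem)
      (by rw [hg.2.2]; exact H.one_mem) (all_z hz _) (all_y hy _) (all_x hx _)
      (all_w hw _) (all_v hv _) (all_t ht _)
  · obtain ⟨g, hg, g1⟩ := (bot_or_exists_ne_one _).resolve_left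
      (H89.inf_center_ne_bot G.isPGroup (N := H) hH)
    have hc := mem_center_iff.1 hg.2
    have e := z_iff (mem_Z_of (comm_swap (hc _).symm) (comm_swap (hc _)) (comm_swap (hc _)))
    rcases k3 g.z with k | k | k <;> rw [k] at e
    · exact absurd e g1
    · exact e ▸ hg.1
    · exact (show xz 2 * xz 2 ∈ H from e ▸ mul_mem hg.1 hg.1)

theorem mem_frattini {g : G} (ha : g.a = 0) (hb : g.b = 0) (ht : g.t = 0) : g ∈ frattini G := by
  have k : ∀ g h : G, ⁅g, h⁆ ∈ frattini G := fun g h =>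
    H89.commutator_le_frattini G.isPGroup (commutator_mem_commutator (mem_top g) (mem_top h))
  have hw := inv_mem_iff.1 (c_bv ▸ k _ _)
  exact mem_of g (by rw [ha]; exact one_mem _) (by rw [hb]; exact one_mem _) (all_c (c_ab ▸ k _ _) _)
    (all_z (inv_mem_iff.1 (c_ay ▸ k _ _)) _) (all_y (c_bx ▸ k _ _) _) (all_x (c_av ▸ k _ _) _)
    (all_w hw _) (all_v ((mul_mem_cancel_right hw).1 (c_bt ▸ k _ _)) _) (by rw [ht]; exact one_mem _)

theorem lin (π : G → K) (hπ : ∀ g h, π (g * h) = π g + π h) (f : K → G) (hf : ∀ k, π (f k) = k)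
    (h0 : f 0 = 1) (h2 : f 2 = f 1 * f 1) (hc : ∀ β : MulAut G, ∀ g, π g = 0 → π (β g) = 0)
    (β : MulAut G) : ∃ e : Kˣ, ∀ g, π (β g) = e * π g := by
  have p1 : π 1 = 0 := by simpa using hπ 1 1
  have pi : ∀ g, π g⁻¹ = -π g := fun g => eq_neg_of_add_eq_zero_left (by rw [← hπ, inv_mul_cancel, p1])
  have ne : π (β (f 1)) ≠ 0 := fun k => by
    have := hc β⁻¹ _ k
    rw [MulAut.inv_apply_self, hf] at this
    exact one_ne_zero this
  refine ⟨Units.mk0 _ ne, fun g => ?_⟩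
  have e1 := hc β (g * (f (π g))⁻¹) (by rw [hπ, pi, hf, add_neg_cancel])
  rw [map_mul, map_inv, hπ, pi, add_neg_eq_zero] at e1
  rw [e1, Units.val_mk0]
  generalize π g = k
  rcases k3 k with rfl | rfl | rfl
  · rw [h0, map_one, p1, mul_zero]
  · rw [mul_one]
  · rw [h2, map_mul, hπ, mul_two]

theorem au1 (h : ChS) : AU1Stmt := by
  refine ⟨fun β => ?_, fun β => ?_⟩
  · obtain ⟨k, hk⟩ := H5.pow_eq_one_of_triv_frattini G.isPGroup β.1 fun x =>
      mem_frattini (by simp [(β.2 x).1]) (by simp [(β.2 x).2.1]) (by simp [(β.2 x).2.2])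
    exact ⟨k, Subtype.ext hk⟩
  · obtain ⟨e1, h1⟩ := lin G.a G.mul_a xa (fun _ => rfl) rfl (by decide) h.e1 β
    obtain ⟨e2, h2⟩ := lin G.b G.mul_b xb (fun _ => rfl) rfl (by decide) h.e2 β
    obtain ⟨e3, h3⟩ := lin G.t G.mul_t xt (fun _ => rfl) rfl (by decide) h.e3 β
    refine ⟨(e1, e2, e3), fun g => ?_⟩
    rw [← map_inv, MulAut.mul_apply, h1, h2, h3, tor_apply]
    exact ⟨Units.mul_inv_cancel_left _ _, Units.mul_inv_cancel_left _ _, Units.mul_inv_cancel_left _ _⟩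

end Cfsg.Agent.H55.C1Gen
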