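import Mathlib
import Cfsg.Agent.H55.C1K2

/-!
Essential subgroups not containing `J`: the case of a regular element.
-/

set_option autoImplicit false

namespace Cfsg.Agent.H55.C1Kb4

open Cfsg.Agent.H97 Cfsg.Agent.H96.VB Cfsg.Agent.H96.CP Cfsg.Agent.H99.C1 Cfsg.Agent.H55.C1Pj
  Cfsg.Agent.H55.C1K2 Subgroup
open scoped commutatorElement

variable {P Q : Subgroup G}

theorem wl' (h : Kd2 P Q) {α : Type} (f : α → G) (hf : Function.Injective f) (hJ : ∀ x, f x ∈ J)
    (hn : ∀ x, ∀ g ∈ P, ⁅g, f x⁆ ∈ P) :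
    Nat.card α * Nat.card (Q ⊓ J : Subgroup G) ≤
      Nat.card (P ⊓ J : Subgroup G) * Nat.card (P ⊓ J : Subgroup G) := by
  have h1 := h.wl (J ⊓ normalizer (P : Set G)) inf_le_left fun j hj g hg =>
    mul_mem ((mem_normalizer_iff.1 hj.2 g).1 hg) (inv_mem hg)
  have h2 : Nat.card α ≤ Nat.card (J ⊓ normalizer (P : Set G) : Subgroup G) :=
    Nat.card_le_card_of_injective (fun x => (⟨f x, hJ x, mem_normalizer_of_comm fun g hg => by
      rw [← commutatorElement_inv]; exact inv_mem (hn x g hg)⟩ :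
        (J ⊓ normalizer (P : Set G) : Subgroup G))) fun x y e => hf (congrArg Subtype.val e)
  have h3 : Nat.card ((J ⊓ normalizer (P : Set G)) ⊓ P : Subgroup G) ≤ Nat.card (P ⊓ J : Subgroup G) :=
    card_le_of_le fun g hg => ⟨hg.2, hg.1.1⟩
  exact (Nat.mul_le_mul_right _ h2).trans (h1.trans (Nat.mul_le_mul_right _ h3))

theorem xz_mem (h : ∀ g, (∀ x ∈ P, g * x = x * g) → g ∈ P) {j : G} (hj : j ∈ Z) : j ∈ P :=
  h j fun x _ => (commutatorElement_eq_one_iff_mul_comm.1 (any_z x hj)).symm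

theorem fx : ∀ e c y x w : K, e * x + w = 0 → 2 * y + 2 * c * x + w = 0 → x = 0 → y = 0 ∧ w = 0 := by
  decide

theorem card_K : Nat.card K = 3 := by simp [K]
theorem card_K2 : Nat.card (K × K) = 9 := by simp [K]
theorem card_K4 : Nat.card (K × K × K × K) = 81 := by simp [K]
theorem card_K5 : Nat.card (K × K × K × K × K) = 243 := by simp [K]

theorem core (h : Kd2 P Q) (hc : ¬ Cc Q) {d : G} (hd : d ∈ Q) (da : d.a = 1) (db : d.b ≠ 0) : False := by
  have dJ : d ∉ J := fun k => db k.2.1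
  have dP := h.le hd
  have nc : ∀ q ∈ Q, q.a = 0 → q.b = 0 → q ∈ J := fun q hq e1 e2 => by
    by_contra k
    exact hc ⟨q, hq, ⟨e1, e2⟩, k⟩
  have cQ : ∀ g ∈ P, ∀ q ∈ Q, ⁅g, q⁆ ∈ Q := fun g hg q hq => mul_mem (h.nm g hg q hq) (inv_mem hq)
  have hb : ∀ g ∈ P, g.b = d.b * g.a := by
    intro g hg
    have := (nc _ (cQ g hg d hd) (cm_a _ _) (cm_b _ _)).2.2
    rw [cm_c, da] at this
    linear_combination -this
  have hD : Nat.card (Q.map ug) ≤ 3 := by
    have : Nat.card (Q.map ug) ≤ Nat.card K :=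
      Nat.card_le_card_of_injective (fun m : Q.map ug => (m : GL6).1 1 3) <| by
        rintro ⟨_, q, hq, rfl⟩ ⟨_, r, hr, rfl⟩ e
        have e' : q.a = r.a := by simpa [ug_apply, um, uM] using e
        have := ug_eq_one.2 (nc _ (mul_mem (inv_mem hq) hr) (by simp [e'])
          (by simp [hb q (h.le hq), hb r (h.le hr), e']))
        rw [map_mul, map_inv, inv_mul_eq_one] at this
        exact Subtype.ext this
    simpa [K] using this
  have hI0 : 0 < Nat.card (Q ⊓ J : Subgroup G) := Nat.card_pos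
  have w9 : ∀ {α : Type} (f : α → G), Function.Injective f → (∀ x, f x ∈ J) →
      (∀ x, ∀ g ∈ P, ⁅g, f x⁆ ∈ P) → Nat.card α ≤ 9 * Nat.card (Q ⊓ J : Subgroup G) := by
    intro α f hf hJ hn
    have h1 := wl' h f hf hJ hn
    have h2 : Nat.card (P ⊓ J : Subgroup G) ≤ 3 * Nat.card (Q ⊓ J : Subgroup G) := by
      rw [h.ix]; exact Nat.mul_le_mul_right _ hD
    have h3 := h1.trans (Nat.mul_le_mul h2 h2)
    refine Nat.le_of_mul_le_mul_right ?_ hI0
    calc _ ≤ _ := h3
      _ = _ := by ring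
  -- the members of `I`
  have hI : ∀ i ∈ Q ⊓ J, i.t = 0 ∧ i.v = 0 ∧ d.b * i.x + i.w = 0 ∧ 2 * i.y + 2 * d.c * i.x + i.w = 0 := by
    intro i hi
    have e := comm_swap (h.ab d hd i hi.1)
    rw [cmJ d hi.2] at e
    have ht : i.t = 0 := by simpa [dl, db] using congrArg G.v e
    have hv : i.v = 0 := by simpa [dl, da, ht] using congrArg G.x e
    exact ⟨ht, hv, by simpa [dl, da, ht, hv] using congrArg G.y e,
      by simpa [dl, da, ht, hv] using congrArg G.z e⟩
  have hIZ : ∀ i ∈ Q ⊓ J, i.x = 0 → i ∈ Z := by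
    intro i hi hx
    obtain ⟨h1, h2, h3, h4⟩ := hI i hi
    obtain ⟨h5, h6⟩ := fx _ _ _ _ _ h3 h4 hx
    exact ⟨hi.2.1, hi.2.2.1, hi.2.2.2, h5, hx, h6, h2, h1⟩
  have ZP : ∀ j ∈ Z, j ∈ P := fun j => xz_mem h.cen
  by_cases hy : xy 1 ∈ P
  · have yP : ∀ k, xy k ∈ P := by
      intro k
      rcases k3 k with rfl | rfl | rfl
      exacts [P.one_mem, hy, mul_mem hy hy]
    have Z2P : ∀ j ∈ J, j.x = 0 → j.w = 0 → j.v = 0 → j.t = 0 → j ∈ P := by
      rintro j ⟨e1, e2, e3⟩ e4 e5 e6 e7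
      have : j = xz j.z * xy j.y := by ext <;> simp [xz, xy, *]
      rw [this]
      exact mul_mem (ZP _ ⟨rfl, rfl, rfl, rfl, rfl, rfl, rfl, rfl⟩) (yP _)
    have h9 : Nat.card (Q ⊓ J : Subgroup G) ≤ 9 := by
      have := card_le_of_coord (H := Q ⊓ J) inf_le_right (fun g => (g.z, g.x)) (by
        rintro g ⟨e1, e2, e3⟩ k ⟨k1, k2, k3⟩
        simp [*]) fun g hg h0 => by
          simp only [Prod.mk_eq_zero] at h0
          obtain ⟨e1, e2, e3, e4, e5, e6, e7, e8⟩ := hIZ g hg h0.2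
          ext <;> simp [e1, e2, e3, e4, e5, e6, e7, e8, h0.1]
      rwa [card_K2] at this
    have h81 := w9 (fun p : K × K × K × K => (⟨0, 0, 0, p.1, p.2.1, p.2.2.1, p.2.2.2, 0, 0⟩ : G))
      (fun p q e => by simp only [G.mk.injEq] at e; ext <;> simp [e]) (fun _ => ⟨rfl, rfl, rfl⟩)
      fun p g _ => by
        rw [cmJ g ⟨rfl, rfl, rfl⟩]
        exact Z2P _ ⟨rfl, rfl, rfl⟩ (by simp [dl]) (by simp [dl]) (by simp [dl]) rfl
    obtain ⟨i, hi, ix⟩ : ∃ i ∈ Q ⊓ J, i.x ≠ 0 := by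
      by_contra! k
      have := card_le_of_coord (H := Q ⊓ J) inf_le_right (fun g => g.z) (by
        rintro g ⟨e1, e2, e3⟩ k ⟨k1, k2, k3⟩
        simp [*]) fun g hg h0 => by
          obtain ⟨e1, e2, e3, e4, e5, e6, e7, e8⟩ := hIZ g hg (k g hg)
          ext <;> simp [e1, e2, e3, e4, e5, e6, e7, e8, show g.z = 0 from h0]
      rw [card_K] at this
      rw [card_K4] at h81
      omega
    have fP : ∀ j ∈ J, d.b * j.x + j.w = 0 → j.v = 0 → j.t = 0 → j ∈ P := by
      intro j hj e1 e2 e3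
      obtain ⟨i', hi', ex⟩ : ∃ i' ∈ Q ⊓ J, i'.x = j.x := by
        have : ∀ p q : K, p ≠ 0 → q = 0 ∨ q = p ∨ q = -p := by decide
        rcases this i.x j.x ix with k | k | k
        · exact ⟨1, one_mem _, k.symm⟩
        · exact ⟨i, hi, k.symm⟩
        · exact ⟨i⁻¹, inv_mem hi, by simp [k, hi.2.1, hi.2.2.1, hi.2.2.2]⟩
      obtain ⟨h1, h2, h3, -⟩ := hI i' hi'
      obtain ⟨k1, k2, k3⟩ := hi'.2
      have := Z2P (i'⁻¹ * j) (mul_mem (inv_mem hi'.2) hj) (by simp [*])
        (by simp only [G.mul_w, G.inv_w, G.inv_b, k2, h1, h2, e2, e3]; rw [ex] at h3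
            linear_combination e1 - h3) (by simp [*]) (by simp [*])
      simpa using mul_mem (h.le hi'.1) this
    have h243 := w9
      (fun p : K × K × K × K × K => (⟨0, 0, 0, p.1, p.2.1, p.2.2.1, p.2.2.2.1, p.2.2.2.2, 0⟩ : G))
      (fun p q e => by simp only [G.mk.injEq] at e; ext <;> simp [e]) (fun _ => ⟨rfl, rfl, rfl⟩)
      fun p g hg => by
        rw [cmJ g ⟨rfl, rfl, rfl⟩]
        refine fP _ ⟨rfl, rfl, rfl⟩ ?_ (by simp [dl]) rfl
        simp only [dl, hb g hg]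
        linear_combination (d.b * g.a * p.2.2.2.2) * three
    rw [card_K5] at h243
    omega
  · have yJ : xy 1 ∈ J := ⟨rfl, rfl, rfl⟩
    have z1 : xz 1 ∉ Q := by
      have := h.k3 _ yJ hy (fun g hg => by
        rw [← commutatorElement_inv, cmJ g yJ]
        exact inv_mem (ZP _ (by simp [mem_Z, dl, xy]))) d hd dJ
      rw [← commutatorElement_inv, inv_mem_iff, cmJ d yJ] at this
      intro k
      refine this ?_
      have e : dl d (xy 1) = xz 1 * xz 1 := by ext <;> simp [dl, xy, xz, da]; decide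
      rw [e]; exact mul_mem k k
    have zQ : ∀ j ∈ Z, j ∈ Q → j = 1 := by
      rintro j ⟨e1, e2, e3, e4, e5, e6, e7, e8⟩ hj
      have e : j = xz j.z := by ext <;> simp [xz, *]
      rcases k3 j.z with k | k | k <;> rw [k] at e
      · exact e
      · exact absurd (e ▸ hj) z1
      · exact absurd (show xz 2 * xz 2 ∈ Q from e ▸ mul_mem hj hj) z1
    have h3 : Nat.card (Q ⊓ J : Subgroup G) ≤ 3 := by
      have := card_le_of_coord (H := Q ⊓ J) inf_le_right (fun g => g.x) (by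
        rintro g ⟨e1, e2, e3⟩ k ⟨k1, k2, k3⟩
        simp [*]) fun g hg h0 => zQ g (hIZ g hg h0) hg.1
      rwa [card_K] at this
    have h27 := w9 (fun p : K × K × K => (⟨0, 0, 0, p.1, p.2.1, p.2.2, -(d.b * p.2.2), 0, 0⟩ : G))
      (fun p q e => by simp only [G.mk.injEq] at e; ext <;> simp [e]) (fun _ => ⟨rfl, rfl, rfl⟩)
      fun p g hg => by
        rw [cmJ g ⟨rfl, rfl, rfl⟩]
        refine ZP _ ?_
        simp only [mem_Z, dl, hb g hg, mul_zero, add_zero, and_true, true_and]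
        ring
    obtain ⟨i, hi, ix⟩ : ∃ i ∈ Q ⊓ J, i.x ≠ 0 := by
      by_contra! k
      have : (Q ⊓ J : Subgroup G) = ⊥ := (eq_bot_iff_forall _).2 fun g hg => zQ g (hIZ g hg (k g hg)) hg.1
      rw [this, card_bot, card_K3] at h27
      omega
    have nP : ∀ g ∈ P, g.a = 0 → g ∈ J := by
      intro g hg ga
      have gb : g.b = 0 := by rw [hb g hg, ga, mul_zero]
      obtain ⟨h1, h2, -, -⟩ := hI i hi
      have e := cQ g hg i hi.1
      rw [cmJ g hi.2] at e
      have := congrArg G.z (zQ _ (by simp [mem_Z, dl, ga, gb, h1, h2]) e)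
      have e2 : 2 * g.c * i.x = 0 := by
        simpa only [dl, ga, h1, h2, mul_zero, zero_mul, add_zero, zero_add, G.one_z] using this
      exact ⟨ga, gb, ((mul_eq_zero.1 ((mul_eq_zero.1 e2).resolve_right ix)).resolve_left (by decide))⟩
    have dec : ∀ g ∈ P, ∃ j ∈ P ⊓ J, ∃ n : ℕ, g = j * d ^ n := by
      intro g hg
      rcases k3 g.a with k | k | k
      · exact ⟨g, ⟨hg, nP g hg k⟩, 0, by simp⟩
      · have := mul_mem hg (inv_mem dP)
        exact ⟨_, ⟨this, nP _ this (by simp [k, da])⟩, 1, by simp⟩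
      · have := mul_mem hg (inv_mem (pow_mem dP 2))
        exact ⟨_, ⟨this, nP _ this (by simp [k, da, pow_two]; decide)⟩, 2, by simp⟩
    have cP : ∀ j ∈ J, ⁅d, j⁆ = 1 → j ∈ P := by
      intro j hj e
      refine h.cen j fun g hg => ?_
      obtain ⟨j', hj', n, rfl⟩ := dec g hg
      have c1 : Commute j j' := J_comm hj hj'.2
      have c2 : Commute d j := commutatorElement_eq_one_iff_commute.1 e
      exact (c1.mul_right (c2.symm.pow_right n))
    have h81 := w9 (fun p : K × K × K × K => (⟨0, 0, 0, p.1, p.2.1, p.2.2.1,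
        -(d.b * p.2.2.1) - (2 * d.b + 2 * d.c) * p.2.2.2, p.2.2.2, 0⟩ : G))
      (fun p q e => by simp only [G.mk.injEq] at e; ext <;> simp [e]) (fun _ => ⟨rfl, rfl, rfl⟩)
      fun p g hg => by
        generalize hj : (⟨0, 0, 0, p.1, p.2.1, p.2.2.1,
          -(d.b * p.2.2.1) - (2 * d.b + 2 * d.c) * p.2.2.2, p.2.2.2, 0⟩ : G) = j
        have jJ : j ∈ J := hj ▸ ⟨rfl, rfl, rfl⟩
        have e1 : ⁅d, j⁆ ∈ P := by
          refine cP _ (J5_le_J (any_j d jJ)) ?_
          rw [cmJ d (J5_le_J (any_j d jJ)), cmJ d jJ, ← hj]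
          ext <;> simp only [dl, da, G.one_a, G.one_b, G.one_c, G.one_z, G.one_y, G.one_x, G.one_w,
            G.one_v, G.one_t]
          · ring
          · linear_combination (d.b * p.2.2.2) * three
          all_goals ring
        have e2 : j * d * j⁻¹ ∈ P := by
          have := mul_mem (inv_mem e1) dP
          rwa [commutatorElement_inv, cm, inv_mul_cancel_right] at this
        obtain ⟨j', hj', n, rfl⟩ := dec g hg
        rw [← commutatorElement_inv]
        refine inv_mem (mul_mem ?_ (inv_mem hg))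
        have : j * (j' * d ^ n) * j⁻¹ = j' * (j * d * j⁻¹) ^ n := by
          rw [conj_pow, ← mul_assoc, J_comm jJ hj'.2]; group
        rw [this]
        exact mul_mem hj'.1 (pow_mem e2 n)
    rw [card_K4] at h81
    omega

theorem kb4 : KB4Stmt := by
  rintro P Q h hc ⟨d, hd, da, db⟩
  rcases k3 d.a with k | k | k
  · exact da k
  · exact core h hc hd k db
  · exact core h hc (inv_mem hd) (by rw [G.inv_a, k]; decide) (by simpa using db)

end Cfsg.Agent.H55.C1Kb4
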