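import Mathlib
import Cfsg.Agent.H55.Co3F
import Cfsg.Agent.H55.Co3G

/-!
# More facts about `2 · Sp₆(2)`: centres of centralisers and normal quaternion subgroups
-/

set_option autoImplicit false
set_option maxRecDepth 200000

namespace Cfsg.Agent.H55

open Cfsg.Agent.H43 Equiv Subgroup

/-- The list of words contains `1` and is closed under left multiplication by the nets. -/
noncomputable def closB (n k : ℕ) (E : List Net) (l : List Ex) : Bool :=
  band (anyL (fun e => Ex.eqB n k e 1) l)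
    (allL (fun o => allL (fun e => band (anyL (fun e' => Ex.eqB n k (Ex.n o * e) e') l)
      (anyL (fun e' => Ex.eqB n k ((Ex.n o)⁻¹ * e) e') l)) l) E)

theorem exists_of_closB {n k : ℕ} (hn : NOk n) (hk : n ≤ 2 ^ k) {E : List Net} {l : List Ex}
    (h : closB n k E l = true) {d : Perm (Fin n)} (hd : d ∈ grp n E) : ∃ e ∈ l, e.ev n = d := by
  obtain ⟨h1, h2⟩ := band_eq_true.1 h
  induction hd using closure_induction_left with
  | one =>
    obtain ⟨e, he, h3⟩ := anyL_iff.1 h1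
    exact ⟨e, he, Ex.eq_of hn hk _ _ h3⟩
  | mul_left a ha d _ ih =>
    obtain ⟨o, ho, rfl⟩ := ha
    obtain ⟨e, he, rfl⟩ := ih
    obtain ⟨e', he', h3⟩ := anyL_iff.1 (band_eq_true.1 (allL_iff.1 (allL_iff.1 h2 o ho) e he)).1
    exact ⟨e', he', (Ex.eq_of hn hk _ _ h3).symm⟩
  | inv_mul_cancel a ha d _ ih =>
    obtain ⟨o, ho, rfl⟩ := ha
    obtain ⟨e, he, rfl⟩ := ih
    obtain ⟨e', he', h3⟩ := anyL_iff.1 (band_eq_true.1 (allL_iff.1 (allL_iff.1 h2 o ho) e he)).2
    exact ⟨e', he', (Ex.eq_of hn hk _ _ h3).symm⟩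

/-- Lazy disjunction. -/
noncomputable def bor (a b : Bool) : Bool := Bool.rec b true a

theorem bor_eq_true {a b : Bool} : bor a b = true ↔ a = true ∨ b = true := by
  cases a <;> simp [bor]

namespace C3

local notation "E" => Ex.n

theorem zc_of {o : Net} {K Z : List Net} (hK : Hs ⊓ centralizer {N o} = grp 276 K)
    (hZ : Hs ⊓ centralizer (grp 276 K : Set P) = grp 276 Z) (hle : grp 276 Z ≤ grp 276 [o, n_t])
    (hl : closB 276 9 [o, n_t] [1, E n_t, E o, E o * E n_t] = true) {a : P} (ha : a ∈ Hs)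
    (h : ∀ c ∈ Hs, c * N o = N o * c → c * a = a * c) :
    a = 1 ∨ a = N n_t ∨ a = N o ∨ a = N o * N n_t := by
  have h1 : a ∈ grp 276 Z := by
    rw [← hZ]
    refine ⟨ha, fun c hc => ?_⟩
    rw [← hK] at hc
    exact h c hc.1 (mem_centralizer_singleton_iff.1 hc.2)
  obtain ⟨e, he, rfl⟩ := exists_of_closB hn hk hl (hle h1)
  simp only [List.mem_cons, List.not_mem_nil, or_false] at he
  rcases he with rfl | rfl | rfl | rfl
  exacts [Or.inl rfl, Or.inr (Or.inl rfl), Or.inr (Or.inr (Or.inl rfl)),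
    Or.inr (Or.inr (Or.inr rfl))]

/-- The centre of the centraliser of a lift of an involution of `Sp₆(2)`. -/
theorem zc_spec {a b : Hs} (hb : b * b = 1 ∨ b * b = tM) (h1 : b ≠ 1) (h2 : b ≠ tM)
    (h : ∀ c : Hs, Commute c b → Commute c a) : a = 1 ∨ a = tM ∨ a = b ∨ a = b * tM := by
  obtain ⟨i, hi, ⟨g, hg, e⟩, ho, -⟩ := ht.exists b.2
  have key : ∀ i < 43, nthN ht_os i = 2 ∨ nthN ht_os i = 4 → i = 1 ∨ i = 2 ∨ i = 3 ∨ i = 7 ∨
      i = 8 ∨ i = 9 ∨ i = 10 ∨ i = 11 := by decide +kernel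
  have hgt := comm_t hg
  have h24 : orderOf (b : P) = 2 ∨ orderOf (b : P) = 4 := by
    rcases hb with hb | hb
    · exact Or.inl (orderOf_two hb h1)
    · right
      rw [Subgroup.orderOf_coe]
      refine orderOf_eq_prime_pow (p := 2) (n := 1) ?_ ?_
      · rw [pow_one, pow_two, hb]; exact tM_ne
      · have : b ^ 2 ^ (1 + 1) = b * b * (b * b) := by norm_num [pow_succ, mul_assoc]
        rw [this, hb, tM_sq]
  have main : ∀ {o : Net}, g * N o * g⁻¹ = b → (∀ a ∈ Hs, (∀ c ∈ Hs, c * N o = N o * c →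
      c * a = a * c) → a = 1 ∨ a = N n_t ∨ a = N o ∨ a = N o * N n_t) →
      a = 1 ∨ a = tM ∨ a = b ∨ a = b * tM := by
    intro o e H
    have e1 : (a : P) = g * (g⁻¹ * a * g⁻¹⁻¹) * g⁻¹ := by group
    rcases H (g⁻¹ * a * g⁻¹⁻¹) (mul_mem (mul_mem (inv_mem hg) a.2) (inv_mem (inv_mem hg)))
      (fun c hc hco => by
        have h3 := congrArg Subtype.val (h ⟨g * c * g⁻¹, mul_mem (mul_mem hg hc) (inv_mem hg)⟩
          (Subtype.ext (conj_comm hco e)))
        have h4 := conj_comm (g := g⁻¹) h3 rfl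
        change g⁻¹ * (g * c * g⁻¹) * g⁻¹⁻¹ * _ = _ * (g⁻¹ * (g * c * g⁻¹) * g⁻¹⁻¹) at h4
        rwa [show g⁻¹ * (g * c * g⁻¹) * g⁻¹⁻¹ = c by group] at h4) with e2 | e2 | e2 | e2
    · exact Or.inl (Subtype.ext (by rw [e1, e2]; simp))
    · exact Or.inr (Or.inl (Subtype.ext (by rw [e1, e2, hgt, mul_inv_cancel_right]; rfl)))
    · exact Or.inr (Or.inr (Or.inl (Subtype.ext (by rw [e1, e2, e]))))
    · refine Or.inr (Or.inr (Or.inr (Subtype.ext ?_)))
      change (a : P) = b * N n_t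
      rw [e1, e2, ← e, mul_assoc _ g⁻¹, (show g⁻¹ * N n_t = N n_t * g⁻¹ from
        comm_t (inv_mem hg))]
      group
  have bad : ∀ {o : Net}, g * N o * g⁻¹ = b → N o * N o ≠ 1 → N o * N o ≠ N n_t → False := by
    intro o e h3 h4
    have e1 : N o * N o = g⁻¹ * ((b * b : Hs) : P) * g := by
      rw [Subgroup.coe_mul, ← e]; group
    rcases hb with hb | hb
    · exact h3 (by rw [e1, hb]; simp)
    · exact h4 (by rw [e1, hb, mul_assoc]; change g⁻¹ * (N n_t * g) = _; rw [← hgt]; group)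
  rw [ho] at h24
  rcases key i hi h24 with rfl | rfl | rfl | rfl | rfl | rfl | rfl | rfl
  · exact absurd (Subtype.ext (by rw [← e]; exact mul_inv_eq_iff_eq_mul.2 hgt)) h2
  · exact main (o := n_u) e fun _ => zc_of ht_c2_eq zc2_eq zc2_le_Ez (by decide +kernel)
  · exact main (o := n_v) e fun _ => zc_of ht_c3_eq zc3_eq zc3_le_Ez (by decide +kernel)
  · exact main (o := g190) e fun _ => zc_of ht_c7_eq zc7_eq zc7_le_Ez (by decide +kernel)
  · exact main (o := g200) e fun _ => zc_of ht_c8_eq zc8_eq zc8_le_Ez (by decide +kernel)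
  · exact (bad (o := g208) e (neE (E g208 * E g208) 1 (by decide +kernel))
      (neE (E g208 * E g208) (E n_t) (by decide +kernel))).elim
  · exact (bad (o := g224) e (neE (E g224 * E g224) 1 (by decide +kernel))
      (neE (E g224 * E g224) (E n_t) (by decide +kernel))).elim
  · exact (bad (o := g231) e (neE (E g231 * E g231) 1 (by decide +kernel))
      (neE (E g231 * E g231) (E n_t) (by decide +kernel))).elim

/-- The elements of a quaternion group with generators `a, b`. -/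
noncomputable def q8 (a b : Net) : List Ex :=
  [1, E a, E a * E a, E a * E a * E a, E b, E a * E b, E a * E a * E b, E a * E a * E a * E b]

theorem q8_mem {a b : Net} {e : Ex} (h : e ∈ q8 a b) : e.ev 276 ∈ grp 276 [a, b] := by
  have ha : N a ∈ grp 276 [a, b] := getN_mem_grp 276 [a, b] 0
  have hb : N b ∈ grp 276 [a, b] := getN_mem_grp 276 [a, b] 1
  simp only [q8, List.mem_cons, List.not_mem_nil, or_false] at h
  rcases h with rfl | rfl | rfl | rfl | rfl | rfl | rfl | rfl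
  exacts [one_mem _, ha, mul_mem ha ha, mul_mem (mul_mem ha ha) ha, hb, mul_mem ha hb,
    mul_mem (mul_mem ha ha) hb, mul_mem (mul_mem (mul_mem ha ha) ha) hb]

/-- A subgroup of `Ts` normalised by `Ts` all of whose nontrivial subgroups contain `s`. -/
structure QN (R : Subgroup P) (s : P) : Prop where
  le : R ≤ Ts
  sq : ∀ r ∈ R, r = 1 ∨ r = s ∨ r * r = s
  norm : ∀ m ∈ Ts, ∀ r ∈ R, m * r * m⁻¹ ∈ R

theorem QN.of {a b : Net} {s : Ex} (ha : N a ∈ Hs) (hb : N b ∈ Hs)
    (h : band (band (Ex.eqB 276 9 (E a * E n_u) (E n_u * E a))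
      (Ex.eqB 276 9 (E b * E n_u) (E n_u * E b))) (band (closB 276 9 [a, b] (q8 a b))
      (band (allL (fun e => bor (Ex.eqB 276 9 e 1) (bor (Ex.eqB 276 9 e s)
        (Ex.eqB 276 9 (e * e) s))) (q8 a b))
      (allL (fun m => allL (fun r => anyL (fun e => Ex.eqB 276 9 (E m * E r * (E m)⁻¹) e) (q8 a b))
        [a, b]) ET))) = true) : QN (grp 276 [a, b]) (s.ev 276) := by
  obtain ⟨h0, h⟩ := band_eq_true.1 h
  obtain ⟨h1, h⟩ := band_eq_true.1 h
  obtain ⟨h2, h3⟩ := band_eq_true.1 h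
  refine ⟨grp_cons_le (mem_T.2 ⟨ha, comE _ _ (band_eq_true.1 h0).1⟩)
    (grp_cons_le (mem_T.2 ⟨hb, comE _ _ (band_eq_true.1 h0).2⟩) (grp_nil_le _)), fun r hr => ?_,
    fun m hm r hr => ?_⟩
  · obtain ⟨e, he, rfl⟩ := exists_of_closB hn hk h1 hr
    rcases bor_eq_true.1 (allL_iff.1 h2 e he) with h | h
    · exact Or.inl (eqE _ _ h)
    rcases bor_eq_true.1 h with h | h
    · exact Or.inr (Or.inl (eqE _ _ h))
    · exact Or.inr (Or.inr (eqE _ _ h))
  · have h4 : grp 276 ET ≤ normalizer (grp 276 [a, b] : Set P) := by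
      refine grp_le_iff.2 fun o ho => ?_
      apply mem_normalizer_fintype
      have : grp 276 [a, b] ≤ (grp 276 [a, b]).comap (MulAut.conj (N o)).toMonoidHom := by
        refine grp_le_iff.2 fun o' ho' => ?_
        obtain ⟨e, he, h5⟩ := anyL_iff.1 (allL_iff.1 (allL_iff.1 h3 o ho) o' ho')
        have := q8_mem he
        rw [← eqE _ _ h5] at this
        exact this
      exact fun d hd => this hd
    exact (mem_normalizer_iff.1 (h4 (tK_le_ET hm)) r).1 hr

/-- The normal quaternion subgroup of `Ts` with centre `t`. -/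
noncomputable abbrev Rt : Subgroup P := grp 276 [g667, g431]
/-- The normal quaternion subgroup of `Ts` with centre `t u`. -/
noncomputable abbrev Ro : Subgroup P := grp 276 [g499, n_ob]

theorem qn_t : QN Rt (N n_t) :=
  QN.of (s := E n_t) (ER_le (getN_mem_grp 276 ER 0)) (ER_le (getN_mem_grp 276 ER 1))
    (by decide +kernel)

theorem qn_o : QN Ro (N n_t * N n_u) :=
  QN.of (s := E n_t * E n_u) (ER_le (getN_mem_grp 276 ER 2)) (ER_le (getN_mem_grp 276 ER 3))
    (by decide +kernel)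

theorem mem_W {a : P} (ha : a ∈ Hs) (h1 : ∀ r ∈ Rt, r * a = a * r) (h2 : ∀ r ∈ Ro, r * a = a * r) :
    a ∈ grp 276 EW := by
  apply cw_le_EW
  rw [← cw_eq]
  refine ⟨ha, ?_⟩
  have : grp 276 ER ≤ centralizer {a} :=
    grp_cons_le (mem_centralizer_singleton_iff.2 (h1 _ (getN_mem_grp 276 _ 0)))
      (grp_cons_le (mem_centralizer_singleton_iff.2 (h1 _ (getN_mem_grp 276 _ 1)))
        (grp_cons_le (mem_centralizer_singleton_iff.2 (h2 _ (getN_mem_grp 276 _ 0)))
          (grp_cons_le (mem_centralizer_singleton_iff.2 (h2 _ (getN_mem_grp 276 _ 1)))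
            (grp_nil_le _))))
  exact fun q hq => mem_centralizer_singleton_iff.1 (this hq)

/-- The elements of `W = Q₈ × 2`. -/
noncomputable def wl : List Ex := q8 g509 g416 ++ (q8 g509 g416).map (· * E n_t)

theorem exists_wl {a : P} (ha : a ∈ grp 276 EW) : ∃ e ∈ wl, e.ev 276 = a :=
  exists_of_closB hn hk (by decide +kernel) ha

theorem W_sq {a : P} (ha : a ∈ grp 276 EW) : a * a = 1 ∨ a * a = N n_u := by
  have key : allL (fun e => bor (Ex.eqB 276 9 (e * e) 1) (Ex.eqB 276 9 (e * e) (E n_u))) wl =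
      true := by decide +kernel
  obtain ⟨e, he, rfl⟩ := exists_wl ha
  exact (bor_eq_true.1 (allL_iff.1 key e he)).imp (eqE _ _) (eqE _ _)

theorem W_comm {a b c : P} (ha : a ∈ grp 276 EW) (hb : b ∈ grp 276 EW) (hc : c ∈ grp 276 EW)
    (h1 : a * a = N n_u) (h2 : a * b = b * a) (h3 : a * c = c * a) : b * c = c * b := by
  have key : allL (fun a => bor (Ex.neB 276 9 (a * a) (E n_u)) (allL (fun b =>
      bor (Ex.neB 276 9 (a * b) (b * a)) (allL (fun c => bor (Ex.neB 276 9 (a * c) (c * a))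
        (Ex.eqB 276 9 (b * c) (c * b))) wl)) wl)) wl = true := by decide +kernel
  obtain ⟨a, ha', rfl⟩ := exists_wl ha
  obtain ⟨b, hb', rfl⟩ := exists_wl hb
  obtain ⟨c, hc', rfl⟩ := exists_wl hc
  have k1 := (bor_eq_true.1 (allL_iff.1 key a ha')).resolve_left fun h => neE _ _ h h1
  have k2 := (bor_eq_true.1 (allL_iff.1 k1 b hb')).resolve_left fun h => neE _ _ h h2
  have k3 := (bor_eq_true.1 (allL_iff.1 k2 c hc')).resolve_left fun h => neE _ _ h h3
  exact eqE _ _ k3

theorem t_W : N n_t ∈ grp 276 EW := getN_mem_grp 276 EW 2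

theorem ra_sq : N g667 * N g667 = N n_t := eqE (E g667 * E g667) (E n_t) (by decide +kernel)
theorem rb_sq : N g431 * N g431 = N n_t := eqE (E g431 * E g431) (E n_t) (by decide +kernel)
theorem ra_rb : N g667 * N g431 ≠ N g431 * N g667 :=
  neE (E g667 * E g431) (E g431 * E g667) (by decide +kernel)

end C3

end Cfsg.Agent.H55
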