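import Cfsg.Agent.H45.IvDefs

/-! Project CY, chapter IV, piece LC. -/

set_option autoImplicit false

namespace Cfsg.Agent.H55.CyLc

open Subgroup MulAction Cfsg.Agent.H11.Cy Cfsg.Agent.H45.Iv
open scoped commutatorElement

theorem zd {G : Type} [Group G] [Finite G] (F B : Subgroup G) (hB : B ≤ F) (ho : Odd (Nat.card B))
    (dec : ∀ g ∈ F, ∃ r ∈ ⁅F, F⁆, ∃ a ∈ B, g = r * a) (z : G) (hz : z ∈ ⁅F, F⁆)
    (h2 : ∃ k, z ^ 2 ^ k = 1) (hc : z ∈ centralizer (F : Set G)) : z ∈ ⁅⁅F, F⁆, ⁅F, F⁆⁆ := by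
  have m : ∀ u : F, u.1 ∈ ⁅F, F⁆ → u ∈ commutator F := fun u hu => by
    rw [← map_subtype_commutator] at hu
    exact (mem_map_iff_mem F.subtype_injective).1 hu
  have hF : ⁅F, F⁆ ≤ F := by rw [← map_subtype_commutator]; exact map_subtype_le _
  have hi : (commutator F).index ∣ Nat.card B :=
    card_dvd_of_surjective ((QuotientGroup.mk' (commutator F)).comp (inclusion hB)) fun q => by
      obtain ⟨g, rfl⟩ := QuotientGroup.mk_surjective q
      obtain ⟨r, hr, a, ha, e⟩ := dec g g.2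
      refine ⟨⟨a, ha⟩, ?_⟩
      rw [show g = ⟨r, hF hr⟩ * ⟨a, hB ha⟩ from Subtype.ext e, QuotientGroup.mk_mul,
        (QuotientGroup.eq_one_iff _).2 (m ⟨r, hF hr⟩ hr), one_mul]
      rfl
  have k := MonoidHom.transfer_eq_pow (Abelianization.of (G := commutator F)) ⟨z, hF hz⟩
    fun k g _ => by
      have : Commute g ⟨z, hF hz⟩ := Subtype.ext (hc g g.2)
      rw [mul_assoc, ← (this.pow_right k).eq, inv_mul_cancel_left]
  rw [Abelianization.commutator_subset_ker _ (m _ hz), eq_comm, ← MonoidHom.mem_ker,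
    Abelianization.ker_of] at k
  have k2 := mem_map_of_mem (F.subtype.comp (commutator F).subtype) k
  rw [_root_.commutator_def (commutator F), map_commutator, ← map_map, ← MonoidHom.range_eq_map,
    range_subtype, map_subtype_commutator] at k2
  obtain ⟨n, hn⟩ := h2
  have k3 : z ^ (commutator F).index ∈ ⁅⁅F, F⁆, ⁅F, F⁆⁆ := k2
  have k4 : ((commutator F).index).Coprime (orderOf z) :=
    ((Nat.coprime_two_right.2 (Odd.of_dvd_nat ho hi)).pow_right n).coprime_dvd_right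
      (orderOf_dvd_of_pow_eq_one hn)
  obtain ⟨j, hj⟩ := exists_pow_eq_self_of_coprime k4
  exact hj ▸ pow_mem k3 j

theorem lc : LcStmt := fun G _ _ Ω _ _ p A st p2 ep sk x y hxy la lb => by
  have RF : Rl A x y ≤ Fl A x y := la.sup ▸ le_sup_left
  have xL := (sk.ln x y).1
  have cen : ∀ z ∈ Zl A x y, ∀ g ∈ Fl A x y, g * z = z * g := fun z hz g hg => hz.2 g hg
  have bk : ∀ (w : G), ∀ b ∈ A (w • x), w⁻¹ * b * w ∈ A x := fun w b hb => by
    simpa using st.eqv w⁻¹ _ b hb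
  have mv : ∀ w ∈ Fl A x y, w • x ∈ Ln A x y := fun w hw b hb => by
    have := mul_mem (mul_mem hw (mem_sup_left (T := A y) (bk w b hb))) (inv_mem hw)
    simpa [mul_assoc] using this
  have h1 : Zl A x y ≤ ⁅Rl A x y, Rl A x y⁆ := fun z hz => by
    refine zd (Fl A x y) (A x) le_sup_left (st.card x ▸ st.pp.odd_of_ne_two p2) la.dec z (la.zle hz)
      ?_ hz.2
    obtain ⟨k, hk⟩ := la.r2 ⟨z, la.zle hz⟩
    exact ⟨k, congrArg Subtype.val hk⟩
  refine ⟨h1, fun z hz => ?_, fun W h2 h3 h4 => ?_, fun a ha a1 r hr => ?_⟩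
  · let S : Subgroup G :=
      { carrier := {z | z ∈ Zl A x y ∧ z * z = 1}
        one_mem' := ⟨one_mem _, mul_one _⟩
        mul_mem' := fun {a b} ha hb => ⟨mul_mem ha.1 hb.1, by
          rw [mul_assoc, ← mul_assoc b, cen a ha.1 b hb.1.1, mul_assoc, hb.2, mul_one, ha.2]⟩
        inv_mem' := fun {a} ha => ⟨inv_mem ha.1, by rw [← mul_inv_rev, ha.2, inv_one]⟩ }
    refine ((commutator_le (H₃ := S)).2 (fun r hr s hs => ⟨lb.com r hr s hs, ?_⟩) (h1 hz)).2
    have e : ⁅r * r, s⁆ = r * ⁅r, s⁆ * r⁻¹ * ⁅r, s⁆ := by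
      simp only [commutatorElement_def]; group
    rw [cen _ (lb.com r hr s hs) r (RF hr), mul_inv_cancel_right] at e
    rw [← e, commutatorElement_eq_one_iff_mul_comm, cen _ (lb.sq r hr) s (RF hs)]
  · refine (eq_or_ne W (Zl A x y)).imp_right fun hne => le_antisymm h3 fun r hr => ?_
    obtain ⟨w, hw, wz⟩ := SetLike.exists_of_lt (lt_of_le_of_ne h2 hne.symm)
    have k : Fl A x y ≤ W ⊔ A x := by
      rw [← ep.span x y hxy x xL _ (mv w (RF (h3 hw))) fun e => wz (lb.stab w (h3 hw) x xL e.symm)]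
      refine sup_le le_sup_right fun b hb => ?_
      have := mul_mem (mul_mem (mem_sup_left (T := A x) hw) (mem_sup_right (bk w b hb)))
        (inv_mem (mem_sup_left (T := A x) hw))
      simpa [mul_assoc] using this
    have k2 := k (RF hr)
    rw [← SetLike.mem_coe, coe_mul_of_right_le_normalizer_left _ _ fun a ha =>
      mem_normalizer_iff.2 fun u => ⟨h4 a ha u, fun hu => by
        simpa [mul_assoc] using h4 _ (inv_mem ha) _ hu⟩] at k2
    obtain ⟨u, hu, a, ha, rfl⟩ := k2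
    rw [la.disj x a ha ((mul_mem_cancel_left (h3 hu)).1 hr)]
    simpa using hu
  · have aF : a ∈ Fl A x y := mem_sup_left ha
    let f : Rl A x y ⧸ (Zl A x y).subgroupOf (Rl A x y) → Rl A x y ⧸ (Zl A x y).subgroupOf (Rl A x y) :=
      fun q => QuotientGroup.mk ⟨⁅a, q.out.1⁆, commutator_mem_commutator aF (RF q.out.2)⟩
    have hf : Function.Injective f := fun q q' e => by
      have k : ⁅a, q.out.1⁆⁻¹ * ⁅a, q'.out.1⁆ ∈ Zl A x y := mem_subgroupOf.1 (QuotientGroup.eq.1 e)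
      rw [← q.out_eq, ← q'.out_eq]
      refine QuotientGroup.eq.2 ?_
      generalize q.out = s at *
      generalize q'.out = t at *
      have uR : s.1⁻¹ * t.1 ∈ Rl A x y := (s⁻¹ * t).2
      have e2 : ⁅a, s.1⁻¹ * t.1⁆ = s.1⁻¹ * ((⁅a, s.1⁆⁻¹ * ⁅a, t.1⁆) * s.1) := by
        simp only [commutatorElement_def]; group
      rw [← cen _ k _ (RF s.2), inv_mul_cancel_left] at e2
      have k2 := (ep.kfix x y hxy _).1 (e2 ▸ k).2 _ (mv _ (RF uR))
      rw [commutatorElement_def, mul_smul, inv_smul_smul, mul_smul, st.fix x _ (inv_mem ha),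
        mul_smul] at k2
      exact lb.stab _ uR x xL ((st.semi x _ a ha k2).resolve_left a1)
    obtain ⟨q, hq⟩ := Finite.surjective_of_injective hf (QuotientGroup.mk ⟨r, hr⟩)
    exact ⟨q.out.1, q.out.2, mem_subgroupOf.1 (QuotientGroup.eq.1 hq.symm)⟩

end Cfsg.Agent.H55.CyLc
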