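import Mathlib
import Cfsg.Agent.H6.E82Defs
import Cfsg.Agent.H54.O84Base

/-!
# Project E82: facts on the roots of `E₈`
-/

set_option autoImplicit false
set_option maxRecDepth 100000

namespace Cfsg.Agent.H55.E82R

open Cfsg.Agent.H6.E82 Cfsg.Lie Finset
open H29 (inv8)
open H34 (gt)

theorem pe (r s : Rt) : pr r s = H54.O84.pr r s := H54.O84.pair_eq r s

theorem tr {P : Rt → Rt → Prop} (h : ∀ (i : Ix) s, P (C8.R.simple i) s)
    (c : ∀ w ∈ C8.R.W, ∀ r s, P r s → P (w r) (w s)) (r s : Rt) : P r s := by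
  obtain ⟨w, hw, i, rfl⟩ := C8.R.exists_W_simple r
  obtain ⟨s, rfl⟩ := w.surjective s
  exact c w hw _ _ (h i s)

/-- The table for one root. -/
abbrev Tb (a : ℕ) : Prop := ∀ s < 240, (s = 239 - a ∨ -1 ≤ H54.O84.pr a s) ∧
  (s = a ∨ H54.O84.pr a s ≤ 1) ∧
  (s = a ∨ s = 239 - a ∨ ∃ u < 240, H54.O84.pr u a = 1 ∧ H54.O84.pr u s % 2 = 0)

theorem tb0 : Tb 162 := by decide +kernel
theorem tb1 : Tb 141 := by decide +kernel
theorem tb2 : Tb 135 := by decide +kernel
theorem tb3 : Tb 130 := by decide +kernel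
theorem tb4 : Tb 126 := by decide +kernel
theorem tb5 : Tb 123 := by decide +kernel
theorem tb6 : Tb 121 := by decide +kernel
theorem tb7 : Tb 120 := by decide +kernel

theorem tab (i : ℕ) (hi : i < 8) : Tb (chevE8.simple i) := by
  have : ∀ i < 8, chevE8.simple i ∈ [162, 141, 135, 130, 126, 123, 121, 120] := by decide +kernel
  have := this i hi
  generalize chevE8.simple i = a at this
  simp only [List.mem_cons, List.not_mem_nil, or_false] at this
  rcases this with rfl | rfl | rfl | rfl | rfl | rfl | rfl | rfl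
  exacts [tb0, tb1, tb2, tb3, tb4, tb5, tb6, tb7]

theorem key (r s : Rt) : (s = ng r ∨ -1 ≤ pr r s) ∧ (s = r ∨ pr r s ≤ 1) ∧
    (s = r ∨ s = ng r ∨ ∃ u, pr u r = 1 ∧ pr u s % 2 = 0) := by
  refine tr (P := fun r s => (s = ng r ∨ -1 ≤ pr r s) ∧ (s = r ∨ pr r s ≤ 1) ∧
    (s = r ∨ s = ng r ∨ ∃ u, pr u r = 1 ∧ pr u s % 2 = 0)) (fun i s => ?_)
    (fun w hw r s h => ?_) r s
  · have v : ((C8.R.simple i : Rt) : ℕ) = chevE8.simple i := C8.simple_val _
    have n : ((ng (C8.R.simple i) : Rt) : ℕ) = 239 - chevE8.simple i :=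
      v ▸ H54.O84.neg_val (C8.R.simple i)
    obtain ⟨h1, h2, h3⟩ := tab i i.2 s s.2
    rw [← n] at h1 h3
    rw [← v] at h1 h2 h3
    refine ⟨h1.imp Fin.ext fun h => pe _ _ ▸ h, h2.imp Fin.ext fun h => pe _ _ ▸ h,
      h3.imp Fin.ext (Or.imp Fin.ext fun ⟨u, hu, h⟩ => ⟨⟨u, hu⟩, ?_⟩)⟩
    rw [pe, pe]
    exact h
  · simp only [ng, pr, ← C8.R.W_neg hw, C8.R.pair_W hw, w.injective.eq_iff] at h ⊢
    refine ⟨h.1, h.2.1, h.2.2.imp_right (Or.imp_right fun ⟨u, hu⟩ => ⟨w u, ?_⟩)⟩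
    rwa [C8.R.pair_W hw, C8.R.pair_W hw]

theorem ps (r s : Rt) : pr r s = pr s r := H54.O84.pair_symm r s

theorem one (r : Rt) : ∃ u, pr u r = 1 := by
  have h : ∀ s : Rt, s ≠ r → s ≠ ng r → ∃ u, pr u r = 1 := fun s h1 h2 =>
    (((key r s).2.2.resolve_left h1).resolve_left h2).imp fun _ h => h.1
  by_contra hn
  have k : ∀ s : Rt, s = r ∨ s = ng r := fun s => by
    by_contra e
    exact hn (h s (fun a => e (.inl a)) fun a => e (.inr a))
  have k0 := k ⟨0, by decide⟩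
  have k1 := k ⟨1, by decide⟩
  have k2 := k ⟨2, by decide⟩
  simp only [Fin.ext_iff] at k0 k1 k2
  omega

theorem evc (u : Rt) : ∃ h ∈ Cart, ∀ r, ev r h = (pr u r : K) :=
  ⟨Sum.elim (fun i => (C8.R.co u i : K)) 0, fun _ => rfl, fun r => by
    simp only [ev, Sum.elim_inl, pr, H40.RS.pair_def]
    push_cast; rfl⟩

theorem ev_simple (j : Ix) (v : V) :
    ev (C8.R.simple j) v = ∑ i, v (Sum.inl i) * (C8.R.A i j : K) := by
  simp only [ev, C8.R.wt_simple]

theorem invA : (∀ k j : Ix, ∑ i : Ix, (gt inv8 k i : K) * (C8.R.A i j : K) = if k = j then 1 else 0) ∧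
    ∀ i k : Ix, ∑ j : Ix, (C8.R.A i j : K) * (gt inv8 j k : K) = if i = k then 1 else 0 := by
  have h : (∀ k j : Ix, ∑ i : Ix, gt inv8 k i * C8.R.A i j = if k = j then 1 else 0) ∧
      ∀ i k : Ix, ∑ j : Ix, C8.R.A i j * gt inv8 j k = if i = k then 1 else 0 := by
    simp only [C8.A_eq]
    decide +kernel
  exact ⟨fun k j => by exact_mod_cast congrArg (Int.cast : ℤ → K) (h.1 k j),
    fun k j => by exact_mod_cast congrArg (Int.cast : ℤ → K) (h.2 k j)⟩

theorem rf : RfStmt := by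
  refine ⟨fun r s => (key r s).1.imp_right fun h => by omega, fun r s => (key r s).2.1, ps,
    fun r i => (H54.O84.co_val r i).trans (H54.O84.rc_val r i).symm, fun i j => ?_,
    fun r s u h => ?_, fun r => ?_, fun r => ?_, fun r s h1 h2 => ?_, fun c => ?_,
    fun h hh h0 => ?_, fun r v => ?_⟩
  · rw [← C8.R.pair_simple_simple, ← C8.R.pair_simple_simple]
    exact ps _ _
  · have e : ∀ x, pr x u = pr x r + pr x s := fun x => by
      simp only [pr, H40.RS.pair, h, map_add]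
    have := e u
    have := e r
    have := e s
    have := ps u r
    have := ps u s
    have := ps r s
    have : pr u u = 2 := C8.R.pair_self u
    have : pr r r = 2 := C8.R.pair_self r
    have : pr s s = 2 := C8.R.pair_self s
    omega
  · obtain ⟨u, hu⟩ := one r
    exact ⟨u, C8.R.τ u r, (C8.R.pair_τ_right u r).trans (congrArg Neg.neg hu), C8.R.τ_τ u r⟩
  · obtain ⟨u, hu⟩ := one r
    obtain ⟨h, hh, e⟩ := evc u
    exact ⟨h, hh, by rw [e, hu, Int.cast_one]⟩
  · obtain ⟨u, hu, hs⟩ := ((key r s).2.2.resolve_left h1).resolve_left h2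
    obtain ⟨h, hh, e⟩ := evc u
    refine ⟨h, hh, by rw [e, hu, Int.cast_one], ?_⟩
    rw [e]
    exact (CharP.intCast_eq_zero_iff K 2 _).2 (Int.dvd_of_emod_eq_zero hs)
  · refine ⟨Sum.elim (fun i => ∑ k : Ix, c k * (gt inv8 k i : K)) 0, fun _ => rfl, fun j => ?_⟩
    simp only [ev_simple, Sum.elim_inl, sum_mul, mul_assoc]
    rw [sum_comm]
    simp [← mul_sum, invA.1]
  · funext x
    rcases x with k | r
    · have : ∑ j : Ix, ev (C8.R.simple j) h * (gt inv8 j k : K) = h (Sum.inl k) := by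
        simp only [ev_simple, sum_mul, mul_assoc]
        rw [sum_comm]
        simp [← mul_sum, invA.2]
      rw [← this]
      simp [h0]
    · exact hh r
  · simp only [ev_simple, mul_sum]
    rw [sum_comm]
    simp only [ev, C8.R.wt_def]
    push_cast
    simp only [mul_sum, mul_left_comm]

end Cfsg.Agent.H55.E82R
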