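import Mathlib
import Cfsg.Agent.H11.ElDefs

/-!
# Project EL: the points fixed by a standard involution give `J₁`
-/

set_option autoImplicit false

namespace Cfsg.Agent.H55.ElJ

open Subgroup MulAction Cfsg.Agent.H11.EL

universe u

theorem key {W X : Type*} [Group W] [Finite W] [MulAction W X] {p : ℕ} [Fact p.Prime] (b : X)
    {f0 f : W} (h0 : orderOf f0 = p) (h : orderOf f = p) (fix : f0 • b = b)
    (uq : ∀ w : W, f0 • w • b = w • b → w • b = b) : ∃ w : W, f • w • b = w • b := by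
  have pg : ∀ g : W, orderOf g = p → IsPGroup p (zpowers g) := fun g e =>
    IsPGroup.of_card (n := 1) (by rw [Nat.card_zpowers, e, pow_one])
  haveI : Finite (orbit W b) := Set.finite_range _
  have c1 := (pg f0 h0).card_modEq_card_fixedPoints (orbit W b)
  have c2 : Nat.card (fixedPoints (zpowers f0) (orbit W b)) = 1 := by
    rw [Nat.card_eq_one_iff_exists]
    refine ⟨⟨⟨b, mem_orbit_self b⟩, fun g => Subtype.ext ?_⟩, ?_⟩
    · exact (zpowers_le.2 (show f0 ∈ stabilizer W b from fix)) g.2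
    · rintro ⟨⟨_, w, rfl⟩, hw⟩
      exact Subtype.ext (Subtype.ext (uq w (congrArg Subtype.val (hw ⟨f0, mem_zpowers _⟩))))
  obtain ⟨⟨_, w, rfl⟩, hw⟩ := (pg f h).nonempty_fixed_point_of_prime_not_dvd_card (orbit W b)
    fun d => by
      rw [c2] at c1
      exact (Fact.out : p.Prime).one_lt.ne' (Nat.dvd_one.1 ((c1.dvd_iff dvd_rfl).1 d))
  exact ⟨w, congrArg Subtype.val (hw ⟨f, mem_zpowers _⟩)⟩

theorem j4 (b : Base.{u}) : J4Stmt.{u} := by
  intro G _ _ D y A hD ⟨hA, yy, yA, J, hJ, AJ, yJ⟩ B hB BA yB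
  have mb := b.mb D hD
  haveI : Fact (Nat.Prime 11) := ⟨by norm_num⟩
  haveI : Fact (Nat.Prime 5) := ⟨by norm_num⟩
  have el : ∀ E ∈ D, ∃ a ∈ E, orderOf a = 11 := fun E hE => by
    obtain ⟨a, ha⟩ := exists_prime_orderOf_dvd_card' (G := E) 11 (hD.card E hE ▸ dvd_rfl)
    exact ⟨a, a.2, (orderOf_coe a).trans ha⟩
  have yi : y⁻¹ = y := inv_eq_of_mul_eq_one_right yy
  have yN : y ∈ Nm A := mem_normalizer_fintype fun a ha => by
    rw [yA a ha]; exact zpow_mem ha _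
  have inv : ∀ E ∈ D, y ∈ Nm E → Ex y E (-1) := fun E hE hy => by
    rcases mb.tri E hE y hy with h | h | ⟨i, h, hi⟩
    · obtain ⟨a, ha, o⟩ := el A hA
      have e1 := mb.cen E hE A hA y h yN a (mem_sup_right ha)
      have e2 := yA a ha
      rw [← e1, mul_inv_cancel_right, zpow_neg_one, eq_inv_iff_mul_eq_one, ← sq,
        ← orderOf_dvd_iff_pow_eq_one, o] at e2
      exact absurd e2 (by norm_num)
    · exact h
    · obtain ⟨a, ha, o⟩ := el E hE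
      have e : a ^ (i ^ 2 - 1) = 1 := by
        rw [zpow_sub, sq, zpow_mul, ← h _ (zpow_mem ha i), ← h a ha, yi, zpow_one]
        simp only [← mul_assoc, yy, one_mul]
        rw [mul_assoc a, yy, mul_one, mul_inv_cancel]
      rw [← orderOf_dvd_iff_zpow_eq_one, o] at e
      exact absurd e hi
  have ex : ∀ E ∈ D, ∀ g ∈ Nm E, ∃ i, Ex g E i := fun E hE g hg => by
    rcases mb.tri E hE g hg with h | h | ⟨i, h, -⟩
    · exact ⟨1, fun a ha => by rw [← h a ha, mul_inv_cancel_right, zpow_one]⟩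
    · exact ⟨_, h⟩
    · exact ⟨_, h⟩
  have mm : ∀ E ∈ D, ∀ E' ∈ D, E ≠ E' → y ∈ Nm E → y ∈ Nm E' → ∀ g, Commute g y → g ∈ Nm E →
      g ∈ Nm E' → ∀ i j : ℤ, Ex g E i → Ex g E' j → (11 : ℤ) ∣ i * j - 1 :=
    fun E hE E' hE' ne y1 y2 g c g1 g2 => by
      rcases hD.pair E hE E' hE' ne with h | h
      · have lp : LP E E' := ⟨hD.card _ hE, hD.card _ hE', ne, h⟩
        obtain ⟨f, s, l⟩ := b.lc1 _ _ lp
        exact (b.lc _ _ f s lp l).mm g g1 g2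
      · exact b.jm E E' y g (hD.card _ hE) (hD.card _ hE') ne h yy y1 (inv E hE y1) y2 c g1 g2
  have uq : ∀ g, Commute g y → g ∈ Nm A → Big g A → ∀ E ∈ D, ∀ E' ∈ D, E ≠ A → E' ≠ A →
      y ∈ Nm E → y ∈ Nm E' → g ∈ Nm E → g ∈ Nm E' → E = E' :=
    fun g c gA ⟨i, hi, big⟩ E hE E' hE' n1 n2 y1 y2 g1 g2 => by
      by_contra ne
      obtain ⟨j, hj⟩ := ex E hE g g1
      obtain ⟨k, hk⟩ := ex E' hE' g g2
      obtain ⟨r, d1⟩ := mm A hA E hE n1.symm yN y1 g c gA g1 i j hi hj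
      obtain ⟨s, d2⟩ := mm A hA E' hE' n2.symm yN y2 g c gA g2 i k hi hk
      obtain ⟨t, d3⟩ := mm E hE E' hE' ne y1 y2 g c g1 g2 j k hj hk
      exact big ⟨r * (i * k) + s - i ^ 2 * t, by
        linear_combination (i * k) * d1 + d2 - i ^ 2 * d3⟩
  refine (hD.pair A hA B hB BA.symm).resolve_left fun hL => ?_
  obtain ⟨f0, -, B0, hB0, o0, c0, n0, b0, ne0, y0, m0, nL⟩ :=
    b.jy J A y hJ ⟨AJ, hD.card A hA⟩ yJ yy yA
  have hB0 := mb.pts J (.inr hJ) A hA AJ B0 hB0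
  have lp : LP A B := ⟨hD.card _ hA, hD.card _ hB, BA.symm, hL⟩
  obtain ⟨f, s, l⟩ := b.lc1 _ _ lp
  have cf := ((b.lc _ _ f s lp l).com y yN yB).symm
  have orb : ∀ w ∈ C1 y ⊓ Nm A, cj w B0 ≠ A ∧ y ∈ Nm (cj w B0) := fun w ⟨w1, w2⟩ => by
    refine ⟨fun e => ne0 ?_, ?_⟩
    · rw [← cj_eq_iff.2 (inv_mem w2), ← e, ← cj_mul, inv_mul_cancel, cj_one]
    · rw [← cj_eq_iff, ← cj_mul, ← mem_centralizer_singleton_iff.1 w1, cj_mul, cj_eq_iff.2 y0]
  obtain ⟨w, hw⟩ := key (W := ↥(C1 y ⊓ Nm A)) (X := Pt hD) (p := 5) ⟨B0, hB0⟩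
    (f0 := ⟨f0, mem_centralizer_singleton_iff.2 c0, n0⟩)
    (f := ⟨f, mem_centralizer_singleton_iff.2 cf, l.fA⟩) ((orderOf_coe _).symm.trans o0)
    ((orderOf_coe _).symm.trans l.fo) ((pt_fix hD _ _).2 m0) fun w hw =>
      Subtype.ext (uq f0 c0 n0 b0 _ (hD.conj _ hB0 w) _ hB0 (orb _ w.2).1 ne0 (orb _ w.2).2 y0
        ((pt_fix hD _ _).1 hw) m0)
  have e := uq f cf l.fA l.big _ (hD.conj _ hB0 w) _ hB (orb _ w.2).1 BA (orb _ w.2).2 yB
    ((pt_fix hD _ _).1 hw) l.fB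
  rw [show A ⊔ B = cj (w : G) (A ⊔ B0) by rw [cj_sup, e, cj_eq_iff.2 w.2.2]] at hL
  exact nL ⟨((A ⊔ B0).equivMapOfInjective _ (MulAut.conj (w : G)).injective).trans hL.some⟩

end Cfsg.Agent.H55.ElJ
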