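import Cfsg.Agent.H50.L81Defs
import Cfsg.Agent.H86.E82Mult

/-! Project L81, piece MULT: eigenvalue multiplicities along a composition series. -/

set_option autoImplicit false

namespace Cfsg.Agent.H55.L81Mult

open Cfsg.Agent.H50.L81 Module Finset
open Cfsg.Agent.H50.E83 (K)
open Cfsg.Agent.H86.E82Mult (step_dm)

theorem SE_cons (L : List ℕ) {r : ℕ} (hr : r < 81) (he : Even r) (n e : ℕ) :
    SE (fun s => (r :: L).count s) n e = SE (fun s => L.count s) n e + EE n r e := by
  obtain ⟨b, rfl⟩ := he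
  unfold SE
  simp only [List.count_cons, add_mul, sum_add_distrib, beq_iff_eq, ite_mul, one_mul, zero_mul]
  rw [sum_eq_single b (f := fun a => if b + b = 2 * a then EE n (2 * a) e else 0)
    (fun a _ h => if_neg (by omega)) (fun h => (h (mem_range.2 (by omega))).elim),
    if_pos (two_mul b).symm, two_mul]

theorem mult (hP : ParStmt) (hX : EigxStmt) (hT : EigtStmt) : MultStmt := by
  intro p W _ _ _ ρ hρ U L hS
  obtain ⟨h41, h40, -, -, -, hx, hy, -⟩ := hP.2.2.2 p
  induction hS with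
  | nil => refine ⟨fun e _ => ?_, fun e _ => ?_⟩ <;> simp [dm, SE]
  | @cons U U' L r _ hs ih =>
    obtain ⟨hr, hv, hU, hI, Φ, hΦ, hm, hk⟩ := hs
    obtain ⟨i1, i2⟩ := ih
    refine ⟨fun e he => ?_, fun e he => ?_⟩
    · rw [SE_cons L hr hv, ← i1 e he, ← hX p r hr hv e he]
      unfold dm
      rw [← hm]
      refine step_dm _ _ Φ hU (hI _) (hΦ _) hk (n := 41) ?_ ?_ ?_
      · rw [Ne, CharP.cast_eq_zero_iff K 3]; decide
      · rw [← map_pow, ← h41, pow_orderOf_eq_one, map_one]
      · rw [← pow_mul, mul_comm, pow_mul, ← Units.val_pow_eq_pow_val, hx.pow_eq_one,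
          Units.val_one, one_pow]
    · rw [SE_cons L hr hv, ← i2 e he, ← hT p r hr hv e he]
      unfold dm
      rw [← hm]
      refine step_dm _ _ Φ hU (hI _) (hΦ _) hk (n := 40) ?_ ?_ ?_
      · rw [Ne, CharP.cast_eq_zero_iff K 3]; decide
      · rw [← map_pow, h40, hρ]
      · rw [← pow_mul, mul_comm, pow_mul, ← Units.val_pow_eq_pow_val, hy.pow_eq_one,
          Units.val_one, one_pow]

end Cfsg.Agent.H55.L81Mult
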