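import Mathlib
import Cfsg.Agent.H54.O84Defs

/-!
# Project O84: a subgroup over the torus lies in a subsystem subgroup
-/

set_option autoImplicit false

namespace Cfsg.Agent.H55.O84C

open Cfsg.Agent.H54.O84 Equiv Cfsg.Lie Multiplicative
open scoped Matrix

theorem cg2 (rho : RhoStmt) (cls : ClsStmt) (cg1 : Cg1Stmt) : Cg2Stmt := by
  intro Γ _ G X b xf hr
  obtain ⟨-, -, -, -, bd, sk, -⟩ := rho
  obtain ⟨r, h1, h2⟩ := cg1 Γ G (X.subtype.comp b) (X.subtype_injective.comp xf.inj) hr fun k => by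
    obtain ⟨n, hn⟩ := xf.refl k
    exact ⟨n, fun x => congrArg Subtype.val (hn x)⟩
  have z5 : ∀ a : ℤ, (a : ZMod 5) = 0 → (5 : ℤ) ∣ a := fun a h =>
    (ZMod.intCast_zmod_eq_zero_iff_dvd a 5).1 h
  have b0 : ∀ k l, C8.R.pair (w (r k)) (r l) = 0 := fun k l => by
    have e1 := h1 k l
    have e2 := h1 l k
    rw [dotProduct_comm, ← e1, sk (r l), pair_symm (r l), pair_symm (r l)] at e2
    have := z5 (4 * C8.R.pair (w (r k)) (r l)) (by
      push_cast at e2 ⊢
      linear_combination -e2)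
    have := abs_le.1 (bd (w (r k)) (r l))
    omega
  have hc : ∀ k l : Fin 4, lam (k.castLE (by decide)) ⬝ᵥ lam (l.castLE (by decide)) =
      (cD k l : ZMod 5) ∧ -2 ≤ cD k l ∧ cD k l ≤ 2 := by decide
  obtain ⟨u, hu, i, hs⟩ := cls (fun k => r (k.castLE (by decide))) (fun k l => by
    have e := h1 (k.castLE (by decide)) (l.castLE (by decide))
    rw [b0, (hc k l).1, mul_zero, add_zero, ← sub_eq_zero, ← Int.cast_sub] at e
    have := z5 _ e
    have := abs_le.1 (bd (r (k.castLE (by decide))) (r (l.castLE (by decide))))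
    have := (hc k l).2
    beta_reduce
    omega) fun k l => b0 _ _
  refine ⟨u, hu, i, fun x hx => ?_⟩
  have le : (⊤ : Subgroup X) ≤ (G.Y (u '' Ψ i)).comap X.subtype := by
    rw [← xf.gen]
    refine iSup_le fun k g hg => ?_
    rcases G.cen _ (m_ne_zero (r k)) g (h2 k g (by
      rintro _ ⟨y, hy, rfl⟩
      exact congrArg Subtype.val (hg _ ⟨y, hy, rfl⟩))) with h | ⟨s, e, h⟩
    · obtain ⟨n, hn, rfl⟩ := G.ν_surj u hu
      have h3 := (Subgroup.mem_normalizer_iff''.1 hn _).1 h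
      have h4 := Subgroup.le_normalizer h3
      rw [Subgroup.mem_comap, ← G.Y_conj n hn]
      refine ⟨_, (G.mem_Y i _ h4).2 (by rw [(G.ν_ker _ h4).2 h3]; exact one_mem _), ?_⟩
      simp [mul_assoc]
    · obtain rfl := m_inj e
      exact h i u hu (hs _ fun l => b0 (l.castLE (by decide)) k)
  exact le (Subgroup.mem_top (⟨x, hx⟩ : X))

end Cfsg.Agent.H55.O84C
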