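import Mathlib
import Cfsg.Agent.H54.O84Defs

/-!
# Project O84: elements of the centraliser are determined on `D₄`; the transversal
-/

set_option autoImplicit false
set_option maxRecDepth 100000

namespace Cfsg.Agent.H55.O84D

open Cfsg.Agent.H54.O84 Equiv Cfsg.Lie

/-- The pairings with four simple roots and their images, as one number. -/
noncomputable def code (i r : ℕ) : ℕ :=
  [1, 2, 3, 4].foldr (fun j n => 25 * n + 5 * (pr (chevE8.simple j) r + 2).toNat +
    (pr (piF i (chevE8.simple j)) r + 2).toNat) 0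

theorem code_nodup : ∀ i < 2, ((List.range 240).map (code i)).Nodup := by decide +kernel

theorem det : DetStmt := by
  intro i u hu u' hu' h
  obtain ⟨w1, c1⟩ := mem_CW.1 hu
  obtain ⟨w2, c2⟩ := mem_CW.1 hu'
  refine Perm.ext fun s => ?_
  obtain ⟨t, ht⟩ := u'.surjective (u s)
  have k : ∀ a, u a = u' a → pr a s = pr a t := fun a e => by
    rw [← pair_eq, ← pair_eq, ← C8.R.pair_W w1, ← C8.R.pair_W w2 a t, e, ht]
  have k2 : ∀ j ∈ [1, 2, 3, 4], pr (chevE8.simple j) s = pr (chevE8.simple j) t ∧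
      pr (piF i (chevE8.simple j)) s = pr (piF i (chevE8.simple j)) t := fun j hj => by
    have l : j < chevE8.rank := by
      change j < 8
      simp at hj; omega
    have e := h ⟨j, l⟩ hj
    have v : ((C8.S.α ⟨j, l⟩ : Rt) : ℕ) = chevE8.simple j := C8.simple_val _
    rw [← v, ← π_val]
    refine ⟨k _ e, k _ ?_⟩
    rw [← Perm.mul_apply, c1, ← Perm.mul_apply u', c2, Perm.mul_apply, Perm.mul_apply, e]
  have e : code i s = code i t := by
    simp only [code, List.foldr, k2 1 (by simp), k2 2 (by simp), k2 3 (by simp), k2 4 (by simp)]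
  have := List.inj_on_of_nodup_map (code_nodup i i.2) (List.mem_range.2 s.2)
    (List.mem_range.2 t.2) e
  rw [← ht, Fin.ext this]

theorem st_of {u : Perm Rt} (h : ∀ r, u r ∈ Ψ0 ↔ r ∈ Ψ0) : u ∈ St Ψ0 := mem_St.2 <| by
  ext s
  obtain ⟨r, rfl⟩ := u.surjective s
  rw [u.injective.mem_set_image, h]

theorem ct : CtStmt := by
  intro i x
  have key : ∀ i : Fin 2, ∀ l ∈ cL i, ∀ r < 240,
      l.foldr (fun i s => rf (i % 8) s) (piF i r) = piF i (l.foldr (fun i s => rf (i % 8) s) r) ∧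
      (l.foldr (fun i s => rf (i % 8) s) r ∈ d0L ++ d1L ↔ r ∈ d0L ++ d1L) := by decide +kernel
  have hl := key i _ (List.get_mem _ x.2)
  refine mul_mem ?_ ⟨mem_CW.2 ⟨wd_mem _, Perm.ext fun r => Fin.ext ?_⟩, st_of fun r => ?_⟩
  · split_ifs
    · exact ⟨mem_CW.2 ⟨π_mem i, rfl⟩, st_of fun r => by
        rw [Ψ0, Set.mem_union, Set.mem_union, π_mem_Δ0, π_mem_Δ1, or_comm]⟩
    · exact one_mem _
  · rw [Perm.mul_apply, Perm.mul_apply, wd_val, π_val, π_val, wd_val, (hl r r.2).1]
  · rw [Ψ0, Set.mem_union, Set.mem_union, mem_Δ0, mem_Δ1, mem_Δ0, mem_Δ1, ← List.mem_append,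
      ← List.mem_append, wd_val, (hl r r.2).2]

end Cfsg.Agent.H55.O84D
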