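import Mathlib
import Cfsg.Agent.H54.RfKitP

/-! # Standard subgroups of type `²F₄(q)`: the constant `c` of the rank one relation -/

set_option autoImplicit false
set_option linter.unusedSimpArgs false
set_option linter.unnecessarySeqFocus false
set_option linter.unusedSectionVars false
set_option linter.unusedVariables false
set_option linter.unusedTactic false
set_option linter.unreachableTactic false

namespace Cfsg.Agent.H55.RfCz

open Cfsg Cfsg.Agent.H15.O8 Cfsg.Agent.H39 Cfsg.Agent.H36.O8T Subgroup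
open Cfsg.Agent.H54.RF
open scoped commutatorElement QuadraticAlgebra

universe u v

section Alg

variable {K : Type*} [Field K] (T : Tits K) (e δ : K)

/-- The twisted map on `K[s]/(s² + s + δ)`. -/
def th (β : QuadraticAlgebra K δ 1) : QuadraticAlgebra K δ 1 :=
  ⟨T.θ β.re + e * T.θ β.im, T.θ β.im⟩

variable {T e δ}

theorem th_add (β γ : QuadraticAlgebra K δ 1) : th T e δ (β + γ) = th T e δ β + th T e δ γ := by
  ext <;> simp [th] <;> ring

theorem th_C (a : K) (β : QuadraticAlgebra K δ 1) :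
    th T e δ (⟨a, 0⟩ * β) = ⟨T.θ a, 0⟩ * th T e δ β := by
  ext <;> simp [th] <;> ring

theorem th_C' (a : K) : th T e δ ⟨a, 0⟩ = ⟨T.θ a, 0⟩ := by
  ext <;> simp [th]

theorem th_one : th T e δ 1 = 1 := by
  ext <;> simp [th]

include T in
theorem two_A : (2 : QuadraticAlgebra K δ 1) = 0 := by
  have : (2 : QuadraticAlgebra K δ 1) = 1 + 1 := by norm_num
  rw [this]
  ext <;> simp [add_self (T := T)]

/-- The linear algebra. -/
theorem key [Finite K] (hq : 2 < Nat.card K) (u v w : QuadraticAlgebra K δ 1)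
    (L1 L9 : QuadraticAlgebra K δ 1 → QuadraticAlgebra K δ 1 × QuadraticAlgebra K δ 1 ×
      QuadraticAlgebra K δ 1 → QuadraticAlgebra K δ 1 × QuadraticAlgebra K δ 1 ×
      QuadraticAlgebra K δ 1)
    (h1 : ∀ α β, L1 α β = (β.1 + th T e δ α * β.2.2, β.2.1 + α * th T e δ β.2.2, β.2.2))
    (h9 : ∀ α β, L9 α β = (β.1, β.2.1 + α * th T e δ β.1, β.2.2 + th T e δ α * β.1))
    (h : ∀ (a : K) β, L1 u (L9 v (L1 u (L1 ⟨a, 0⟩ β))) = L9 (⟨a, 0⟩ * w) (L1 u (L9 v (L1 u β)))) :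
    th T e δ (th T e δ v) = w := by
  have h2 := two_A (T := T) (δ := δ)
  set U := th T e δ u with hU
  set V := th T e δ v with hV
  have uv : U * V = 1 := by
    have := congrArg Prod.fst (h 1 (0, 0, 1))
    simp only [h1, h9, th_C', map_one, ← hU, ← hV] at this
    change (0 + 1 * 1 + U * 1 + U * (1 + V * (0 + 1 * 1 + U * 1)) : QuadraticAlgebra K δ 1) =
      0 + U * 1 + U * (1 + V * (0 + U * 1)) at this
    linear_combination this - h2
  have k5 : ∀ a : K, (⟨a, 0⟩ : QuadraticAlgebra K δ 1) * (th T e δ V + w) =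
      ⟨a, 0⟩ * ⟨a, 0⟩ * (v * th T e δ V + u * th T e δ (V * V)) := by
    intro a
    have := congrArg (fun x => x.2.1) (h a (0, 0, V))
    simp only [h1, h9, th_C', ← hU, ← hV] at this
    have e1 : (0 + ⟨T.θ a, 0⟩ * V + U * V : QuadraticAlgebra K δ 1) = ⟨T.θ a, 0⟩ * V + 1 := by
      rw [uv, zero_add]
    have e2 : (V + V * (⟨T.θ a, 0⟩ * V + 1) : QuadraticAlgebra K δ 1) = ⟨T.θ a, 0⟩ * (V * V) := by
      linear_combination V * h2
    have e3 : (0 + U * V : QuadraticAlgebra K δ 1) = 1 := by rw [uv, zero_add]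
    have e4 : (V + V * 1 : QuadraticAlgebra K δ 1) = ⟨0, 0⟩ * V := by
      rw [show (⟨0, 0⟩ : QuadraticAlgebra K δ 1) = 0 from rfl]
      linear_combination V * h2
    have e5 : (1 + U * (⟨0, 0⟩ * V) : QuadraticAlgebra K δ 1) = 1 := by
      rw [show (⟨0, 0⟩ : QuadraticAlgebra K δ 1) = 0 from rfl]
      ring
    have e6 : (⟨a ^ 2, 0⟩ : QuadraticAlgebra K δ 1) = ⟨a, 0⟩ * ⟨a, 0⟩ := by
      ext <;> simp [sq]
    rw [e1, e2, e3, e4, e5, th_add, th_C, th_C, th_C, th_one, T.θθ, map_zero, e6,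
      show (⟨0, 0⟩ : QuadraticAlgebra K δ 1) = 0 from rfl] at this
    linear_combination this + (⟨a, 0⟩ * w - ⟨a, 0⟩ * ⟨a, 0⟩ * (v * th T e δ V +
      u * th T e δ (V * V))) * h2
  obtain ⟨a, a0, a1, -⟩ := N_not_add (T := T) hq
  have k1 := k5 1
  have ka := k5 a
  rw [show (⟨1, 0⟩ : QuadraticAlgebra K δ 1) = 1 from rfl] at k1
  have k0 : (⟨a * (a + 1), 0⟩ : QuadraticAlgebra K δ 1) * (th T e δ V + w) = 0 := by
    have : (⟨a * (a + 1), 0⟩ : QuadraticAlgebra K δ 1) = ⟨a, 0⟩ * ⟨a, 0⟩ + ⟨a, 0⟩ := by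
      ext <;> simp <;> ring
    rw [this]
    linear_combination ka + (⟨a, 0⟩ * ⟨a, 0⟩ : QuadraticAlgebra K δ 1) * k1 +
      (⟨a, 0⟩ * ⟨a, 0⟩ * (v * th T e δ V + u * th T e δ (V * V))) * h2
  have hn := mul_ne_zero a0 a1
  have z : th T e δ V + w = 0 := by
    have r := congrArg QuadraticAlgebra.re k0
    have i := congrArg QuadraticAlgebra.im k0
    simp only [QuadraticAlgebra.re_mul, QuadraticAlgebra.im_mul, mul_zero, zero_mul, add_zero,
      QuadraticAlgebra.re_zero, QuadraticAlgebra.im_zero, mul_eq_zero, hn, false_or] at r i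
    ext
    · exact r
    · exact i
  linear_combination z - w * h2

end Alg

section Grp

variable {K : Type*} [Field K] {T : Tits K} {G : Type*} [Group G] {M : FF T G} {t : G}
  {p r : K → G} {δ : K}

theorem u35 (a b : K) : x3 T a * x5 T b = x5 T b * x3 T a := by ext <;> o8s <;> o8ring T
theorem u37 (a b : K) : x3 T a * x7 T b = x7 T b * x3 T a := by ext <;> o8s <;> o8ring T
theorem u57 (a b : K) : x5 T a * x7 T b = x7 T b * x5 T a := by ext <;> o8s <;> o8ring T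
theorem u13 (a b : K) : x1 T a * x3 T b = x3 T b * x1 T a := by ext <;> o8s <;> o8ring T
theorem u15 (a b : K) : x1 T a * x5 T b = x5 T b * x1 T a := by ext <;> o8s <;> o8ring T
theorem u17 (c b : K) : x1 T c * x7 T b * (x1 T c)⁻¹ =
    x7 T b * x3 T (T.θ c * b) * x5 T (c * T.θ b) := by ext <;> o8s <;> o8ring T
theorem u357 {a b c : K} (h : x3 T a * x5 T b * x7 T c = 1) : a = 0 ∧ b = 0 ∧ c = 0 := by
  have h3 := congrArg U.a3 h
  have h5 := congrArg U.a5 h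
  have h7 := congrArg U.a7 h
  o8s at h3 h5 h7
  exact ⟨h3, h5, h7⟩

/-- A doubled root element. -/
def Xh (M : FF T G) (P : K → G) (x : K → U T) (β : QuadraticAlgebra K δ 1) : G :=
  M.φ (x β.re) * P β.im

theorem Xh_add {P : K → G} {x : K → U T} (f : Fam M t P x) (hx : ∀ a b, x (a + b) = x a * x b)
    (β γ : QuadraticAlgebra K δ 1) : Xh M P x (β + γ) = Xh M P x β * Xh M P x γ := by
  simp only [Xh, QuadraticAlgebra.re_add, QuadraticAlgebra.im_add, hx, map_mul, f.add]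
  exact (f.cx β.im γ.re).symm.mul_mul_mul_comm _ _

theorem Xh_comm {P P' : K → G} {x x' : K → U T} (h1 : ∀ a b, x a * x' b = x' b * x a)
    (h2 : ∀ a b, Commute (P a) (M.φ (x' b))) (h3 : ∀ a b, Commute (P' a) (M.φ (x b)))
    (h4 : ∀ a b, Commute (P a) (P' b)) (β γ : QuadraticAlgebra K δ 1) :
    Commute (Xh M P x β) (Xh M P' x' γ) :=
  (((φ_comm M).2 (h1 _ _)).mul_right (h3 _ _).symm).mul_left ((h2 _ _).mul_right (h4 _ _))

/-- The product of the doubled root elements of the rays `3, 5, 7`. -/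
def mm (M : FF T G) (r : K → G)
    (β : QuadraticAlgebra K δ 1 × QuadraticAlgebra K δ 1 × QuadraticAlgebra K δ 1) : G :=
  Xh M (P3 M r) (x3 T) β.1 * Xh M r (x5 T) β.2.1 * Xh M (P7 M r) (x7 T) β.2.2

variable (c : Ctx M t) (h : HR M t p r) (g37 : ∀ a b, Commute (P3 M r a) (P7 M r b))
include c h g37

theorem mm_add (β γ : QuadraticAlgebra K δ 1 × QuadraticAlgebra K δ 1 × QuadraticAlgebra K δ 1) :
    mm M r β * mm M r γ = mm M r (β + γ) := by
  have c35 := Xh_comm (δ := δ) (M := M) u35 (fun a b => h.cen3 a (u := x5 T b) ⟨rfl, rfl⟩ rfl)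
    (fun a b => h.rcen a (x3 T b) ⟨rfl, rfl⟩) h.c35
  have c37 := Xh_comm (δ := δ) (M := M) u37 (fun a b => h.cen3 a (u := x7 T b) ⟨rfl, rfl⟩ rfl)
    (fun a b => h.cen7 a (u := x3 T b) ⟨rfl, rfl, rfl, rfl⟩) g37
  have c57 := Xh_comm (δ := δ) (M := M) u57 (fun a b => h.rcen a (x7 T b) ⟨rfl, rfl⟩)
    (fun a b => h.cen7 a (u := x5 T b) ⟨rfl, rfl, rfl, rfl⟩) h.c57
  simp only [mm, Prod.fst_add, Prod.snd_add, Xh_add (h.f3 c) x3_add, Xh_add h.f5 x5_add,
    Xh_add (h.f7 c) x7_add]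
  rw [((c37 _ _).mul_left (c57 _ _)).symm.mul_mul_mul_comm, (c35 _ _).symm.mul_mul_mul_comm]

theorem e3 (a : K) : M.φ (x3 T a) = mm M r ((⟨a, 0⟩ : QuadraticAlgebra K δ 1), 0, 0) := by
  simp [mm, Xh, (h.f3 c).zero, h.f5.zero, (h.f7 c).zero, x3_zero, x5_zero, x7_zero]
theorem e5 (a : K) : M.φ (x5 T a) = mm M r (0, (⟨a, 0⟩ : QuadraticAlgebra K δ 1), 0) := by
  simp [mm, Xh, (h.f3 c).zero, h.f5.zero, (h.f7 c).zero, x3_zero, x5_zero, x7_zero]
theorem e7 (a : K) : M.φ (x7 T a) = mm M r (0, 0, (⟨a, 0⟩ : QuadraticAlgebra K δ 1)) := by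
  simp [mm, Xh, (h.f3 c).zero, h.f5.zero, (h.f7 c).zero, x3_zero, x5_zero, x7_zero]
theorem d3 (a : K) : P3 M r a = mm M r ((⟨0, a⟩ : QuadraticAlgebra K δ 1), 0, 0) := by
  simp [mm, Xh, (h.f3 c).zero, h.f5.zero, (h.f7 c).zero, x3_zero, x5_zero, x7_zero]
theorem d5 (a : K) : r a = mm M r (0, (⟨0, a⟩ : QuadraticAlgebra K δ 1), 0) := by
  simp [mm, Xh, (h.f3 c).zero, h.f5.zero, (h.f7 c).zero, x3_zero, x5_zero, x7_zero]
theorem d7 (a : K) : P7 M r a = mm M r (0, 0, (⟨0, a⟩ : QuadraticAlgebra K δ 1)) := by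
  simp [mm, Xh, (h.f3 c).zero, h.f5.zero, (h.f7 c).zero, x3_zero, x5_zero, x7_zero]

/-- A product of six root elements. -/
theorem six (β : QuadraticAlgebra K δ 1 × QuadraticAlgebra K δ 1 × QuadraticAlgebra K δ 1)
    (f : G → G) (hf : ∀ a b, f (a * b) = f a * f b)
    (γ₁ γ₂ γ₃ γ₄ γ₅ γ₆ : QuadraticAlgebra K δ 1 × QuadraticAlgebra K δ 1 × QuadraticAlgebra K δ 1)
    (k1 : f (M.φ (x3 T β.1.re)) = mm M r γ₁) (k2 : f (P3 M r β.1.im) = mm M r γ₂)
    (k3 : f (M.φ (x5 T β.2.1.re)) = mm M r γ₃) (k4 : f (r β.2.1.im) = mm M r γ₄)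
    (k5 : f (M.φ (x7 T β.2.2.re)) = mm M r γ₅) (k6 : f (P7 M r β.2.2.im) = mm M r γ₆) :
    f (mm M r β) = mm M r (γ₁ + γ₂ + (γ₃ + γ₄) + (γ₅ + γ₆)) := by
  rw [mm, Xh, Xh, Xh, hf, hf, hf, hf, hf, k1, k2, k3, k4, k5, k6]
  simp only [mm_add c h g37]

theorem mm_one {β : QuadraticAlgebra K δ 1 × QuadraticAlgebra K δ 1 × QuadraticAlgebra K δ 1}
    (e : mm M r β = 1) : β = 0 := by
  have tφ : ∀ u, t * M.φ u * t = M.φ u := fun u => conj_fix' c.tt (c.tφ u)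
  have := six c h g37 β (fun x => t * x * t) (conj_mul' c.tt) _ _ _ _ _ _
    ((tφ _).trans (e3 c h g37 _))
    (((h.f3 c).tconj c _).trans (by rw [e3 (δ := δ) c h g37, d3 (δ := δ) c h g37, mm_add c h g37]))
    ((tφ _).trans (e5 c h g37 _))
    ((h.f5.tconj c _).trans (by rw [e5 (δ := δ) c h g37, d5 (δ := δ) c h g37, mm_add c h g37]))
    ((tφ _).trans (e7 c h g37 _))
    (((h.f7 c).tconj c _).trans (by rw [e7 (δ := δ) c h g37, d7 (δ := δ) c h g37, mm_add c h g37]))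
  have k : ∀ a b d : K, mm M r ((⟨a, 0⟩ : QuadraticAlgebra K δ 1), ⟨b, 0⟩, ⟨d, 0⟩) = 1 →
      a = 0 ∧ b = 0 ∧ d = 0 := by
    intro a b d e
    apply u357 (T := T)
    apply φ_eq_one M
    simpa [mm, Xh, (h.f3 c).zero, h.f5.zero, (h.f7 c).zero] using e
  rw [show _ + _ + _ = β + (⟨β.1.im, 0⟩, ⟨β.2.1.im, 0⟩, ⟨β.2.2.im, 0⟩) by ext <;> simp,
    ← mm_add c h g37, e, mul_one, c.tt, one_mul] at this
  obtain ⟨i1, i2, i3⟩ := k _ _ _ this.symm
  obtain ⟨j1, j2, j3⟩ := k β.1.re β.2.1.re β.2.2.re (by rw [← e]; congr 1; ext <;> simp [i1, i2, i3])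
  ext <;> simp [i1, i2, i3, j1, j2, j3]

theorem mm_inj {β γ : QuadraticAlgebra K δ 1 × QuadraticAlgebra K δ 1 × QuadraticAlgebra K δ 1}
    (e : mm M r β = mm M r γ) : β = γ := by
  have := mm_add c h g37 (β - γ) γ
  rw [sub_add_cancel, e, mul_eq_right] at this
  exact sub_eq_zero.1 (mm_one c h g37 this)

theorem cn1 (β : QuadraticAlgebra K δ 1 × QuadraticAlgebra K δ 1 × QuadraticAlgebra K δ 1) :
    M.n1 * mm M r β * M.n1 = mm M r (β.2.2, β.2.1, β.1) := by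
  have := six c h g37 β (fun x => M.n1 * x * M.n1) (conj_mul' M.n1n1) _ _ _ _ _ _
    ((n1_x3 M _).trans (e7 c h g37 _)) ((n1_P3 _).trans (d7 c h g37 _))
    ((n1_x5 M _).trans (e5 c h g37 _)) ((h.n1_r _).trans (d5 c h g37 _))
    ((n1_x7 M _).trans (e3 c h g37 _)) ((n1_P7 _).trans (d3 c h g37 _))
  rw [this]
  congr 1
  ext <;> simp

variable {e : K} (a2 : A2 M r e)
include a2

theorem cx1 (m : K) (β : QuadraticAlgebra K δ 1 × QuadraticAlgebra K δ 1 × QuadraticAlgebra K δ 1) :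
    M.φ (x1 T m) * mm M r β * (M.φ (x1 T m))⁻¹ =
      mm M r (β.1 + ⟨T.θ m, 0⟩ * β.2.2, β.2.1 + ⟨m, 0⟩ * th T e δ β.2.2, β.2.2) := by
  have := six c h g37 β (fun x => M.φ (x1 T m) * x * (M.φ (x1 T m))⁻¹) (fun a b => by group)
    _ _ _ _ _ _
    ((conj_eq_iff.2 ((φ_comm M).2 (u13 _ _))).trans (e3 c h g37 _))
    ((conj_eq_iff.2 (h.cen3 _ (u := x1 T m) ⟨rfl, rfl⟩ rfl).symm).trans (d3 c h g37 _))
    ((conj_eq_iff.2 ((φ_comm M).2 (u15 _ _))).trans (e5 c h g37 _))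
    ((conj_eq_iff.2 (h.rcen _ (x1 T m) ⟨rfl, rfl⟩).symm).trans (d5 c h g37 _))
    (by rw [← map_inv, ← map_mul, ← map_mul, u17, map_mul, map_mul, e7 (δ := δ) c h g37,
      e3 (δ := δ) c h g37, e5 (δ := δ) c h g37, mm_add c h g37, mm_add c h g37])
    ((a2 _ _).trans (by rw [d7 (δ := δ) c h g37, d3 (δ := δ) c h g37, d5 (δ := δ) c h g37,
      e5 (δ := δ) c h g37, mm_add c h g37, mm_add c h g37, mm_add c h g37]))
  rw [this]
  congr 1
  ext <;> simp [th] <;> ring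

variable (c15 : ∀ a b, Commute (P1 M r a) (r b)) (g17 : G17 M r e δ)
include c15 g17

theorem cp1 (n : K) (β : QuadraticAlgebra K δ 1 × QuadraticAlgebra K δ 1 × QuadraticAlgebra K δ 1) :
    P1 M r n * mm M r β * (P1 M r n)⁻¹ =
      mm M r (β.1 + th T e δ ⟨0, n⟩ * β.2.2, β.2.1 + ⟨0, n⟩ * th T e δ β.2.2, β.2.2) := by
  have k5 : ∀ b, P1 M r n * M.φ (x7 T b) * (P1 M r n)⁻¹ =
      r (T.θ b * n) * P3 M r (b * T.θ n) * M.φ (x3 T (e * b * T.θ n)) * M.φ (x7 T b) := by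
    intro b
    have := h.x7P1 a2 b n
    have s := (h.f1 c).sq n
    rw [(h.f1 c).inv]
    calc P1 M r n * M.φ (x7 T b) * P1 M r n
        = P1 M r n * (M.φ (x7 T b) * P1 M r n * (M.φ (x7 T b))⁻¹) * M.φ (x7 T b) := by group
      _ = (P1 M r n * P1 M r n) * (r (T.θ b * n) * P3 M r (b * T.θ n) *
          M.φ (x3 T (e * b * T.θ n)) * M.φ (x7 T b)) := by rw [this]; simp only [mul_assoc]
      _ = _ := by rw [s, one_mul]
  have k6 : ∀ b, P1 M r n * P7 M r b * (P1 M r n)⁻¹ = ⁅P1 M r n, P7 M r b⁆ * P7 M r b := by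
    intro b
    rw [commutatorElement_def]; group
  have := six c h g37 β (fun x => P1 M r n * x * (P1 M r n)⁻¹) (fun a b => by group)
    _ _ _ _ _ _
    ((conj_eq_iff.2 (h.cen1 _ (u := x3 T _) ⟨rfl, rfl⟩ rfl rfl rfl rfl)).trans (e3 c h g37 _))
    ((conj_eq_iff.2 (h.c13 _ _)).trans (d3 c h g37 _))
    ((conj_eq_iff.2 (h.cen1 _ (u := x5 T _) ⟨rfl, rfl⟩ rfl rfl rfl rfl)).trans (e5 c h g37 _))
    ((conj_eq_iff.2 (c15 _ _)).trans (d5 c h g37 _))
    ((k5 _).trans (by rw [d5 (δ := δ) c h g37, d3 (δ := δ) c h g37, e3 (δ := δ) c h g37,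
      e7 (δ := δ) c h g37, mm_add c h g37, mm_add c h g37, mm_add c h g37]))
    ((k6 _).trans (by rw [g17, d3 (δ := δ) c h g37, e3 (δ := δ) c h g37, d5 (δ := δ) c h g37,
      e5 (δ := δ) c h g37, d7 (δ := δ) c h g37, mm_add c h g37, mm_add c h g37, mm_add c h g37,
      mm_add c h g37]))
  rw [this]
  congr 1
  ext <;> simp [th] <;> ring

theorem c1 (α : QuadraticAlgebra K δ 1)
    (β : QuadraticAlgebra K δ 1 × QuadraticAlgebra K δ 1 × QuadraticAlgebra K δ 1) :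
    xh1 M r α.re α.im * mm M r β * (xh1 M r α.re α.im)⁻¹ =
      mm M r (β.1 + th T e δ α * β.2.2, β.2.1 + α * th T e δ β.2.2, β.2.2) := by
  rw [xh1, show ∀ a b x : G, a * b * x * (a * b)⁻¹ = a * (b * x * b⁻¹) * a⁻¹ from
    fun a b x => by group, cp1 c h g37 a2 c15 g17, cx1 c h g37 a2]
  congr 1
  ext <;> simp [th] <;> ring

theorem c9 (α : QuadraticAlgebra K δ 1)
    (β : QuadraticAlgebra K δ 1 × QuadraticAlgebra K δ 1 × QuadraticAlgebra K δ 1) :
    xh9 M r α.re α.im * mm M r β * (xh9 M r α.re α.im)⁻¹ =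
      mm M r (β.1, β.2.1 + α * th T e δ β.1, β.2.2 + th T e δ α * β.1) := by
  have := rel_conj M.n1n1 (c1 c h g37 a2 c15 g17 α (β.2.2, β.2.1, β.1))
  rwa [cn1 c h g37, cn1 c h g37] at this

end Grp

theorem exists_m {K : Type*} [Field K] [Finite K] (T : Tits K) (hq : 2 < Nat.card K) (c : K) :
    ∃ m : K, m ^ 2 + m + c ≠ 0 := by
  by_cases hc : c = 0
  · obtain ⟨a, a0, a1, -⟩ := N_not_add (T := T) hq
    exact ⟨a, by rw [hc, add_zero, show a ^ 2 + a = a * (a + 1) by ring]; exact mul_ne_zero a0 a1⟩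
  · exact ⟨0, by simpa using hc⟩

/-- **CZ** -/
theorem cz : CzStmt.{u, v} := by
  intro K _ _ T G _ _ M t c2 p r e h _ c ε δ g a2 g17 sl
  have ct := c2.toCtx
  obtain ⟨m, hm⟩ := exists_m T ct.q2 c
  have hd := inv_mul_cancel₀ hm
  set d := (m ^ 2 + m + c)⁻¹
  have k1 := c1 ct h g.g37 a2 (HR.c15 g) g17
  have k9 := c9 ct h g.g37 a2 (HR.c15 g) g17
  have := key (T := T) (e := e) (δ := δ) ct.q2 ⟨(m + 1) * d, d⟩ ⟨m, 1⟩ ⟨m ^ 2 + c, 1⟩ _ _
    (fun _ _ => rfl) (fun _ _ => rfl) (fun a β => by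
      apply mm_inj ct h g.g37
      have s := sl m d a hd
      have x : M.φ (x1 T a) = xh1 M r a 0 := by rw [xh1, (h.f1 ct).zero, mul_one]
      rw [x] at s
      rw [← k1, ← k9, ← k1, ← k1, ← k9, ← k1, ← k9, ← k1]
      have y : ((⟨a, 0⟩ : QuadraticAlgebra K δ 1) * ⟨m ^ 2 + c, 1⟩) = ⟨a * (m ^ 2 + c), a⟩ := by
        ext <;> simp
      rw [y]
      calc _ = (xh1 M r ((m + 1) * d) d * xh9 M r m 1 * xh1 M r ((m + 1) * d) d * xh1 M r a 0) *
            mm M r β *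
            (xh1 M r ((m + 1) * d) d * xh9 M r m 1 * xh1 M r ((m + 1) * d) d * xh1 M r a 0)⁻¹ := by
            simp only [mul_inv_rev, mul_assoc]
        _ = _ := by rw [s]; simp only [mul_inv_rev, mul_assoc])
  have := congrArg QuadraticAlgebra.re this
  simp only [th, map_add, map_one, mul_one, T.θθ] at this
  linear_combination -this

end Cfsg.Agent.H55.RfCz
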