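import Mathlib
import Cfsg.Agent.H74.RuDefs

/-!
# Project RU: the entry of a commutator of triangular elements
-/

set_option autoImplicit false

namespace Cfsg.Agent.H55.RuEx

open Cfsg.Agent.H74.Ru

theorem ex1 (ka : KaStmt) : Ex1Stmt := by
  intro F V _ _ _ _ _ S v hv h g t hh hg a b ab z0
  obtain ⟨-, fl, -, -, -, inv, -, pres, -⟩ := ka S v hv
  have dl : ∀ j d : Fin S.n, S.B (v j.rev) (v d) = if d = j then 1 else 0 := fun j d => by
    rw [hv, Fin.rev_rev]
  have vm : ∀ d : Fin S.n, v d ∈ Fl F v (d.val + 1) := fun d =>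
    Submodule.subset_span ⟨d, Nat.lt_succ_self _, rfl⟩
  have cB : ∀ (k : V ≃ₗ[F] V) s, Tri v k s → ∀ (c : Fin S.n) z, z ∈ Fl F v (c.val + 1) →
      S.B (v c.rev) (k z) = s c * S.B (v c.rev) z := fun k s hk c z hz => by
    induction hz using Submodule.span_induction with
    | mem x hx =>
      obtain ⟨d, hd, rfl⟩ := hx
      have := (fl _ _).1 (hk d) c (Nat.lt_succ_iff.1 hd)
      rw [map_sub, map_smul, sub_eq_zero, smul_eq_mul] at this
      rw [this, dl]
      split_ifs with e
      · rw [e]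
      · simp
    | zero => simp
    | add x y _ _ h1 h2 => simp only [map_add, h1, h2, mul_add]
    | smul r x _ h1 => simp only [map_smul, h1, smul_eq_mul]; ring
  have cA : ∀ z, z ∈ Fl F v (b.val + 1) →
      g z - z - (S.ent v g a b * S.B (v b.rev) z) • v a ∈ Fl F v a.val := fun z hz => by
    induction hz using Submodule.span_induction with
    | mem x hx =>
      obtain ⟨d, hd, rfl⟩ := hx
      have hd : d ≤ b := Nat.lt_succ_iff.1 hd
      refine (fl _ _).2 fun j hj => ?_
      have hj : a ≤ j := hj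
      rw [map_sub, map_smul, dl, dl, smul_eq_mul]
      rcases le_or_gt d j with l | l
      · have := (fl _ _).1 (hg d) j l
        rw [Pi.one_apply, Units.val_one, one_smul] at this
        rw [this]
        split_ifs with e1 e2
        · exact absurd (e2 ▸ e1 ▸ l) (not_le.2 ab)
        all_goals simp
      · rw [map_sub, dl, if_neg l.ne', sub_zero]
        split_ifs with e1 e2
        · rw [e1, ← e2, mul_one, mul_one]; exact sub_self _
        · rw [mul_zero, sub_zero]; exact z0 j d hj l hd (Or.inl (Ne.symm e2))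
        · rw [mul_zero, zero_mul, sub_zero]; exact z0 j d hj l hd (Or.inr e1)
        · rw [mul_zero, sub_zero]; exact z0 j d hj l hd (Or.inr e1)
    | zero => simp
    | add x y _ _ h1 h2 =>
      convert Submodule.add_mem _ h1 h2 using 1
      simp only [map_add, mul_add, add_smul]; abel
    | smul r x _ h1 =>
      convert Submodule.smul_mem _ r h1 using 1
      simp only [map_smul, smul_eq_mul, smul_sub, smul_smul]; congr 2; ring
  have z1 : g⁻¹ (v b) ∈ Fl F v (b.val + 1) := ((pres _ _ (inv _ _ hg) _).1 _).2 (vm b)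
  have z2 := cB _ _ (inv _ _ hg) b _ (vm b)
  have y1 : h⁻¹ (g⁻¹ (v b)) ∈ Fl F v (b.val + 1) := ((pres _ _ (inv _ _ hh) _).1 _).2 z1
  have y2 := cB _ _ (inv _ _ hh) b _ z1
  have a1 := (fl _ _).1 (cA _ z1) a le_rfl
  have a2 := (fl _ _).1 (((pres _ _ hh _).1 _).2 (cA _ y1)) a le_rfl
  have a3 := cB _ _ hh a _ (vm a)
  have i1 : ∀ (k : V ≃ₗ[F] V) x, k (k⁻¹ x) = x := fun k x => k.apply_symm_apply x
  rw [y2] at a2
  rw [z2] at a1 a2
  simp only [map_sub, map_smul, i1, dl, a3, if_true, if_neg ab.ne', smul_eq_mul, inv_one,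
    Pi.one_apply, Units.val_one, Pi.inv_apply, Units.val_inv_eq_inv_val] at a1 a2
  change S.B (v a.rev) (h (g (h⁻¹ (g⁻¹ (v b))))) = _
  rw [div_eq_mul_inv]
  linear_combination a2 - a1

end Cfsg.Agent.H55.RuEx
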