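import Cfsg.Agent.H4.SvDefs

/-! Project SV, piece LIN1: the fixed space of a subgroup of index two. -/

set_option autoImplicit false

namespace Cfsg.Agent.H55.SvLin1

open Cfsg.Agent.H50.E83 Cfsg.Agent.H4.SV Module

theorem gen {G F W : Type} [Group G] [Field F] [AddCommGroup W] [Module F W]
    (ρ : G →* Module.End F W) (c : G → ZMod 2) (hc : ∀ g h, c (g * h) = c g + c h) (x : G)
    (hx : c x = 1) (v : W) (hv : ∀ g, c g = 0 → ρ g v = v) (g : G) :
    ρ g (v + ρ x v) = v + ρ x v ∧ ρ g (v - ρ x v) = ((sg (c g) : ℤ) : F) • (v - ρ x v) := by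
  have k : ∀ g, c g = 1 → ρ g v = ρ x v := fun g hg => by
    have e : c (x⁻¹ * g) = 0 := by
      have := hc x (x⁻¹ * g)
      rw [mul_inv_cancel_left, hg, hx] at this
      linear_combination -this
    conv_lhs => rw [← mul_inv_cancel_left x g, map_mul, Module.End.mul_apply, hv _ e]
  have k2 : ρ g (ρ x v) = ρ (g * x) v := by rw [map_mul, Module.End.mul_apply]
  rw [map_add, map_sub, k2]
  rcases (by decide : ∀ a : ZMod 2, a = 0 ∨ a = 1) (c g) with e | e
  · rw [hv g e, k (g * x) (by rw [hc, e, hx, zero_add]), e]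
    simp [sg]
  · rw [k g e, hv (g * x) (by rw [hc, e, hx]; rfl), e]
    simp [sg, add_comm]

theorem lin_co (i : Fin 3) (g : T9) : lin (2 ^ (i : ℕ)) g = co i g := by
  fin_cases i <;> simp [lin, co, bt, Nat.testBit]

theorem lin_zero (g : T9) : lin 0 g = 0 := by simp [lin, bt]

theorem ex_x (i : Fin 3) : ∃ x, co i x = 1 := by
  fin_cases i
  exacts [⟨ofN 1, rfl⟩, ⟨ofN 4, rfl⟩, ⟨ofN 256, rfl⟩]

theorem lin1 : Lin1Stmt := fun φ i => by
  refine (Submodule.finrank_mono (t := E φ 0 ⊔ E φ (2 ^ (i : ℕ))) fun v hv => ?_).trans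
    (Submodule.finrank_add_le_finrank_add_finrank _ _)
  obtain ⟨x, hx⟩ := ex_x i
  have h2 : (2 : K) ≠ 0 := fun e => by
    have := (CharP.cast_eq_zero_iff K 3 2).1 (by exact_mod_cast e)
    omega
  have k := gen (act.comp φ) (co i) (fun g h => by rw [← lin_co, ← lin_co, ← lin_co, lin_mul]) x hx v
    fun g hg => mem_Fix.1 hv _ ⟨g, hg, rfl⟩
  have e : v = (2 : K)⁻¹ • ((v + act (φ x) v) + (v - act (φ x) v)) := by
    rw [add_add_sub_cancel, ← two_smul K v, inv_smul_smul₀ h2]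
  rw [e]
  refine Submodule.smul_mem _ _ (Submodule.add_mem_sup ?_ ?_)
  · refine (Submodule.mem_iInf _).2 fun g => mem_eig.2 ?_
    rw [show chi 0 g = sg (lin 0 g) from rfl, lin_zero, show sg 0 = 1 from rfl, Units.val_one,
      Int.cast_one, one_smul]
    exact (k g).1
  · refine (Submodule.mem_iInf _).2 fun g => mem_eig.2 ?_
    rw [show chi (2 ^ (i : ℕ)) g = sg (lin (2 ^ (i : ℕ)) g) from rfl, lin_co]
    exact (k g).2

end Cfsg.Agent.H55.SvLin1
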