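import Cfsg.Agent.H58.SWDefs

/-! Project SW, piece COMAU: two commuting block systems, unitary case with `q ≥ 3`. -/

set_option autoImplicit false
open Matrix Cfsg
open scoped commutatorElement

namespace Cfsg.Agent.H55.SwComaU

open Cfsg.Agent.H58.SW

theorem fixR {M : Type} [Monoid M] (R : M) (x y : Mˣ) (hx : R * x = x * R) (hy : R * y = R) :
    R * ((⁅x, y * x * y⁻¹⁆ : Mˣ) : M) = R := by
  have a1 : R * ((y⁻¹ : Mˣ) : M) = R := by
    conv_lhs => rw [← hy, Units.mul_inv_cancel_right]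
  have a2 : R * ((x⁻¹ : Mˣ) : M) = ((x⁻¹ : Mˣ) : M) * R := (Commute.units_inv_right hx).eq
  have b1 : ∀ t, R * (x * t) = x * (R * t) := fun t => by rw [← mul_assoc, hx, mul_assoc]
  have b2 : ∀ t, R * (((x⁻¹ : Mˣ) : M) * t) = ((x⁻¹ : Mˣ) : M) * (R * t) := fun t => by
    rw [← mul_assoc, a2, mul_assoc]
  have b3 : ∀ t, R * (y * t) = R * t := fun t => by rw [← mul_assoc, hy]
  have b4 : ∀ t, R * (((y⁻¹ : Mˣ) : M) * t) = R * t := fun t => by rw [← mul_assoc, a1]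
  simp only [commutatorElement_def, Units.val_mul, _root_.mul_inv_rev, inv_inv, mul_assoc, b1, b2,
    b3, b4, a1, Units.mul_inv_cancel_left]

variable {F : Type} [Field F] [Fintype F] [DecidableEq F] {n : ℕ}

omit [Fintype F] [DecidableEq F] in
theorem alg {X X1 Y : Mt n F} {v1 v2 : Vc n F} {l1 l2 α β γ δ : F} (hl : l1 ≠ l2)
    (h1 : X *ᵥ v1 = l1 • v1) (h2 : X *ᵥ v2 = l2 • v2) (h3 : X1 * Y = Y * X) (h4 : X * X1 = X1 * X)
    (h5 : Y *ᵥ v1 = α • v1 + β • v2) (ha : α ≠ 0) (hb : β ≠ 0) (h6 : Y *ᵥ v2 = γ • v1 + δ • v2) :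
    Y *ᵥ v2 = 0 := by
  have k1 : X1 *ᵥ (Y *ᵥ v1) = l1 • Y *ᵥ v1 := by
    rw [mulVec_mulVec, h3, ← mulVec_mulVec, h1, mulVec_smul]
  have k2 : X1 *ᵥ (X *ᵥ (Y *ᵥ v1)) = l1 • X *ᵥ (Y *ᵥ v1) := by
    rw [mulVec_mulVec, ← h4, ← mulVec_mulVec, k1, mulVec_smul]
  have k3 : X1 *ᵥ (Y *ᵥ v2) = l2 • Y *ᵥ v2 := by
    rw [mulVec_mulVec, h3, ← mulVec_mulVec, h2, mulVec_smul]
  rw [h5] at k1 k2
  simp only [mulVec_add, mulVec_smul, h1, h2] at k1 k2
  have k4 : X1 *ᵥ v1 = l1 • v1 := smul_right_injective _ (mul_ne_zero ha (sub_ne_zero.2 hl)) (by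
    simp only; linear_combination (norm := module) k2 - l2 • k1)
  have k5 : X1 *ᵥ v2 = l1 • v2 := smul_right_injective _ (mul_ne_zero hb (sub_ne_zero.2 hl)) (by
    simp only; linear_combination (norm := module) l1 • k1 - k2)
  have k6 : X1 *ᵥ (Y *ᵥ v2) = l1 • Y *ᵥ v2 := by
    rw [h6, mulVec_add, mulVec_smul, mulVec_smul, k4, k5]; module
  exact (smul_eq_zero.1 (show (l1 - l2) • Y *ᵥ v2 = 0 by
    rw [sub_smul, ← k6, ← k3, sub_self])).resolve_left (sub_ne_zero.2 hl)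

omit [Fintype F] [DecidableEq F] in
theorem cj_mul (s : Gl n F) (f g : Mt n F) : cj s f * cj s g = cj s (f * g) := by
  simp only [cj, Matrix.mul_assoc, Units.inv_mul_cancel_left]

omit [Fintype F] [DecidableEq F] in
theorem cj_rank (s : Gl n F) (f : Mt n F) : f.rank ≤ (cj s f).rank := by
  conv_lhs => rw [show f = ((s⁻¹ : Gl n F) : Mt n F) * (cj s f * s) by
    simp only [cj, Matrix.mul_assoc, Units.inv_mul_cancel_left, Units.inv_mul, Matrix.mul_one]]
  exact (rank_mul_le_right _ _).trans (rank_mul_le_left _ _)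

theorem cj_st {c : Cl F n} (ka : KA c) (hu : c.u = true) {s : Gl n F} (hs : s ∈ c.St)
    (f : Mt n F) : c.st (cj s f) = cj s (c.st f) := by
  have h1 : c.st s = ((s⁻¹ : Gl n F) : Mt n F) := by
    rw [← Units.mul_inv_cancel_right (c.st s) s, (ka.mem_St s).1 hs hu, Matrix.one_mul]
  have h2 : c.st ((s⁻¹ : Gl n F) : Mt n F) = s := by rw [← h1, ka.st_st hu]
  rw [cj, ka.st_mul hu, ka.st_mul hu, h1, h2, cj, Matrix.mul_assoc]

theorem vv_fix {c : Cl F n} (ka : KA c) (hu : c.u = true) {h : Mt n F} (hs : c.st h = h)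
    {v : Vc n F} (hv : h *ᵥ v = v) : h * vecMulVec v (c.bar v) = vecMulVec v (c.bar v) ∧
      vecMulVec v (c.bar v) * h = vecMulVec v (c.bar v) := by
  refine ⟨ext_iff_mulVec.2 fun u => ?_, ext_iff_mulVec.2 fun u => ?_⟩
  · rw [← mulVec_mulVec, ka.vec_ap, mulVec_smul, hv]
  · rw [← mulVec_mulVec, ka.vec_ap, ka.vec_ap, ka.hf_adj hu, hs, hv]

theorem hf_zero {c : Cl F n} (ka : KA c) (u : Vc n F) : c.hf u 0 = 0 := by
  have := ka.hf_smul' 0 u 0
  rwa [zero_pow (by have := ka.two_le; omega), zero_mul, zero_smul] at this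

theorem vv_zero {c : Cl F n} (ka : KA c) (hu : c.u = true) {h : Mt n F} (hs : c.st h = h)
    {v : Vc n F} (hv : h *ᵥ v = 0) : h * vecMulVec v (c.bar v) = 0 ∧
      vecMulVec v (c.bar v) * h = 0 := by
  refine ⟨ext_iff_mulVec.2 fun u => ?_, ext_iff_mulVec.2 fun u => ?_⟩
  · rw [← mulVec_mulVec, ka.vec_ap, mulVec_smul, hv, smul_zero, zero_mulVec]
  · rw [← mulVec_mulVec, ka.vec_ap, ka.hf_adj hu, hs, hv, hf_zero ka, zero_smul, zero_mulVec]

theorem ex_a {c : Cl F n} (ka : KA c) (hu : c.u = true) (hq : 3 ≤ c.q) :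
    ∃ a : F, a ^ c.q = -a ∧ a ≠ 0 ∧ 1 + a ≠ 0 := by
  by_contra h
  push Not at h
  have h1 : Nat.card {a : F // a ^ c.q = -a} ≤ Nat.card Prop :=
    Nat.card_le_card_of_injective (fun a => a.1 = 0) fun a b e => Subtype.ext (by
      have e' : a.1 = 0 ↔ b.1 = 0 := iff_of_eq e
      by_cases k : a.1 = 0
      · rw [k, e'.1 k]
      · have k' : b.1 ≠ 0 := fun k' => k (e'.2 k')
        linear_combination h a.1 a.2 k - h b.1 b.2 k')
  rw [ka.tz hu, Nat.card_eq_fintype_card, Fintype.card_prop] at h1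
  omega

theorem comaU (hKA : KAStmt) (hKV : KVStmt) (hKW : KWStmt) (hst : StabStmt) : ComaUStmt := by
  intro F _ _ _ n c r H Q loc hu hq E m s x lam e e1 e2 blk rk cd
  have ka := hKA F n c
  have fam := blk.fam
  have gst : ∀ f ∈ E, c.st (cj s f) = cj s f := fun f hf => by
    rw [cj_st ka hu cd.sS, blk.sf hu f hf]
  have gid : ∀ f ∈ E, cj s f * cj s f = cj s f := fun f hf => by rw [cj_mul, fam.idem f hf]
  have gor : ∀ f ∈ E, ∀ g ∈ E, f ≠ g → cj s f * cj s g = 0 := fun f hf g hg h => by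
    rw [cj_mul, fam.orth f hf g hg h, cj, Matrix.mul_zero, Matrix.zero_mul]
  have gsum : ∑ f ∈ E, cj s f = 1 := by
    simp only [cj]
    rw [← Finset.sum_mul, ← Finset.mul_sum, fam.sum, mul_one, Units.mul_inv]
  have sm : ∀ (mu : Mt n F → F), ∀ g ∈ E, (∑ f ∈ E, mu f • cj s f) * cj s g = mu g • cj s g :=
    fun mu g hg => by
      rw [Finset.sum_mul, Finset.sum_eq_single g (fun f hf h => by
        rw [smul_mul_assoc, gor f hf g hg h, smul_zero]) (fun h => (h hg).elim), smul_mul_assoc,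
        gid g hg]
  have ev : ∀ g ∈ E, e * cj s g ≠ 0 → ∃ v, e *ᵥ v = v ∧ cj s g *ᵥ v = v ∧ c.hf v v = 1 :=
    fun g hg h0 => by
      have cm := (cd.cm e cd.he g hg).eq
      obtain ⟨v, h1, h2⟩ := (hKW F n c).nrm hu (e * cj s g)
        (by rw [ka.st_mul hu, gst g hg, blk.sf hu e cd.he, cm])
        (by rw [mul_assoc, ← mul_assoc (cj s g), ← cm, mul_assoc, gid g hg, ← mul_assoc,
          fam.idem e cd.he]) h0
      refine ⟨v, ?_, ?_, h2⟩
      · conv_lhs => rw [← h1, mulVec_mulVec, ← Matrix.mul_assoc, fam.idem e cd.he, h1]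
      · conv_lhs => rw [← h1, cm, mulVec_mulVec, ← Matrix.mul_assoc, gid g hg, ← cm, h1]
  obtain ⟨v1, a1, b1, c1⟩ := ev e1 cd.h1 cd.n1
  obtain ⟨v2, a2, b2, c2⟩ := ev e2 cd.h2 cd.n2
  have ne : e1 ≠ e2 := fun h => cd.ne (by rw [h])
  have gz : ∀ g ∈ E, ∀ v, cj s g *ᵥ v = v → ∀ f ∈ E, f ≠ g → cj s f *ᵥ v = 0 :=
    fun g hg v hv f hf h => by rw [← hv, mulVec_mulVec, gor f hf g hg h, zero_mulVec]
  have xv : ∀ g ∈ E, ∀ v, cj s g *ᵥ v = v → (x : Mt n F) *ᵥ v = lam g • v := fun g hg v hv => by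
    conv_lhs => rw [← hv, mulVec_mulVec, cd.xe, sm lam g hg, smul_mulVec, hv]
  have o12 : c.hf v1 v2 = 0 := by
    rw [← b1, ka.hf_adj hu, gst e1 cd.h1, gz e2 cd.h2 v2 b2 e1 cd.h1 ne, hf_zero ka]
  have o21 : c.hf v2 v1 = 0 := by
    rw [← b2, ka.hf_adj hu, gst e2 cd.h2, gz e1 cd.h1 v1 b1 e2 cd.h2 ne.symm, hf_zero ka]
  have q0 : c.q ≠ 0 := by omega
  obtain ⟨b, hb⟩ := ka.nsurj hu (-1) (by
    have := ka.fr_add hu (-1) 1
    rw [neg_add_cancel, zero_pow q0, one_pow] at this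
    linear_combination -this) (neg_ne_zero.2 one_ne_zero)
  have b0 : b ≠ 0 := fun h => by simp [h] at hb
  obtain ⟨a, ha, a0, a1'⟩ := ex_a ka hu hq
  have w1 : c.hf v1 (v1 + b • v2) = 1 := by
    rw [ka.hf_add' hu, ka.hf_smul', c1, o12, mul_zero, add_zero]
  have w2 : c.hf v2 (v1 + b • v2) = b ^ c.q := by
    rw [ka.hf_add' hu, ka.hf_smul', c2, o21, mul_one, zero_add]
  obtain ⟨y, yS, -, hy⟩ := (hKV F n c).tvU hu (v1 + b • v2) a (by
    rw [ka.hf_add, ka.hf_smul, w1, w2]; linear_combination hb) ha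
  have yv : ∀ u, (y : Mt n F) *ᵥ u = u + (a * c.hf u (v1 + b • v2)) • (v1 + b • v2) := fun u => by
    rw [hy, add_mulVec, one_mulVec, smul_mulVec, ka.vec_ap, smul_smul]
  have ew : e *ᵥ (v1 + b • v2) = v1 + b • v2 := by rw [mulVec_add, mulVec_smul, a1, a2]
  have yH : y ∈ c.hat H := hst F n c r H Q loc E blk y yS fun f hf => by
    have k : (y : Mt n F) * f = f * y := by
      rw [hy, add_mul, mul_add, one_mul, mul_one, smul_mul_assoc, mul_smul_comm]
      by_cases h : f = e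
      · have := vv_fix ka hu (blk.sf hu f hf) (h ▸ ew)
        rw [this.1, this.2]
      · have := vv_zero ka hu (blk.sf hu f hf) (v := v1 + b • v2) (by
          rw [← ew, mulVec_mulVec, fam.orth f hf e cd.he h, zero_mulVec])
        rw [this.1, this.2]
    rwa [cj, k, Units.mul_inv_cancel_right]
  obtain ⟨mu, hz⟩ := cd.z y yH
  by_cases hmu : ∀ f ∈ E, mu f = 1
  · rw [Finset.sum_congr rfl fun f hf => by rw [hmu f hf, one_smul], gsum] at hz
    have cm := commutatorElement_eq_one_iff_mul_comm.1 (Units.ext hz)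
    have k := alg (X1 := ((y * x * y⁻¹ : Gl n F) : Mt n F)) (Y := y) (α := 1 + a) (β := a * b)
      (γ := a * b ^ c.q) (δ := 1 + a * b ^ c.q * b) cd.ne (xv e1 cd.h1 v1 b1)
      (xv e2 cd.h2 v2 b2) (by rw [← Units.val_mul, inv_mul_cancel_right, Units.val_mul])
      (by rw [← Units.val_mul, cm, Units.val_mul]) (by rw [yv, w1]; module) a1'
      (mul_ne_zero a0 b0) (by rw [yv, w2]; module)
    have k2 : v2 = 0 := by
      rw [← one_mulVec v2, ← Units.inv_mul y, ← mulVec_mulVec, k, mulVec_zero]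
    rw [k2, hf_zero ka] at c2
    exact zero_ne_one c2
  push Not at hmu
  obtain ⟨f, hf, hmu⟩ := hmu
  set p1 := vecMulVec v1 (c.bar v1) with hp1
  set p2 := vecMulVec v2 (c.bar v2) with hp2
  have gp : ∀ g ∈ E, ∀ v, cj s g *ᵥ v = v → ∀ f ∈ E,
      Commute (vecMulVec v (c.bar v)) (cj s f) := fun g hg v hv f hf => by
    by_cases h : f = g
    · have := vv_fix ka hu (gst f hf) (h ▸ hv)
      exact this.2.trans this.1.symm
    · have := vv_zero ka hu (gst f hf) (gz g hg v hv f hf h)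
      exact this.2.trans this.1.symm
  have gR : ∀ f ∈ E, Commute (1 - (p1 + p2)) (cj s f) := fun f hf =>
    (Commute.one_left _).sub_left ((gp e1 cd.h1 v1 b1 f hf).add_left (gp e2 cd.h2 v2 b2 f hf))
  have k := fixR (1 - (p1 + p2)) x y (by
    rw [cd.xe]
    exact (Commute.sum_right _ _ _ fun f hf => (gR f hf).smul_right _).eq) (ext_iff_mulVec.2 fun u => by
      rw [← mulVec_mulVec, yv, mulVec_add, mulVec_smul, add_eq_left]
      refine smul_eq_zero.2 (Or.inr ?_)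
      rw [sub_mulVec, one_mulVec, add_mulVec, hp1, hp2, ka.vec_ap, ka.vec_ap, ka.hf_add, ka.hf_add,
        ka.hf_smul, ka.hf_smul, c1, c2, o12, o21]
      module)
  have k2 : (1 - (p1 + p2)) * cj s f = 0 := by
    have := congrArg (· * cj s f) k
    simp only [hz] at this
    rw [mul_assoc, sm mu f hf, mul_smul_comm] at this
    refine (smul_eq_zero.1 ?_).resolve_left (sub_ne_zero.2 hmu)
    rw [sub_smul, this, one_smul, sub_self]
  rw [sub_mul, one_mul, sub_eq_zero, add_mul] at k2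
  have k3 : (cj s f).rank ≤ 1 := by
    by_cases h : f = e1
    · rw [k2, (vv_zero ka hu (gst f hf) (gz e2 cd.h2 v2 b2 f hf (h ▸ ne))).2, add_zero]
      exact (rank_mul_le_left _ _).trans (rank_vecMulVec_le _ _)
    · rw [k2, (vv_zero ka hu (gst f hf) (gz e1 cd.h1 v1 b1 f hf h)).2, zero_add]
      exact (rank_mul_le_left _ _).trans (rank_vecMulVec_le _ _)
  have k4 : 2 ≤ e.rank := by
    have li : LinearIndependent F ![(⟨v1, v1, a1⟩ : LinearMap.range e.mulVecLin), ⟨v2, v2, a2⟩] :=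
      LinearIndependent.pair_iff.2 fun α β h => by
        have h' : α • v1 + β • v2 = 0 := congrArg Subtype.val h
        have z : ∀ u, c.hf 0 u = 0 := fun u => by simpa using ka.hf_smul 0 0 u
        have t1 := congrArg (c.hf · v1) h'
        have t2 := congrArg (c.hf · v2) h'
        simp only [ka.hf_add, ka.hf_smul, c1, c2, o12, o21, z] at t1 t2
        exact ⟨by simpa using t1, by simpa using t2⟩
    simpa [Matrix.rank] using li.fintype_card_le_finrank
  have := cj_rank s f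
  rw [rk f hf] at this
  rw [rk e cd.he] at k4
  omega

end Cfsg.Agent.H55.SwComaU
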